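import Cfsg.Agent.Lib.Helper48.BN.Defs

set_option autoImplicit false

namespace Cfsg.Agent.Lib.Helper48.BN

open scoped Pointwise
open Cfsg Cfsg.Agent.Lib.Helper33

variable {G : Type*} [Group G]

/-- `N_G(S)` normalizes `J(S)`, `Z(J(S))`, `C_S(Z(J(S)))` (use `Helper33.J_conj`). -/
theorem normalizer_le_J (S : Subgroup G) :
    Subgroup.normalizer (S : Set G) ≤ Subgroup.normalizer (thompsonSubgroupAOf S : Set G) := by
  intro n hn
  rw [mem_normalizer_iff_smul] at hn ⊢
  rw [← J_conj, hn]

theorem normalizer_le_W (S : Subgroup G) :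
    Subgroup.normalizer (S : Set G) ≤ Subgroup.normalizer (centerThompsonAOf S : Set G) := by
  intro n hn
  have h1 := mem_normalizer_iff_smul.1 (normalizer_le_J S hn)
  rw [mem_normalizer_iff_smul]
  unfold centerThompsonAOf
  rw [Subgroup.smul_inf, smul_centralizer, ← Subgroup.coe_pointwise_smul, h1]

theorem normalizer_le_B (S : Subgroup G) :
    Subgroup.normalizer (S : Set G) ≤ Subgroup.normalizer (BS S : Set G) := by
  intro n hn
  have h1 := mem_normalizer_iff_smul.1 (normalizer_le_W S hn)
  have h2 := mem_normalizer_iff_smul.1 hn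
  rw [mem_normalizer_iff_smul]
  rw [Subgroup.smul_inf, smul_centralizer, ← Subgroup.coe_pointwise_smul, h1, h2]

/-- `J(S) ≤ C_S(Z(J(S)))` -/
theorem J_le_B (S : Subgroup G) : thompsonSubgroupAOf S ≤ BS S := by
  refine le_inf (J_le_self S) ?_
  intro x hx
  rw [Subgroup.mem_centralizer_iff]
  intro w hw
  exact ((Subgroup.mem_centralizer_iff.1 hw.2) x hx).symm

/-- `Z(S) ≤ Z(J(S))` -/
theorem ZS_le_W [Finite G] (S : Subgroup G) : ZS S ≤ centerThompsonAOf S :=
  le_inf (center_le_J S) (inf_le_right.trans (Subgroup.centralizer_le (J_le_self S)))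

/-- `Z(J(S))` lies in every abelian subgroup of `S` of largest order -/
theorem W_le_of_maxAb [Finite G] {S A : Subgroup G} (hA : MaxAb S A) : centerThompsonAOf S ≤ A := by
  apply hA.le_of_centralizes (inf_le_left.trans (J_le_self S))
  · intro a ha b hb
    exact (Subgroup.mem_centralizer_iff.1 hb.2) a ha.1
  · intro d hd a ha
    exact ((Subgroup.mem_centralizer_iff.1 hd.2) a (hA.le_J ha)).symm

end Cfsg.Agent.Lib.Helper48.BN
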