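import Cfsg.Agent.Lib.Helper48.BN.CLDefs

set_option autoImplicit false

namespace Cfsg.Agent.Lib.Helper48.BN

open scoped Pointwise
open Cfsg Cfsg.Agent.Lib.Helper33 Cfsg.Agent.Lib.Helper47

variable {G : Type*} [Group G] [Finite G]

omit [Finite G] in
theorem CL1_clm_map (S : Subgroup G) (Q : Subgroup ↥S) :
    Helper50.clm (Q.map S.subtype) = Helper50.clm Q := by
  unfold Helper50.clm
  rw [← Nat.card_congr (Q.equivMapOfInjective S.subtype S.subtype_injective).toEquiv,
    ← Nat.card_congr (Subgroup.centerCongr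
      (Q.equivMapOfInjective S.subtype S.subtype_injective)).toEquiv]

omit [Finite G] in
theorem CL1_map_subgroupOf {S R : Subgroup G} (h : R ≤ S) : (R.subgroupOf S).map S.subtype = R := by
  rw [Subgroup.subgroupOf_map_subtype, inf_eq_left.2 h]

theorem CL1_iff_forall {X : Type*} [Group X] [Finite X] (Q : Subgroup X) :
    IsCentrallyLarge Q ↔ ∀ Q' : Subgroup X, Helper50.clm Q' ≤ Helper50.clm Q := by
  constructor
  · intro h Q'
    have h' : Helper50.clm Q = maxCentralProduct X := h
    rw [h']
    exact Helper50.clm_le_max Q'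
  · intro h
    obtain ⟨R, hR⟩ := Helper50.exists_isCentrallyLarge (G := X)
    have hR' : Helper50.clm R = maxCentralProduct X := hR
    exact le_antisymm (Helper50.clm_le_max Q) (hR' ▸ h R)

theorem isCentrallyLarge_iff_CLin (S : Subgroup G) (Q : Subgroup ↥S) :
    IsCentrallyLarge Q ↔ CLin S (Q.map S.subtype) := by
  rw [CL1_iff_forall]
  constructor
  · intro h
    refine ⟨Subgroup.map_subtype_le Q, fun R' hR' => ?_⟩
    rw [← Helper50.clm_eq, ← Helper50.clm_eq, CL1_clm_map, ← CL1_map_subgroupOf hR', CL1_clm_map]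
    exact h _
  · intro h Q'
    have := h.2 (Q'.map S.subtype) (Subgroup.map_subtype_le Q')
    rw [← Helper50.clm_eq, ← Helper50.clm_eq, CL1_clm_map, CL1_clm_map] at this
    exact this

theorem isMinimalCentrallyLarge_iff_MCLin (S : Subgroup G) (Q : Subgroup ↥S) :
    IsMinimalCentrallyLarge Q ↔ MCLin S (Q.map S.subtype) := by
  unfold IsMinimalCentrallyLarge MCLin
  rw [isCentrallyLarge_iff_CLin]
  refine and_congr_right fun _ => ⟨fun h R' hR' hcl => ?_, fun h R' hR' hcl => ?_⟩
  · have hS : R' ≤ S := hR'.trans (Subgroup.map_subtype_le Q)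
    rw [← CL1_map_subgroupOf hS] at hcl hR' ⊢
    rw [← isCentrallyLarge_iff_CLin] at hcl
    rw [h _ ((Subgroup.map_le_map_iff_of_injective S.subtype_injective).1 hR') hcl]
  · rw [isCentrallyLarge_iff_CLin] at hcl
    exact Subgroup.map_injective S.subtype_injective (h _ (Subgroup.map_mono hR') hcl)

theorem MCLin.isMinimalCentrallyLarge {S R : Subgroup G} (h : MCLin S R) :
    IsMinimalCentrallyLarge (R.subgroupOf S) := by
  rw [isMinimalCentrallyLarge_iff_MCLin, CL1_map_subgroupOf h.1.1]
  exact h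

theorem CLin.isCentrallyLarge {S R : Subgroup G} (h : CLin S R) :
    IsCentrallyLarge (R.subgroupOf S) := by
  rw [isCentrallyLarge_iff_CLin, CL1_map_subgroupOf h.1]
  exact h

end Cfsg.Agent.Lib.Helper48.BN
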