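import Cfsg.Agent.Lib.Helper48.BN.CL1
import Cfsg.Agent.S3005
import Cfsg.Agent.S3007

set_option autoImplicit false

namespace Cfsg.Agent.Lib.Helper48.BN

open scoped Pointwise
open Cfsg Cfsg.Agent.Lib.Helper33 Cfsg.Agent.Lib.Helper47

variable {G : Type*} [Group G] [Finite G] {p : ℕ} [Fact p.Prime] {S Q R : Subgroup G}

omit [Finite G] in
theorem CL2_map_centralizer (hR : R ≤ S) :
    (Subgroup.centralizer ((R.subgroupOf S : Subgroup ↥S) : Set ↥S)).map S.subtype
      = S ⊓ Subgroup.centralizer (R : Set G) := by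
  ext x
  constructor
  · rintro ⟨y, hy, rfl⟩
    refine Subgroup.mem_inf.2 ⟨y.2, Subgroup.mem_centralizer_iff.2 fun r hr => ?_⟩
    have := Subgroup.mem_centralizer_iff.1 hy ⟨r, hR hr⟩ (Subgroup.mem_subgroupOf.2 hr)
    exact congrArg Subtype.val this
  · intro hx
    obtain ⟨hxS, hxC⟩ := Subgroup.mem_inf.1 hx
    exact ⟨⟨x, hxS⟩, Subgroup.mem_centralizer_iff.2 fun r hr =>
      Subtype.ext (Subgroup.mem_centralizer_iff.1 hxC r (Subgroup.mem_subgroupOf.1 hr)), rfl⟩

omit [Finite G] in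
theorem CL2_card_centralizer (hR : R ≤ S) :
    Nat.card (Subgroup.centralizer ((R.subgroupOf S : Subgroup ↥S) : Set ↥S))
      = Nat.card (S ⊓ Subgroup.centralizer (R : Set G) : Subgroup G) := by
  rw [← CL2_map_centralizer hR]
  exact (Subgroup.card_map_of_injective S.subtype_injective).symm

omit [Finite G] in
theorem CL2_card_subgroupOf (hR : R ≤ S) : Nat.card (R.subgroupOf S) = Nat.card R :=
  Nat.card_congr (Subgroup.subgroupOfEquivOfLe hR).toEquiv

theorem CLin.centralizer_le (hS : IsPGroup p S) (h : CLin S Q) : S ⊓ Subgroup.centralizer (Q : Set G) ≤ Q := by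
  have h1 := Helper50.cl_centralizer_le h.isCentrallyLarge
  rw [← CL2_map_centralizer h.1]
  exact (Subgroup.map_mono h1).trans (CL1_map_subgroupOf h.1).le

theorem CL2_ZS (hS : IsPGroup p S) (h : CLin S Q) : S ⊓ Subgroup.centralizer (Q : Set G) = ZS Q :=
  le_antisymm (le_inf (h.centralizer_le hS) inf_le_right) (inf_le_inf_right _ h.1)

/-- a centrally large subgroup has the largest Chermak-Delgado measure -/
theorem CLin.measure_le (hS : IsPGroup p S) (h : CLin S Q) (hR : R ≤ S) :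
    Nat.card R * Nat.card (S ⊓ Subgroup.centralizer (R : Set G) : Subgroup G) ≤ Nat.card Q * Nat.card (ZS Q) := by
  have h1 := Helper50.cdm_le_max (R.subgroupOf S)
  have h2 : Helper50.clm (Q.subgroupOf S) = maxCentralProduct ↥S := h.isCentrallyLarge
  rw [← Helper50.maxCentralProduct_eq, ← h2, ← CL1_clm_map, CL1_map_subgroupOf h.1,
    Helper50.clm_eq, Helper50.cdm, CL2_card_centralizer hR, CL2_card_subgroupOf hR] at h1
  exact h1

theorem CLin.exists_MCLin_le (h : CLin S R) : ∃ Q, Q ≤ R ∧ MCLin S Q := by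
  obtain ⟨Q', hQ', hm⟩ := Helper50.exists_isMinimalCentrallyLarge_le h.isCentrallyLarge
  refine ⟨Q'.map S.subtype, ?_, (isMinimalCentrallyLarge_iff_MCLin S Q').1 hm⟩
  exact (Subgroup.map_mono hQ').trans (CL1_map_subgroupOf h.1).le

theorem exists_MCLin (S : Subgroup G) : ∃ Q, MCLin S Q := by
  obtain ⟨Q', hm⟩ := Helper50.exists_isMinimalCentrallyLarge (G := ↥S)
  exact ⟨Q'.map S.subtype, (isMinimalCentrallyLarge_iff_MCLin S Q').1 hm⟩

theorem MCLin.eq_sup (hS : IsPGroup p S) (hQ : MCLin S Q) (hR : MCLin S R) : (Q ⊓ R) ⊔ ZS Q = Q := by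
  have h1 := Helper50.mincl_inf_sup hQ.isMinimalCentrallyLarge hR.1.isCentrallyLarge
  have h2 := congrArg (Subgroup.map S.subtype) h1
  rw [Subgroup.map_sup, CL2_map_centralizer hQ.1.1, CL1_map_subgroupOf hQ.1.1,
    Subgroup.map_inf _ _ _ S.subtype_injective, CL1_map_subgroupOf hQ.1.1,
    CL1_map_subgroupOf hR.1.1, CL2_ZS hS hQ.1] at h2
  exact h2

theorem MCLin.commutator_eq (hS : IsPGroup p S) (hQ : MCLin S Q) (hR : MCLin S R) : ⁅Q, Q⁆ = ⁅R, R⁆ := by
  have h1 := Helper50.mincl_commutator_eq hQ.isMinimalCentrallyLarge hR.isMinimalCentrallyLarge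
  have h2 := congrArg (Subgroup.map S.subtype) h1
  rw [Subgroup.map_commutator, Subgroup.map_commutator, CL1_map_subgroupOf hQ.1.1,
    CL1_map_subgroupOf hR.1.1] at h2
  exact h2

theorem MCLin.card_eq (hS : IsPGroup p S) (hQ : MCLin S Q) (hR : MCLin S R) :
    Nat.card Q = Nat.card R ∧ Nat.card (ZS Q) = Nat.card (ZS R) := by
  have h1 := Helper50.mincl_card hQ.isMinimalCentrallyLarge hR.isMinimalCentrallyLarge
  rw [CL2_card_subgroupOf hQ.1.1, CL2_card_subgroupOf hR.1.1, CL2_card_centralizer hQ.1.1,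
    CL2_card_centralizer hR.1.1, CL2_ZS hS hQ.1, CL2_ZS hS hR.1] at h1
  exact h1

end Cfsg.Agent.Lib.Helper48.BN
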