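import Cfsg.Agent.Lib.Helper48.BN.CLDefs

set_option autoImplicit false

namespace Cfsg.Agent.Lib.Helper48.BN

open scoped Pointwise
open Cfsg Cfsg.Agent.Lib.Helper33 Cfsg.Agent.Lib.Helper47

variable {G : Type*} [Group G] {S Q : Subgroup G}

theorem CL3_card (φ : MulAut G) (H : Subgroup G) : Nat.card (φ • H : Subgroup G) = Nat.card H :=
  (Nat.card_congr (Subgroup.equivSMul φ H).toEquiv).symm

theorem CL3_cent (φ : MulAut G) (H : Subgroup G) :
    Subgroup.centralizer ((φ • H : Subgroup G) : Set G) = φ • Subgroup.centralizer (H : Set G) := by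
  ext x
  rw [Subgroup.mem_pointwise_smul_iff_inv_smul_mem, Subgroup.mem_centralizer_iff,
    Subgroup.mem_centralizer_iff]
  constructor
  · intro hx y hy
    have h1 := hx (φ y) ⟨y, hy, rfl⟩
    apply φ.injective
    rw [map_mul, map_mul, MulAut.smul_def, MulAut.apply_inv_self]
    exact h1
  · rintro hx _ ⟨y, hy, rfl⟩
    have h1 := congrArg φ (hx y hy)
    rw [map_mul, map_mul, MulAut.smul_def, MulAut.apply_inv_self] at h1
    exact h1

theorem CL3_ZS (φ : MulAut G) (R : Subgroup G) : ZS (φ • R) = φ • ZS R := by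
  show φ • R ⊓ Subgroup.centralizer ((φ • R : Subgroup G) : Set G) = φ • (R ⊓ _)
  rw [Subgroup.smul_inf, CL3_cent]

theorem CL3_omega (p : ℕ) (φ : MulAut G) (H : Subgroup G) :
    omegaOne p (φ • H) = φ • omegaOne p H := by
  unfold omegaOne
  rw [Subgroup.smul_closure]
  congr 1
  ext x
  constructor
  · rintro ⟨⟨y, hy, rfl⟩, hx⟩
    refine ⟨y, ⟨hy, ?_⟩, rfl⟩
    apply φ.injective
    rw [map_pow, map_one]
    exact hx
  · rintro ⟨y, ⟨hy, hyp⟩, rfl⟩
    refine ⟨⟨y, hy, rfl⟩, ?_⟩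
    show (φ y) ^ p = 1
    rw [← map_pow, hyp, map_one]

theorem CL3_CLin (φ : MulAut G) {R : Subgroup G} (hR : CLin S R) (h : φ • R ≤ S) :
    CLin S (φ • R) := by
  refine ⟨h, fun R' hR' => ?_⟩
  rw [CL3_card, CL3_ZS, CL3_card]
  exact hR.2 R' hR'

theorem CL3_MCLin (φ : MulAut G) (hQ : MCLin S Q) (h : φ • Q ≤ S) : MCLin S (φ • Q) := by
  refine ⟨CL3_CLin φ hQ.1 h, fun R' hR' hcl => ?_⟩
  have h1 : φ⁻¹ • R' ≤ Q := by
    rw [← Subgroup.pointwise_smul_le_pointwise_smul_iff (a := φ), smul_inv_smul]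
    exact hR'
  have h2 := hQ.2 _ h1 (CL3_CLin φ⁻¹ hcl (h1.trans hQ.1.1))
  rw [← h2, smul_inv_smul]

theorem MCLin.conj (hQ : MCLin S Q) (g : G) (h : MulAut.conj g • Q ≤ S) : MCLin S (MulAut.conj g • Q) :=
  CL3_MCLin _ hQ h

theorem card_omegaOneCenter_conj (p : ℕ) (Q : Subgroup G) (g : G) :
    Nat.card (omegaOneCenter p (MulAut.conj g • Q)) = Nat.card (omegaOneCenter p Q) := by
  unfold omegaOneCenter
  have : MulAut.conj g • Q ⊓ Subgroup.centralizer ((MulAut.conj g • Q : Subgroup G) : Set G)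
      = MulAut.conj g • (Q ⊓ Subgroup.centralizer (Q : Set G)) := CL3_ZS (MulAut.conj g) Q
  rw [this, CL3_omega, CL3_card]

theorem QMax.conj {p : ℕ} (hQ : QMax p S Q) (g : G) (h : MulAut.conj g • Q ≤ S) : QMax p S (MulAut.conj g • Q) := by
  refine ⟨hQ.1.conj g h, fun R hR => ?_⟩
  rw [card_omegaOneCenter_conj]
  exact hQ.2 R hR

theorem CL3_frattini_map {A B : Type*} [Group A] [Group B] (e : A ≃* B) :
    (frattini A).map e.toMonoidHom = frattini B :=
  OrderIso.map_radical e.mapSubgroup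

theorem frattiniOf_conj (Q : Subgroup G) (g : G) :
    frattiniOf (MulAut.conj g • Q) = MulAut.conj g • frattiniOf Q := by
  unfold frattiniOf
  rw [← CL3_frattini_map (Subgroup.equivSMul (MulAut.conj g) Q), Subgroup.map_map]
  have h1 : MulAut.conj g • Subgroup.map Q.subtype (frattini ↥Q)
      = (Subgroup.map Q.subtype (frattini ↥Q)).map (MulAut.conj g).toMonoidHom := rfl
  rw [h1, Subgroup.map_map]
  rfl

end Cfsg.Agent.Lib.Helper48.BN
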