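import Cfsg.Agent.Lib.Helper48.BN.Defs

set_option autoImplicit false

namespace Cfsg.Agent.Lib.Helper48.BN

open scoped Pointwise
open Cfsg Cfsg.Agent.Lib.Helper33

variable {G : Type*} [Group G] [Finite G] {p : ℕ} [Fact p.Prime] {S : Sylow p G}

/-- `Z(S) ≤ C_G(O_p(G)) ≤ O_p(G)`, so `Z(S) ≤ Z(O_p(G))`, which is normal in `G`. -/
theorem V_le (hS : Setup p S) :
    VS (S : Subgroup G) ≤ pCore p G ⊓ Subgroup.centralizer (pCore p G : Set G) := by
  have hn : (Subgroup.centralizer (pCore p G : Set G)).Normal := inferInstance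
  have hn2 : (pCore p G ⊓ Subgroup.centralizer (pCore p G : Set G)).Normal := inferInstance
  apply Subgroup.normalClosure_le_normal
  intro z hz
  have h1 : z ∈ Subgroup.centralizer (pCore p G : Set G) :=
    Subgroup.centralizer_le (pCore_le S) hz.2
  exact ⟨hS.cc h1, h1⟩

theorem V_comm (hS : Setup p S) : ∀ x ∈ VS (S : Subgroup G), ∀ y ∈ VS (S : Subgroup G), x * y = y * x := by
  intro x hx y hy
  exact (Subgroup.mem_centralizer_iff.1 (V_le hS hy).2) x (V_le hS hx).1

/-- `C_G(V)` is normal; if `S ∩ C_G(V) ≰ O_p(G)` then `Z(S) ≤ V` is central by `central_of`. -/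
theorem cent_V (hS : Setup p S) (hZ : ¬ ZS (S : Subgroup G) ≤ Subgroup.center G) :
    (S : Subgroup G) ⊓ Subgroup.centralizer (VS (S : Subgroup G) : Set G) ≤ pCore p G := by
  by_contra h
  have hn : (Subgroup.centralizer (VS (S : Subgroup G) : Set G)).Normal := inferInstance
  exact hZ (central_of hS _ h (ZS (S : Subgroup G)) le_rfl
    (Subgroup.centralizer_le Subgroup.subset_normalClosure))

end Cfsg.Agent.Lib.Helper48.BN
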