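import Cfsg.Agent.Lib.Helper48.BN.Defs

set_option autoImplicit false

namespace Cfsg.Agent.Lib.Helper48.BN

open scoped Pointwise
open Cfsg Cfsg.Agent.Lib.Helper33

/-- the characters trivial on `V₁` are the characters of `V ⧸ V₁`
(`CommGroup.card_monoidHom_of_hasEnoughRootsOfUnity`). -/
theorem card_char {V : Type*} [CommGroup V] [Finite V] (V₁ : Subgroup V) :
    Nat.card {f : V →* ℂˣ // ∀ v ∈ V₁, f v = 1} * Nat.card V₁ = Nat.card V := by
  have e : {f : V →* ℂˣ // ∀ v ∈ V₁, f v = 1} ≃ ((V ⧸ V₁) →* ℂˣ) :=
    { toFun := fun f => QuotientGroup.lift V₁ f.1 (fun v hv => f.2 v hv)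
      invFun := fun φ => ⟨φ.comp (QuotientGroup.mk' V₁), fun v hv => by
        have : QuotientGroup.mk' V₁ v = 1 := (QuotientGroup.eq_one_iff v).mpr hv
        simp only [MonoidHom.comp_apply, this, map_one]⟩
      left_inv := fun f => by
        apply Subtype.ext
        apply MonoidHom.ext
        intro v
        rfl
      right_inv := fun φ => by
        apply MonoidHom.ext
        intro v
        induction v using QuotientGroup.induction_on with
        | H v => rfl }
  rw [Nat.card_congr e, CommGroup.card_monoidHom_of_hasEnoughRootsOfUnity (V ⧸ V₁) ℂ]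
  have := Subgroup.card_eq_card_quotient_mul_card_subgroup V₁
  exact this.symm

end Cfsg.Agent.Lib.Helper48.BN
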