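import Cfsg.Agent.Lib.Helper48.BN.P6a
import Cfsg.Agent.Lib.Helper48.BN.P6b

set_option autoImplicit false

namespace Cfsg.Agent.Lib.Helper48.BN

open scoped Pointwise commutatorElement
open Cfsg Cfsg.Agent.Lib.Helper33

/-- The failure-of-factorization inequality. -/
theorem ff_ineq {G : Type*} [Group G] [Finite G] (p : ℕ) (V T A C : Subgroup G) [V.Normal]
    (hVab : ∀ x ∈ V, ∀ y ∈ V, x * y = y * x) (hCA : C ≤ A)
    (hgen : ∀ a ∈ A, a ∉ C → Subgroup.closure {a} ⊔ T = ⊤)
    (hne : ¬ ⁅V, (⊤ : Subgroup G)⁆ ≤ ⁅V, T⁆ ⊔ powerClosure p 1 V) :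
    Nat.card A * Nat.card ((V ⊓ Subgroup.centralizer (A : Set G)) ⊔ powerClosure p 1 V : Subgroup G)
      ≤ Nat.card C * Nat.card V := by
  classical
  letI : CommGroup V :=
    { (inferInstance : Group V) with
      mul_comm := fun a b => Subtype.ext (hVab a.1 a.2 b.1 b.2) }
  obtain ⟨x, hx, hx0⟩ := SetLike.not_le_iff_exists.mp hne
  have hxV : x ∈ V := (Subgroup.commutator_le_left V ⊤) hx
  set V₀ : Subgroup G := ⁅V, T⁆ ⊔ powerClosure p 1 V with hV₀
  set V₁ : Subgroup G := (V ⊓ Subgroup.centralizer (A : Set G)) ⊔ powerClosure p 1 V with hV₁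
  have hpcV : powerClosure p 1 V ≤ V := by
    unfold powerClosure
    rw [Subgroup.closure_le]
    rintro y ⟨w, hw, rfl⟩
    exact V.pow_mem hw _
  have hV₁V : V₁ ≤ V := sup_le inf_le_left hpcV
  obtain ⟨f, hf0, hfx⟩ := exists_char (V₀.subgroupOf V) ⟨x, hxV⟩
    (by rw [Subgroup.mem_subgroupOf]; exact hx0)
  have hf0' : ∀ v : V, (v : G) ∈ V₀ → f v = 1 := fun v hv =>
    hf0 v (by rw [Subgroup.mem_subgroupOf]; exact hv)
  -- conjugation
  let cj : G →* MulAut V := MulAut.conjNormal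
  have hcj : ∀ (g : G) (v : V), ((cj g v : V) : G) = g * v * g⁻¹ := fun g v =>
    MulAut.conjNormal_apply g v
  -- the stabilizer of f
  let Stab : Subgroup G :=
    { carrier := {y | ∀ v : V, f (cj y v) = f v}
      one_mem' := by intro v; simp
      mul_mem' := by
        intro a b ha hb v
        rw [map_mul, MulAut.mul_apply, ha, hb]
      inv_mem' := by
        intro a ha v
        have := ha (cj a⁻¹ v)
        rw [← MulAut.mul_apply, ← map_mul, mul_inv_cancel, map_one, MulAut.one_apply] at this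
        exact this.symm }
  have hStab : ∀ y, y ∈ Stab ↔ ∀ v : V, f (cj y v) = f v := fun y => Iff.rfl
  have hT : T ≤ Stab := by
    intro t ht
    rw [hStab]
    intro v
    have h1 : cj t v = v * (v⁻¹ * cj t v) := by group
    have h2 : ((v⁻¹ * cj t v : V) : G) ∈ V₀ := by
      apply (le_sup_left : ⁅V, T⁆ ≤ V₀)
      have : ((v⁻¹ * cj t v : V) : G) = ⁅(v : G)⁻¹, t⁆ := by
        rw [Subgroup.coe_mul, hcj, commutatorElement_def]
        simp [mul_assoc]
      rw [this]
      exact Subgroup.commutator_mem_commutator (V.inv_mem v.2) ht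
    rw [h1, map_mul, hf0' _ h2, mul_one]
  have hStabne : Stab ≠ ⊤ := by
    intro htop
    apply hfx
    have hle : ⁅V, (⊤ : Subgroup G)⁆ ≤ (f.ker).map V.subtype := by
      rw [Subgroup.commutator_le]
      intro v hv g _
      refine ⟨(⟨v, hv⟩ : V) * cj g (⟨v, hv⟩ : V)⁻¹, ?_, ?_⟩
      · have hg : g ∈ Stab := by rw [htop]; exact Subgroup.mem_top g
        change _ ∈ f.ker
        rw [MonoidHom.mem_ker, map_mul, (hStab g).mp hg, ← map_mul, mul_inv_cancel, map_one]
      · rw [Subgroup.coe_subtype, Subgroup.coe_mul, hcj, commutatorElement_def]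
        simp [mul_assoc]
    obtain ⟨x', hx', hxx⟩ := hle hx
    have : x' = ⟨x, hxV⟩ := Subtype.ext hxx
    rw [← this]
    exact hx'
  -- the characters φ_a
  let φ : G → (V →* ℂˣ) := fun a => (f.comp (cj a⁻¹).toMonoidHom) * f⁻¹
  have hφ : ∀ (a : G) (v : V), φ a v = f (cj a⁻¹ v) * (f v)⁻¹ := fun a v => rfl
  have hφ1 : ∀ a ∈ A, ∀ v ∈ V₁.subgroupOf V, φ a v = 1 := by
    intro a ha
    have hle : V₁ ≤ ((φ a).ker).map V.subtype := by
      apply sup_le
      · intro v hv
        refine ⟨⟨v, hv.1⟩, ?_, rfl⟩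
        change _ ∈ (φ a).ker
        rw [MonoidHom.mem_ker, hφ]
        have : cj a⁻¹ (⟨v, hv.1⟩ : V) = ⟨v, hv.1⟩ := by
          apply Subtype.ext
          rw [hcj]
          have h3 := (Subgroup.mem_centralizer_iff.mp hv.2) a⁻¹ (A.inv_mem ha)
          change a⁻¹ * v * a⁻¹⁻¹ = v
          rw [h3]; group
        rw [this, mul_inv_cancel]
      · unfold powerClosure
        rw [Subgroup.closure_le]
        rintro y ⟨w, hw, rfl⟩
        refine ⟨(⟨w, hw⟩ : V) ^ (p ^ 1), ?_, rfl⟩
        change _ ∈ (φ a).ker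
        have hpow : ∀ w' : V, f (w' ^ (p ^ 1)) = 1 := by
          intro w'
          apply hf0'
          apply (le_sup_right : powerClosure p 1 V ≤ V₀)
          exact Subgroup.subset_closure ⟨w', w'.2, rfl⟩
        rw [MonoidHom.mem_ker, hφ, map_pow, hpow, hpow, inv_one, mul_one]
    intro v hv
    rw [Subgroup.mem_subgroupOf] at hv
    obtain ⟨v', hv', hvv⟩ := hle hv
    have : v' = v := Subtype.ext hvv
    rw [← this]
    exact hv'
  have hinj : ∀ a ∈ A, ∀ b ∈ A, φ a = φ b → a⁻¹ * b ∈ C := by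
    intro a ha b hb hab
    by_contra hnot
    have h1 : a⁻¹ * b ∈ Stab := by
      rw [hStab]
      intro v
      have h2 := DFunLike.congr_fun hab (cj b v)
      rw [hφ, hφ, mul_left_inj, ← MulAut.mul_apply, ← MulAut.mul_apply, ← map_mul, ← map_mul,
        inv_mul_cancel, map_one, MulAut.one_apply] at h2
      exact h2
    apply hStabne
    rw [eq_top_iff, ← hgen _ (A.mul_mem (A.inv_mem ha) hb) hnot]
    apply sup_le _ hT
    rw [Subgroup.closure_le]
    intro y hy
    rw [Set.mem_singleton_iff] at hy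
    rw [hy]; exact h1
  -- counting
  have hK := card_char (V₁.subgroupOf V)
  have hV₁card : Nat.card (V₁.subgroupOf V) = Nat.card V₁ :=
    Nat.card_congr (Subgroup.subgroupOfEquivOfLe hV₁V).toEquiv
  have hCcard : Nat.card (C.subgroupOf A) = Nat.card C :=
    Nat.card_congr (Subgroup.subgroupOfEquivOfLe hCA).toEquiv
  rw [hV₁card] at hK
  have hfin : Finite {f : V →* ℂˣ // ∀ v ∈ V₁.subgroupOf V, f v = 1} := by
    apply Nat.finite_of_card_ne_zero
    intro h0
    rw [h0, zero_mul] at hK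
    exact Nat.card_pos.ne hK
  have hle : Nat.card (A ⧸ C.subgroupOf A) ≤
      Nat.card {f : V →* ℂˣ // ∀ v ∈ V₁.subgroupOf V, f v = 1} := by
    apply Nat.card_le_card_of_injective
      (fun q : A ⧸ C.subgroupOf A => (⟨φ (q.out : A), hφ1 _ (q.out : A).2⟩ :
        {f : V →* ℂˣ // ∀ v ∈ V₁.subgroupOf V, f v = 1}))
    intro q q' hqq
    have h1 : φ (q.out : A) = φ (q'.out : A) := congrArg Subtype.val hqq
    have h2 := hinj _ (q.out : A).2 _ (q'.out : A).2 h1
    rw [← Quotient.out_eq' q, ← Quotient.out_eq' q']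
    apply QuotientGroup.eq.mpr
    rw [Subgroup.mem_subgroupOf]
    exact h2
  have hA := Subgroup.card_eq_card_quotient_mul_card_subgroup (C.subgroupOf A)
  rw [hCcard] at hA
  calc Nat.card A * Nat.card V₁ = Nat.card (A ⧸ C.subgroupOf A) * Nat.card C * Nat.card V₁ := by
        rw [hA]
    _ ≤ Nat.card {f : V →* ℂˣ // ∀ v ∈ V₁.subgroupOf V, f v = 1} * Nat.card C * Nat.card V₁ :=
        Nat.mul_le_mul_right _ (Nat.mul_le_mul_right _ hle)
    _ = Nat.card C * Nat.card V := by rw [← hK]; ring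

end Cfsg.Agent.Lib.Helper48.BN
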