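import Cfsg.Agent.Lib.Helper48.BN.Defs

set_option autoImplicit false

namespace Cfsg.Agent.Lib.Helper48.BN

open scoped Pointwise
open scoped commutatorElement
open Cfsg Cfsg.Agent.Lib.Helper33

variable {G : Type*} [Group G]

/-- `Z^g [V,G]` is normal in `G` (it contains `[V,G]` and lies in `V`) and contains `Z^g`, hence `Z`, hence `V`.
Here `Z` is any subgroup and `V` its normal closure. -/
theorem V_le_sup (Z : Subgroup G) (g : G) :
    Subgroup.normalClosure (Z : Set G) ≤
      (MulAut.conj g • Z) ⊔ ⁅Subgroup.normalClosure (Z : Set G), (⊤ : Subgroup G)⁆ := by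
  set V := Subgroup.normalClosure (Z : Set G) with hV
  have hZV : Z ≤ V := Subgroup.subset_normalClosure
  have hcomm : ∀ x : G, ∀ v ∈ V, ⁅x, v⁆ ∈ ⁅V, (⊤ : Subgroup G)⁆ := by
    intro x v hv
    rw [Subgroup.commutator_comm]
    exact Subgroup.commutator_mem_commutator (Subgroup.mem_top x) hv
  have hMV : (MulAut.conj g • Z) ⊔ ⁅V, (⊤ : Subgroup G)⁆ ≤ V := by
    refine sup_le ?_ (Subgroup.commutator_le_left _ _)
    rintro _ ⟨z, hz, rfl⟩
    exact (inferInstance : V.Normal).conj_mem z (hZV hz) g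
  have hMn : ((MulAut.conj g • Z) ⊔ ⁅V, (⊤ : Subgroup G)⁆).Normal := by
    constructor
    intro m hm x
    have e : x * m * x⁻¹ = ⁅x, m⁆ * m := by
      simp [commutatorElement_def]
    rw [e]
    exact mul_mem (Subgroup.mem_sup_right (hcomm x m (hMV hm))) hm
  apply Subgroup.normalClosure_le_normal
  intro z hz
  have e : z = (g * z * g⁻¹) * ⁅g, z⁻¹⁆ := by
    simp [commutatorElement_def, mul_assoc]
  rw [e]
  exact mul_mem (Subgroup.mem_sup_left ⟨z, hz, rfl⟩)
    (Subgroup.mem_sup_right (hcomm g z⁻¹ (inv_mem (hZV hz))))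

end Cfsg.Agent.Lib.Helper48.BN
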