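import Cfsg.Agent.Lib.Helper48.BN.Defs

set_option autoImplicit false

namespace Cfsg.Agent.Lib.Helper48.BN

open scoped Pointwise
open Cfsg Cfsg.Agent.Lib.Helper33

variable {G : Type*} [Group G] [Finite G] {p : ℕ} [Fact p.Prime]

/-- nilpotent action: by induction `U ≤ γ_k(T) N` for all `k` (`γ_k(T)` the lower central series of the `p`-group `T`,
mapped to `G`). -/
theorem le_of_le_commutator_sup {T U N : Subgroup G} (hT : IsPGroup p T) (hU : U ≤ T) (hN : N ≤ T)
    (hNn : T ≤ Subgroup.normalizer (N : Set G)) (h : U ≤ ⁅U, T⁆ ⊔ N) : U ≤ N := by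
  set U' := U.subgroupOf T with hU'
  set N' := N.subgroupOf T with hN'
  have : N'.Normal := Subgroup.normal_subgroupOf_of_le_normalizer hNn
  have hmU : U'.map T.subtype = U := Subgroup.map_subgroupOf_eq_of_le hU
  have hmN : N'.map T.subtype = N := Subgroup.map_subgroupOf_eq_of_le hN
  have h1 : U' ≤ ⁅U', ⊤⁆ ⊔ N' := by
    rw [← Subgroup.map_le_map_iff_of_injective T.subtype_injective, Subgroup.map_sup,
      Subgroup.map_commutator, hmU, hmN, ← MonoidHom.range_eq_map, Subgroup.range_subtype]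
    exact h
  have : Group.IsNilpotent T := hT.isNilpotent
  have : Group.IsNilpotent (T ⧸ N') := inferInstance
  set Ub := U'.map (QuotientGroup.mk' N') with hUb
  have h2 : Ub ≤ ⁅Ub, ⊤⁆ := by
    have := Subgroup.map_mono (f := QuotientGroup.mk' N') h1
    rw [Subgroup.map_sup, Subgroup.map_commutator,
      Subgroup.map_top_of_surjective _ (QuotientGroup.mk'_surjective N'),
      QuotientGroup.map_mk'_self, sup_bot_eq] at this
    exact this
  have h3 : ∀ k, Ub ≤ Subgroup.lowerCentralSeries (⊤ : Subgroup (T ⧸ N')) k := by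
    intro k
    induction k with
    | zero => simp
    | succ k ih => exact h2.trans (Subgroup.commutator_mono ih le_rfl)
  obtain ⟨n, hn⟩ := Subgroup.nilpotent_iff_lowerCentralSeries.mp (inferInstance : Group.IsNilpotent (T ⧸ N'))
  have h4 : Ub = ⊥ := by
    rw [eq_bot_iff, ← hn]
    exact h3 n
  intro u hu
  have hu' : (⟨u, hU hu⟩ : T) ∈ U' := by
    rw [hU', Subgroup.mem_subgroupOf]
    exact hu
  have h5 : QuotientGroup.mk' N' (⟨u, hU hu⟩ : T) ∈ Ub := Subgroup.mem_map_of_mem _ hu'
  rw [h4, Subgroup.mem_bot] at h5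
  have h6 : (⟨u, hU hu⟩ : T) ∈ N' := (QuotientGroup.eq_one_iff _).mp h5
  rw [hN', Subgroup.mem_subgroupOf] at h6
  exact h6

end Cfsg.Agent.Lib.Helper48.BN
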