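import Cfsg.Agent.Lib.Helper48.BN.Defs

set_option autoImplicit false

namespace Cfsg.Agent.Lib.Helper48.BN

open scoped Pointwise commutatorElement
open Cfsg Cfsg.Agent.Lib.Helper33

variable {G : Type*} [Group G] [Finite G] {p : ℕ} [Fact p.Prime]

omit [Finite G] [Fact p.Prime] in
theorem P7c_mem_powerClosure (V : Subgroup G) (hVab : ∀ x ∈ V, ∀ y ∈ V, x * y = y * x)
    (c : G) (hc : c ∈ powerClosure p 1 V) : ∃ w ∈ V, c = w ^ p := by
  unfold powerClosure at hc
  induction hc using Subgroup.closure_induction with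
  | mem y hy =>
    obtain ⟨x, hx, rfl⟩ := hy
    exact ⟨x, hx, by rw [pow_one]⟩
  | one => exact ⟨1, V.one_mem, by simp⟩
  | mul a b _ _ iha ihb =>
    obtain ⟨w, hw, rfl⟩ := iha
    obtain ⟨w', hw', rfl⟩ := ihb
    exact ⟨w * w', V.mul_mem hw hw', ((show Commute w w' from hVab w hw w' hw').mul_pow p).symm⟩
  | inv a _ iha =>
    obtain ⟨w, hw, rfl⟩ := iha
    exact ⟨w⁻¹, V.inv_mem hw, by rw [inv_pow]⟩

theorem P7c_coprime_centralizes (V : Subgroup G) [V.Normal] (hVp : IsPGroup p V)
    (hVab : ∀ x ∈ V, ∀ y ∈ V, x * y = y * x)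
    (h : ⁅V, (⊤ : Subgroup G)⁆ ≤ powerClosure p 1 V) (x : G) (hx : (orderOf x).Coprime p) :
    x ∈ Subgroup.centralizer (V : Set G) := by
  obtain ⟨e, he⟩ := IsPGroup.iff_card.mp hVp
  have hexp : ∀ w ∈ V, w ^ (p ^ e) = 1 := by
    intro w hw
    have : (⟨w, hw⟩ : V) ^ (p ^ e) = 1 := by rw [← he]; exact pow_card_eq_one'
    exact congrArg Subtype.val this
  -- step 1
  have h1 : ∀ w ∈ V, ∃ w' ∈ V, x * w * x⁻¹ = w * w' ^ p := by
    intro w hw
    have hc : ⁅x, w⁆ ∈ ⁅V, (⊤ : Subgroup G)⁆ := by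
      rw [Subgroup.commutator_comm]
      exact Subgroup.commutator_mem_commutator (Subgroup.mem_top x) hw
    obtain ⟨w', hw', hww⟩ := P7c_mem_powerClosure V hVab _ (h hc)
    refine ⟨w', hw', ?_⟩
    rw [← hww, hVab w hw _ (by rw [hww]; exact V.pow_mem hw' p), commutatorElement_def]
    group
  have key : ∀ d j : ℕ, j + d = e → ∀ w ∈ V, x * w ^ (p ^ j) * x⁻¹ = w ^ (p ^ j) := by
    intro d
    induction d with
    | zero =>
      intro j hj w hw
      have : j = e := by omega
      subst this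
      rw [hexp w hw]; simp
    | succ d ih =>
      intro j hj w hw
      obtain ⟨w', hw', hww⟩ := h1 w hw
      have hc := ih (j + 1) (by omega) w' hw'
      set u := w ^ (p ^ j) with hu
      set c := w' ^ (p ^ (j + 1)) with hcdef
      have hcV : c ∈ V := V.pow_mem hw' _
      have hxu : x * u * x⁻¹ = u * c := by
        rw [hu, ← conj_pow, hww,
          (show Commute w (w' ^ p) from hVab w hw _ (V.pow_mem hw' p)).mul_pow, ← pow_mul, hcdef,
          pow_succ']
      have hk : ∀ k : ℕ, x ^ k * u * (x ^ k)⁻¹ = u * c ^ k := by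
        intro k
        induction k with
        | zero => simp
        | succ k ihk =>
          have : x ^ (k + 1) * u * (x ^ (k + 1))⁻¹ = x * (x ^ k * u * (x ^ k)⁻¹) * x⁻¹ := by
            rw [pow_succ']; group
          rw [this, ihk]
          have h2 : x * (u * c ^ k) * x⁻¹ = (x * u * x⁻¹) * (x * c * x⁻¹) ^ k := by
            rw [conj_pow]; group
          rw [h2, hxu, hc, mul_assoc, ← pow_succ']
      have hm := hk (orderOf x)
      rw [pow_orderOf_eq_one] at hm
      have hcm : c ^ orderOf x = 1 := by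
        have : u = u * c ^ orderOf x := by simpa using hm
        exact (mul_eq_left.mp this.symm)
      have hcp : c ^ (p ^ e) = 1 := hexp c hcV
      have hc1 : c = 1 := by
        have h3 : orderOf c ∣ orderOf x := orderOf_dvd_of_pow_eq_one hcm
        have h4 : orderOf c ∣ p ^ e := orderOf_dvd_of_pow_eq_one hcp
        have h5 : (orderOf x).Coprime (p ^ e) := Nat.Coprime.pow_right e hx
        have h6 : orderOf c = 1 := Nat.eq_one_of_dvd_coprimes h5 h3 h4
        exact orderOf_eq_one_iff.mp h6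
      rw [hxu, hc1, mul_one]
  rw [Subgroup.mem_centralizer_iff]
  intro v hv
  have := key e 0 (by omega) v hv
  rw [pow_zero, pow_one] at this
  calc v * x = (x * v * x⁻¹) * x := by rw [this]
    _ = x * v := by group

/-- If `G` acts trivially on `V / ℧¹(V)` (`V` an abelian normal `p`-subgroup), then `G / C_G(V)` is a `p`-group. -/
theorem centralizer_sup_eq_top (S : Sylow p G) (V : Subgroup G) [V.Normal] (hVp : IsPGroup p V)
    (hVab : ∀ x ∈ V, ∀ y ∈ V, x * y = y * x)
    (h : ⁅V, (⊤ : Subgroup G)⁆ ≤ powerClosure p 1 V) :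
    Subgroup.centralizer (V : Set G) ⊔ (S : Subgroup G) = ⊤ := by
  have hp : p.Prime := Fact.out
  set C := Subgroup.centralizer (V : Set G) with hC
  have hCn : C.Normal := inferInstance
  have hq : IsPGroup p (G ⧸ C) := by
    intro y
    induction y using QuotientGroup.induction_on with
    | H y =>
      obtain ⟨a, m, hm, hy⟩ := Nat.exists_eq_pow_mul_and_not_dvd (orderOf_pos y).ne' p hp.ne_one
      refine ⟨a, ?_⟩
      have h1 : orderOf (y ^ (p ^ a)) = m := by
        rw [orderOf_pow_of_dvd (pow_ne_zero a hp.ne_zero) (by rw [hy]; exact dvd_mul_right _ _), hy,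
          Nat.mul_div_cancel_left _ (pow_pos hp.pos a)]
      have h2 : y ^ (p ^ a) ∈ C := by
        apply P7c_coprime_centralizes V hVp hVab h
        rw [h1]
        exact ((Nat.Prime.coprime_iff_not_dvd hp).mpr hm).symm
      rw [← QuotientGroup.mk_pow]
      exact (QuotientGroup.eq_one_iff _).mpr h2
  obtain ⟨k, hk⟩ := IsPGroup.iff_card.mp hq
  have hidx : C.index = p ^ k := by rw [Subgroup.index, hk]
  have h1 : (C ⊔ (S : Subgroup G)).index ∣ p ^ k := by
    rw [← hidx]; exact Subgroup.index_dvd_of_le le_sup_left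
  have h2 : (C ⊔ (S : Subgroup G)).index ∣ (S : Subgroup G).index :=
    Subgroup.index_dvd_of_le le_sup_right
  obtain ⟨j, -, hj⟩ := (Nat.dvd_prime_pow hp).mp h1
  rw [← Subgroup.index_eq_one, hj]
  rcases Nat.eq_zero_or_pos j with rfl | hjpos
  · simp
  · exfalso
    apply S.not_dvd_index
    refine dvd_trans ?_ h2
    rw [hj]
    exact dvd_pow_self p hjpos.ne'

end Cfsg.Agent.Lib.Helper48.BN
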