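import Cfsg.Agent.Lib.Helper48.BN.P4
import Cfsg.Agent.Lib.Helper48.BN.P7a
import Cfsg.Agent.Lib.Helper48.BN.P7b
import Cfsg.Agent.Lib.Helper48.BN.P7c

set_option autoImplicit false

namespace Cfsg.Agent.Lib.Helper48.BN

open scoped Pointwise
open scoped commutatorElement
open Cfsg Cfsg.Agent.Lib.Helper33

variable {G : Type*} [Group G] [Finite G] {p : ℕ} [Fact p.Prime] {S : Sylow p G}

omit [Finite G] [Fact p.Prime] in
theorem P7d_powerClosure_le (n : ℕ) (H : Subgroup G) : powerClosure p n H ≤ H := by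
  unfold powerClosure
  rw [Subgroup.closure_le]
  rintro _ ⟨x, hx, rfl⟩
  exact pow_mem hx _

omit [Finite G] [Fact p.Prime] in
theorem P7d_powerClosure_normal (n : ℕ) (H : Subgroup G) [hH : H.Normal] :
    (powerClosure p n H).Normal := by
  constructor
  intro x hx g
  have hle : powerClosure p n H ≤ (powerClosure p n H).comap (MulAut.conj g).toMonoidHom := by
    conv_lhs => unfold powerClosure
    rw [Subgroup.closure_le]
    rintro _ ⟨y, hy, rfl⟩
    show g * y ^ (p ^ n) * g⁻¹ ∈ powerClosure p n H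
    rw [← conj_pow]
    exact Subgroup.subset_closure ⟨g * y * g⁻¹, hH.conj_mem y hy g, rfl⟩
  exact hle hx

/-- Put `V = VS S`, `T = S^g`, `U = [V,G]` and suppose `U ≤ [V,T] ℧¹(V)`.  By `V_le_sup`, `V ≤ Z(S)^g U`, and `T` centralizes
`Z(S)^g = Z(T)`, so `[V,T] ≤ [U,T]` (`V` is abelian).  So `U ≤ [U,T] ℧¹(V)`, and `U ≤ ℧¹(V)` by `le_of_le_commutator_sup`
(`U ≤ V ≤ O_p(G) ≤ T`, `℧¹(V)` is normal in `G`).  By `centralizer_sup_eq_top`, `C_G(V) S = G` centralizes `Z(S)`. -/
theorem comm_not_le (hS : Setup p S) (hZ : ¬ ZS (S : Subgroup G) ≤ Subgroup.center G) (g : G) :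
    ¬ ⁅VS (S : Subgroup G), (⊤ : Subgroup G)⁆ ≤
      ⁅VS (S : Subgroup G), MulAut.conj g • (S : Subgroup G)⁆ ⊔ powerClosure p 1 (VS (S : Subgroup G)) := by
  intro hle
  set V := VS (S : Subgroup G) with hV
  set T := MulAut.conj g • (S : Subgroup G) with hT
  set U := ⁅V, (⊤ : Subgroup G)⁆ with hU
  have hVn : V.Normal := inferInstance
  have hUn : U.Normal := inferInstance
  have hVab := V_comm hS
  have hUV : U ≤ V := Subgroup.commutator_le_left _ _
  have hTp : IsPGroup p T := (MulAut.conj g • S : Sylow p G).2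
  have hcT : pCore p G ≤ T := pCore_le (MulAut.conj g • S : Sylow p G)
  have hVT : V ≤ T := ((V_le hS).trans inf_le_left).trans hcT
  have hVp : IsPGroup p V := hTp.to_le hVT
  -- `[V,T] ≤ [U,T]`
  have h1 : ⁅V, T⁆ ≤ ⁅U, T⁆ := by
    rw [Subgroup.commutator_le]
    intro v hv t ht
    have hv' : v ∈ ((MulAut.conj g • ZS (S : Subgroup G)) ⊔ U : Subgroup G) :=
      V_le_sup (ZS (S : Subgroup G)) g hv
    rw [← SetLike.mem_coe, Subgroup.mul_normal] at hv'
    obtain ⟨z, hz, u, hu, rfl⟩ := hv'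
    have hzV : z ∈ V := by
      obtain ⟨z0, hz0, rfl⟩ := hz
      exact hVn.conj_mem z0 (Subgroup.subset_normalClosure hz0) g
    have hzt : z * t = t * z := by
      obtain ⟨z0, hz0, rfl⟩ := hz
      obtain ⟨t0, ht0, rfl⟩ := ht
      have := (Subgroup.mem_centralizer_iff.1 hz0.2) t0 ht0
      show g * z0 * g⁻¹ * (g * t0 * g⁻¹) = g * t0 * g⁻¹ * (g * z0 * g⁻¹)
      calc g * z0 * g⁻¹ * (g * t0 * g⁻¹) = g * (z0 * t0) * g⁻¹ := by group
        _ = g * (t0 * z0) * g⁻¹ := by rw [this]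
        _ = g * t0 * g⁻¹ * (g * z0 * g⁻¹) := by group
    have hc : ⁅u, t⁆ ∈ ⁅U, T⁆ := Subgroup.commutator_mem_commutator hu ht
    have hcV : ⁅u, t⁆ ∈ V := by
      rw [commutatorElement_def, mul_assoc, mul_assoc, ← mul_assoc t]
      exact mul_mem (hUV hu) (hVn.conj_mem _ (inv_mem (hUV hu)) t)
    have e : ⁅z * u, t⁆ = ⁅u, t⁆ := by
      have e1 : ⁅z * u, t⁆ = z * ⁅u, t⁆ * (t * z⁻¹ * t⁻¹) := by
        simp only [commutatorElement_def]; group
      have e2 : t * z⁻¹ * t⁻¹ = z⁻¹ := by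
        have : z⁻¹ * t = t * z⁻¹ := by
          rw [inv_mul_eq_iff_eq_mul, ← mul_assoc, hzt, mul_assoc, mul_inv_cancel, mul_one]
        rw [← this, mul_assoc, mul_inv_cancel, mul_one]
      rw [e1, e2, hVab z hzV _ hcV, mul_assoc, mul_inv_cancel, mul_one]
    rw [e]
    exact hc
  have hNn : (powerClosure p 1 V).Normal := P7d_powerClosure_normal 1 V
  have h2 : U ≤ powerClosure p 1 V := by
    apply le_of_le_commutator_sup hTp (hUV.trans hVT) ((P7d_powerClosure_le 1 V).trans hVT)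
    · rw [Subgroup.normalizer_eq_top]
      exact le_top
    · exact hle.trans (sup_le_sup_right h1 _)
  have h3 := centralizer_sup_eq_top S V hVp hVab h2
  apply hZ
  have h4 : (⊤ : Subgroup G) ≤ Subgroup.centralizer (ZS (S : Subgroup G) : Set G) := by
    rw [← h3]
    refine sup_le (Subgroup.centralizer_le Subgroup.subset_normalClosure) ?_
    rw [Subgroup.le_centralizer_iff]
    exact inf_le_right
  rw [← Subgroup.centralizer_univ, ← Subgroup.coe_top, ← Subgroup.le_centralizer_iff]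
  exact h4

end Cfsg.Agent.Lib.Helper48.BN
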