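import Cfsg.Agent.Lib.Helper48.BN.CLDefs
import Cfsg.Agent.Lib.Helper48.BN.P4
import Cfsg.Agent.Lib.Helper48.BN.P6c
import Cfsg.Agent.Lib.Helper48.BN.P7a
import Cfsg.Agent.Lib.Helper48.BN.P7b
import Cfsg.Agent.Lib.Helper48.BN.P7c
import Cfsg.Agent.Lib.Helper48.BN.P7d

set_option autoImplicit false

namespace Cfsg.Agent.Lib.Helper48.BN

open scoped Pointwise
open scoped commutatorElement
open Cfsg Cfsg.Agent.Lib.Helper33 Cfsg.Agent.Lib.Helper47

variable {G : Type*} [Group G] [Finite G] {p : ℕ} [Fact p.Prime] {S : Sylow p G} {Z₀ : Subgroup G}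

theorem V0_le (hS : Setup p S) (hZ₀ : Z₀ ≤ ZS (S : Subgroup G)) :
    Subgroup.normalClosure (Z₀ : Set G) ≤ pCore p G ⊓ Subgroup.centralizer (pCore p G : Set G) :=
  (Subgroup.normalClosure_mono hZ₀).trans (V_le hS)

theorem CL4_V0_comm (hS : Setup p S) (hZ₀ : Z₀ ≤ ZS (S : Subgroup G)) :
    ∀ x ∈ Subgroup.normalClosure (Z₀ : Set G), ∀ y ∈ Subgroup.normalClosure (Z₀ : Set G),
      x * y = y * x := by
  intro x hx y hy
  exact (Subgroup.mem_centralizer_iff.1 (V0_le hS hZ₀ hy).2) x (V0_le hS hZ₀ hx).1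

theorem cent_V0 (hS : Setup p S) (hZ₀ : Z₀ ≤ ZS (S : Subgroup G)) (hnc : ¬ Z₀ ≤ Subgroup.center G) :
    (S : Subgroup G) ⊓ Subgroup.centralizer (Subgroup.normalClosure (Z₀ : Set G) : Set G) ≤ pCore p G := by
  by_contra h
  have hn : (Subgroup.centralizer (Subgroup.normalClosure (Z₀ : Set G) : Set G)).Normal :=
    inferInstance
  exact hnc (central_of hS _ h Z₀ hZ₀ (Subgroup.centralizer_le Subgroup.subset_normalClosure))

theorem comm_not_le0 (hS : Setup p S) (hZ₀ : Z₀ ≤ ZS (S : Subgroup G)) (hnc : ¬ Z₀ ≤ Subgroup.center G) (g : G) :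
    ¬ ⁅Subgroup.normalClosure (Z₀ : Set G), (⊤ : Subgroup G)⁆ ≤
      ⁅Subgroup.normalClosure (Z₀ : Set G), MulAut.conj g • (S : Subgroup G)⁆ ⊔
        powerClosure p 1 (Subgroup.normalClosure (Z₀ : Set G)) := by
  intro hle
  set V := Subgroup.normalClosure (Z₀ : Set G) with hV
  set T := MulAut.conj g • (S : Subgroup G) with hT
  set U := ⁅V, (⊤ : Subgroup G)⁆ with hU
  have hVn : V.Normal := inferInstance
  have hUn : U.Normal := inferInstance
  have hVab := CL4_V0_comm hS hZ₀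
  have hUV : U ≤ V := Subgroup.commutator_le_left _ _
  have hTp : IsPGroup p T := (MulAut.conj g • S : Sylow p G).2
  have hcT : pCore p G ≤ T := pCore_le (MulAut.conj g • S : Sylow p G)
  have hVT : V ≤ T := ((V0_le hS hZ₀).trans inf_le_left).trans hcT
  have hVp : IsPGroup p V := hTp.to_le hVT
  have h1 : ⁅V, T⁆ ≤ ⁅U, T⁆ := by
    rw [Subgroup.commutator_le]
    intro v hv t ht
    have hv' : v ∈ ((MulAut.conj g • Z₀) ⊔ U : Subgroup G) := V_le_sup Z₀ g hv
    rw [← SetLike.mem_coe, Subgroup.mul_normal] at hv'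
    obtain ⟨z, hz, u, hu, rfl⟩ := hv'
    have hzV : z ∈ V := by
      obtain ⟨z0, hz0, rfl⟩ := hz
      exact hVn.conj_mem z0 (Subgroup.subset_normalClosure hz0) g
    have hzt : z * t = t * z := by
      obtain ⟨z0, hz0, rfl⟩ := hz
      obtain ⟨t0, ht0, rfl⟩ := ht
      have := (Subgroup.mem_centralizer_iff.1 (hZ₀ hz0).2) t0 ht0
      show g * z0 * g⁻¹ * (g * t0 * g⁻¹) = g * t0 * g⁻¹ * (g * z0 * g⁻¹)
      calc g * z0 * g⁻¹ * (g * t0 * g⁻¹) = g * (z0 * t0) * g⁻¹ := by group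
        _ = g * (t0 * z0) * g⁻¹ := by rw [this]
        _ = g * t0 * g⁻¹ * (g * z0 * g⁻¹) := by group
    have hc : ⁅u, t⁆ ∈ ⁅U, T⁆ := Subgroup.commutator_mem_commutator hu ht
    have hcV : ⁅u, t⁆ ∈ V := by
      rw [commutatorElement_def, mul_assoc, mul_assoc, ← mul_assoc t]
      exact mul_mem (hUV hu) (hVn.conj_mem _ (inv_mem (hUV hu)) t)
    have e : ⁅z * u, t⁆ = ⁅u, t⁆ := by
      have e1 : ⁅z * u, t⁆ = z * ⁅u, t⁆ * (t * z⁻¹ * t⁻¹) := by
        simp only [commutatorElement_def]; group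
      have e2 : t * z⁻¹ * t⁻¹ = z⁻¹ := by
        have : z⁻¹ * t = t * z⁻¹ := by
          rw [inv_mul_eq_iff_eq_mul, ← mul_assoc, hzt, mul_assoc, mul_inv_cancel, mul_one]
        rw [← this, mul_assoc, mul_inv_cancel, mul_one]
      rw [e1, e2, hVab z hzV _ hcV, mul_assoc, mul_inv_cancel, mul_one]
    rw [e]
    exact hc
  have hNn : (powerClosure p 1 V).Normal := P7d_powerClosure_normal 1 V
  have h2 : U ≤ powerClosure p 1 V := by
    apply le_of_le_commutator_sup hTp (hUV.trans hVT) ((P7d_powerClosure_le 1 V).trans hVT)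
    · rw [Subgroup.normalizer_eq_top]
      exact le_top
    · exact hle.trans (sup_le_sup_right h1 _)
  have h3 := centralizer_sup_eq_top S V hVp hVab h2
  apply hnc
  have h4 : (⊤ : Subgroup G) ≤ Subgroup.centralizer (Z₀ : Set G) := by
    rw [← h3]
    refine sup_le (Subgroup.centralizer_le Subgroup.subset_normalClosure) ?_
    rw [Subgroup.le_centralizer_iff]
    exact hZ₀.trans inf_le_right
  rw [← Subgroup.centralizer_univ, ← Subgroup.coe_top, ← Subgroup.le_centralizer_iff]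
  exact h4

/-- `ff_ineq` with `T = S^g` (`g` from `hS.gen`), `C = A ⊓ O_p(G)`, and `comm_not_le0`. -/
theorem ff0 (hS : Setup p S) (hZ₀ : Z₀ ≤ ZS (S : Subgroup G)) (hnc : ¬ Z₀ ≤ Subgroup.center G)
    (A : Subgroup G) (hA : A ≤ (S : Subgroup G)) :
    Nat.card A * Nat.card (Subgroup.normalClosure (Z₀ : Set G) ⊓ Subgroup.centralizer (A : Set G) : Subgroup G)
      ≤ Nat.card (A ⊓ pCore p G : Subgroup G) * Nat.card (Subgroup.normalClosure (Z₀ : Set G)) := by
  obtain ⟨g, hg⟩ := hS.gen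
  have hff := ff_ineq p (Subgroup.normalClosure (Z₀ : Set G)) (MulAut.conj g • (S : Subgroup G)) A
    (A ⊓ pCore p G) (CL4_V0_comm hS hZ₀) inf_le_left
    (fun a ha hna => hg a (hA ha) (fun h => hna (Subgroup.mem_inf.2 ⟨ha, h⟩)))
    (comm_not_le0 hS hZ₀ hnc g)
  exact (Nat.mul_le_mul_left _ (Subgroup.card_le_of_le le_sup_left)).trans hff

end Cfsg.Agent.Lib.Helper48.BN
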