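import Cfsg.Agent.Lib.Helper48.BN.CL2
import Cfsg.Agent.Lib.Helper51.Card

set_option autoImplicit false

namespace Cfsg.Agent.Lib.Helper48.BN

open scoped Pointwise
open Cfsg Cfsg.Agent.Lib.Helper33 Cfsg.Agent.Lib.Helper47

variable {G : Type*} [Group G] [Finite G] {p : ℕ} [Fact p.Prime] {S O V Q : Subgroup G}

theorem CL5_eq_of_mul_le {X X' Y Y' : ℕ} (h1 : X ≤ X') (h2 : Y ≤ Y') (h3 : X' * Y' ≤ X * Y)
    (hX : 0 < X) (hY : 0 < Y) : X = X' ∧ Y = Y' := by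
  have h4 : X * Y ≤ X' * Y := Nat.mul_le_mul_right Y h1
  have h5 : X' * Y ≤ X' * Y' := Nat.mul_le_mul_left X' h2
  have h6 : X * Y = X' * Y := le_antisymm h4 (h5.trans h3)
  have h7 : X' * Y = X' * Y' := le_antisymm h5 (h3.trans h4)
  exact ⟨Nat.eq_of_mul_eq_mul_right hY h6, Nat.eq_of_mul_eq_mul_left (lt_of_lt_of_le hX h1) h7⟩

/-- the arithmetic of the chain -/
theorem CL5_arith {q a c w o v a0 r z s ca : ℕ} (H1 : q * c ≤ o * v) (H2 : a * ca ≤ a0 * v)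
    (H2' : w ≤ ca) (H3 : r * w = o * v) (H4 : z * c = a0 * v) (H5 : z ≤ s) (H6 : r * s ≤ q * a)
    (hq : 0 < q) (ha : 0 < a) (hc : 0 < c) (hw : 0 < w) (hr : 0 < r) :
    q * c = o * v ∧ a * w = a0 * v ∧ z = s ∧ r * s = q * a := by
  have hY : a * w ≤ a0 * v := (Nat.mul_le_mul_left a H2').trans H2
  have hrz : r * z ≤ r * s := Nat.mul_le_mul_left r H5
  have E1 : (o * v) * (a0 * v) = (r * z) * (w * c) := by rw [← H3, ← H4]; ring
  have E2 : (q * c) * (a * w) = (q * a) * (w * c) := by ring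
  have hT : 0 < w * c := Nat.mul_pos hw hc
  have h3 : (o * v) * (a0 * v) ≤ (q * c) * (a * w) := by
    rw [E1, E2]
    exact Nat.mul_le_mul_right _ (hrz.trans H6)
  obtain ⟨e1, e2⟩ := CL5_eq_of_mul_le H1 hY h3 (Nat.mul_pos hq hc) (Nat.mul_pos ha hw)
  have e3 : (r * z) * (w * c) = (q * a) * (w * c) := by rw [← E1, ← E2, e1, e2]
  have e4 : r * z = q * a := Nat.eq_of_mul_eq_mul_right hT e3
  have e5 : r * s = q * a := le_antisymm H6 (e4 ▸ hrz)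
  have e6 : r * z = r * s := by rw [e4, e5]
  exact ⟨e1, e2, Nat.eq_of_mul_eq_mul_left hr e6, e5⟩

/-- The key count (no ambient structure needed).  `A = Z(Q)`, `A₀ = A ∩ O`, `R = (Q ∩ O) V`.  `C_S(Q) ≤ Q` (`CLin.centralizer_le`), so
`C_V(Q) = A ∩ V = A₀ ∩ V`.  `Q ∩ V ≤ C_V(A)`.  `A₀ V ≤ C_S(R)`.  `|R| |Q ∩ V| = |Q ∩ O| |V|`, `|A₀ V| |C_V(Q)| = |A₀| |V|`.  Then
`|Q||A||C_V(Q)||Q∩V| ≤ |Q∩O||V||A||Q∩V|` (`hff Q`) `≤ |Q∩O||V||A₀||V|` (`hff A`) `= |R||Q∩V||A₀V||C_V(Q)| ≤ |R||C_S(R)||Q∩V||C_V(Q)|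
≤ |Q||A||Q∩V||C_V(Q)|` (`CLin.measure_le`).  So equality holds everywhere: `C_S(R) = A₀ V ≤ R`, so `Z(R) = A₀ V` and `R` is `CLin S`. -/
theorem key_CL (hS : IsPGroup p S) (hOS : O ≤ S) (hVO : V ≤ O) (hVc : O ≤ Subgroup.centralizer (V : Set G))
    (hVn : V.Normal)
    (hff : ∀ A : Subgroup G, A ≤ S → Nat.card A * Nat.card (V ⊓ Subgroup.centralizer (A : Set G) : Subgroup G)
      ≤ Nat.card (A ⊓ O : Subgroup G) * Nat.card V)
    (hQ : CLin S Q) :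
    CLin S ((Q ⊓ O) ⊔ V) ∧ ZS ((Q ⊓ O) ⊔ V) = (ZS Q ⊓ O) ⊔ V ∧
      Nat.card (ZS Q) * Nat.card (Q ⊓ V : Subgroup G) = Nat.card (ZS Q ⊓ O : Subgroup G) * Nat.card V ∧
      Nat.card Q * Nat.card (V ⊓ Subgroup.centralizer (Q : Set G) : Subgroup G) =
        Nat.card (Q ⊓ O : Subgroup G) * Nat.card V := by
  have hQS : Q ≤ S := hQ.1
  have hVS : V ≤ S := hVO.trans hOS
  have hAS : ZS Q ≤ S := inf_le_left.trans hQS
  have hRS : (Q ⊓ O) ⊔ V ≤ S := sup_le (inf_le_left.trans hQS) hVS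
  have hcQ : S ⊓ Subgroup.centralizer (Q : Set G) ≤ Q := CLin.centralizer_le hS hQ
  -- `C_V(Q) = A₀ ∩ V`
  have hCV : V ⊓ Subgroup.centralizer (Q : Set G) = (ZS Q ⊓ O) ⊓ V := by
    apply le_antisymm
    · refine le_inf (le_inf (le_inf ?_ inf_le_right) (inf_le_left.trans hVO)) inf_le_left
      exact (inf_le_inf_right _ hVS).trans hcQ
    · exact le_inf inf_le_right (inf_le_left.trans (inf_le_left.trans inf_le_right))
  -- `Q ∩ V ≤ C_V(A)`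
  have hQV : Q ⊓ V ≤ V ⊓ Subgroup.centralizer ((ZS Q : Subgroup G) : Set G) := by
    refine le_inf inf_le_right (inf_le_left.trans ?_)
    rw [Subgroup.le_centralizer_iff]
    exact inf_le_right
  -- `A₀ V ≤ C_S(R)`
  have hVV : V ≤ Subgroup.centralizer (V : Set G) := hVO.trans hVc
  have hAR : (ZS Q ⊓ O) ⊔ V ≤ S ⊓ Subgroup.centralizer (((Q ⊓ O) ⊔ V : Subgroup G) : Set G) := by
    refine le_inf (sup_le (inf_le_left.trans hAS) hVS) ?_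
    rw [Cfsg.Agent.Lib.Helper50.centralizer_sup]
    refine sup_le (le_inf ?_ (inf_le_right.trans hVc)) (le_inf ?_ hVV)
    · exact (inf_le_left.trans inf_le_right).trans (Subgroup.centralizer_le inf_le_left)
    · rw [Subgroup.le_centralizer_iff]
      exact inf_le_right.trans hVc
  have hinf1 : (Q ⊓ O) ⊓ V = Q ⊓ V := by
    rw [inf_assoc, inf_eq_right.2 hVO]
  have H3 := Cfsg.Agent.Lib.Helper51.card_sup_mul_card_inf_of_normal (Q ⊓ O) V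
  rw [hinf1] at H3
  have H4 := Cfsg.Agent.Lib.Helper51.card_sup_mul_card_inf_of_normal (ZS Q ⊓ O) V
  rw [← hCV] at H4
  have H1 := hff Q hQS
  have H2 := hff (ZS Q) hAS
  have H2' : Nat.card (Q ⊓ V : Subgroup G)
      ≤ Nat.card (V ⊓ Subgroup.centralizer ((ZS Q : Subgroup G) : Set G) : Subgroup G) :=
    Subgroup.card_le_of_le hQV
  have H5 := Subgroup.card_le_of_le hAR
  have H6 := CLin.measure_le hS hQ hRS
  obtain ⟨e1, e2, e3, e4⟩ := CL5_arith H1 H2 H2' H3 H4 H5 H6 Nat.card_pos Nat.card_pos Nat.card_pos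
    Nat.card_pos Nat.card_pos
  have hCR : (ZS Q ⊓ O) ⊔ V = S ⊓ Subgroup.centralizer (((Q ⊓ O) ⊔ V : Subgroup G) : Set G) :=
    Subgroup.eq_of_le_of_card_ge hAR e3.ge
  have hle : (ZS Q ⊓ O) ⊔ V ≤ (Q ⊓ O) ⊔ V := sup_le_sup_right (inf_le_inf_right _ inf_le_left) _
  have hZR : ZS ((Q ⊓ O) ⊔ V) = (ZS Q ⊓ O) ⊔ V := by
    apply le_antisymm
    · rw [hCR]
      exact inf_le_inf_right _ hRS
    · refine le_inf hle ?_
      rw [hCR]
      exact inf_le_right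
  refine ⟨⟨hRS, ?_⟩, hZR, e2, e1⟩
  intro R' hR'
  rw [hZR, hCR, e4]
  exact hQ.2 R' hR'

end Cfsg.Agent.Lib.Helper48.BN
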