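import Cfsg.Agent.Lib.Helper48.BN.CL5

set_option autoImplicit false

namespace Cfsg.Agent.Lib.Helper48.BN

open scoped Pointwise
open Cfsg Cfsg.Agent.Lib.Helper33 Cfsg.Agent.Lib.Helper47

variable {G : Type*} [Group G] [Finite G] {p : ℕ} [Fact p.Prime] {S O V Q : Subgroup G}

/-- By `key_CL` `R = (Q ∩ O) V` is `CLin S`; take `Q* ≤ R` with `MCLin S Q*` (`CLin.exists_MCLin_le`); `|Q*| = |Q|` (`MCLin.card_eq`).
`|R| |Q ∩ V| = |Q ∩ O| |V| = |Q| |C_V(Q)|` and `C_V(Q) ≤ Q ∩ V` (`CLin.centralizer_le`), so `|R| ≤ |Q| = |Q*| ≤ |R|`: `R = Q*` and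
`Q ∩ V = C_V(Q) = Z(Q) ∩ V`. -/
theorem key_MCL (hS : IsPGroup p S) (hOS : O ≤ S) (hVO : V ≤ O) (hVc : O ≤ Subgroup.centralizer (V : Set G))
    (hVn : V.Normal)
    (hff : ∀ A : Subgroup G, A ≤ S → Nat.card A * Nat.card (V ⊓ Subgroup.centralizer (A : Set G) : Subgroup G)
      ≤ Nat.card (A ⊓ O : Subgroup G) * Nat.card V)
    (hQ : MCLin S Q) :
    MCLin S ((Q ⊓ O) ⊔ V) ∧ ZS ((Q ⊓ O) ⊔ V) = (ZS Q ⊓ O) ⊔ V ∧
      Nat.card (ZS Q) * Nat.card (ZS Q ⊓ V : Subgroup G) = Nat.card (ZS Q ⊓ O : Subgroup G) * Nat.card V := by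
  obtain ⟨hR, hZR, e2, e1⟩ := key_CL hS hOS hVO hVc hVn hff hQ.1
  have hVS : V ≤ S := hVO.trans hOS
  have hcQ : S ⊓ Subgroup.centralizer (Q : Set G) ≤ Q := CLin.centralizer_le hS hQ.1
  have hCV : V ⊓ Subgroup.centralizer (Q : Set G) = ZS Q ⊓ V := by
    apply le_antisymm
    · exact le_inf (le_inf ((inf_le_inf_right _ hVS).trans hcQ) inf_le_right) inf_le_left
    · exact le_inf inf_le_right (inf_le_left.trans inf_le_right)
  have hle : ZS Q ⊓ V ≤ Q ⊓ V := inf_le_inf_right _ inf_le_left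
  obtain ⟨Qs, hQsR, hQs⟩ := CLin.exists_MCLin_le hR
  have hcard : Nat.card Qs = Nat.card Q := (MCLin.card_eq hS hQs hQ).1
  have hinf1 : (Q ⊓ O) ⊓ V = Q ⊓ V := by
    rw [inf_assoc, inf_eq_right.2 hVO]
  have H3 := Cfsg.Agent.Lib.Helper51.card_sup_mul_card_inf_of_normal (Q ⊓ O) V
  rw [hinf1, ← e1, hCV] at H3
  have h1 : Nat.card (ZS Q ⊓ V : Subgroup G) ≤ Nat.card (Q ⊓ V : Subgroup G) :=
    Subgroup.card_le_of_le hle
  have h2 : Nat.card ((Q ⊓ O) ⊔ V : Subgroup G) ≤ Nat.card Q := by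
    have h3 : Nat.card ((Q ⊓ O) ⊔ V : Subgroup G) * Nat.card (Q ⊓ V : Subgroup G)
        ≤ Nat.card Q * Nat.card (Q ⊓ V : Subgroup G) := by
      rw [H3]
      exact Nat.mul_le_mul_left _ h1
    exact Nat.le_of_mul_le_mul_right h3 Nat.card_pos
  have hEq : Qs = (Q ⊓ O) ⊔ V := Subgroup.eq_of_le_of_card_ge hQsR (by rw [hcard]; exact h2)
  have h4 : Nat.card ((Q ⊓ O) ⊔ V : Subgroup G) = Nat.card Q := by rw [← hEq, hcard]
  have h5 : Nat.card (Q ⊓ V : Subgroup G) = Nat.card (ZS Q ⊓ V : Subgroup G) := by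
    rw [h4] at H3
    exact Nat.eq_of_mul_eq_mul_left Nat.card_pos H3
  refine ⟨hEq ▸ hQs, hZR, ?_⟩
  rw [← h5]
  exact e2

end Cfsg.Agent.Lib.Helper48.BN
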