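import Cfsg.Agent.Lib.Helper48.BN.CL3
import Cfsg.Agent.Lib.Helper48.BN.CL4
import Cfsg.Agent.Lib.Helper48.BN.CL5b

set_option autoImplicit false

namespace Cfsg.Agent.Lib.Helper48.BN

open scoped Pointwise
open Cfsg Cfsg.Agent.Lib.Helper33 Cfsg.Agent.Lib.Helper47

variable {G : Type*} [Group G] [Finite G] {p : ℕ} [Fact p.Prime] {S : Sylow p G} {Q : Subgroup G}

theorem comm_MCL_central (hS : Setup p S) (hnc : ¬ ZS (S : Subgroup G) ≤ Subgroup.center G)
    (hQ : MCLin (S : Subgroup G) Q) (hQO : ¬ Q ≤ pCore p G) :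
    ZS (S : Subgroup G) ⊓ ⁅Q, Q⁆ ≤ Subgroup.center G := by
  have hOS : pCore p G ≤ (S : Subgroup G) := pCore_le S
  have hV := V0_le hS (le_refl (ZS (S : Subgroup G)))
  have hVO : VS (S : Subgroup G) ≤ pCore p G := hV.trans inf_le_left
  have hVc : pCore p G ≤ Subgroup.centralizer (VS (S : Subgroup G) : Set G) :=
    Subgroup.le_centralizer_iff.1 (hV.trans inf_le_right)
  obtain ⟨hR, -, -⟩ := key_MCL S.2 hOS hVO hVc inferInstance
    (fun A hA => ff0 hS (le_refl (ZS (S : Subgroup G))) hnc A hA) hQ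
  have hRO : (Q ⊓ pCore p G) ⊔ VS (S : Subgroup G) ≤ pCore p G := sup_le inf_le_right hVO
  have hQR : ⁅Q, Q⁆ = ⁅(Q ⊓ pCore p G) ⊔ VS (S : Subgroup G), (Q ⊓ pCore p G) ⊔ VS (S : Subgroup G)⁆ :=
    hQ.commutator_eq S.2 hR
  have hDn : (⁅Q, Q⁆ : Subgroup G).Normal := by
    refine ⟨fun x hx g => ?_⟩
    have hgO : MulAut.conj g • ((Q ⊓ pCore p G) ⊔ VS (S : Subgroup G)) ≤ pCore p G := by
      rintro _ ⟨y, hy, rfl⟩
      exact (inferInstance : (pCore p G).Normal).conj_mem y (hRO hy) g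
    have h1 := (hR.conj g (hgO.trans hOS)).commutator_eq S.2 hR
    have h2 : g * x * g⁻¹ ∈ (⁅(Q ⊓ pCore p G) ⊔ VS (S : Subgroup G),
        (Q ⊓ pCore p G) ⊔ VS (S : Subgroup G)⁆ : Subgroup G).map (MulAut.conj g).toMonoidHom :=
      ⟨x, hQR ▸ hx, rfl⟩
    rw [Subgroup.map_commutator] at h2
    rw [hQR, ← h1]
    exact h2
  have hNn : (Subgroup.centralizer ((⁅Q, Q⁆ : Subgroup G) : Set G)).Normal := inferInstance
  have hDQ : ⁅Q, Q⁆ ≤ Q := Subgroup.le_normalizer_iff_commutator_le_left.mp Subgroup.le_normalizer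
  have hZQ : ¬ ZS Q ≤ pCore p G := by
    intro h
    apply hQO
    rw [← hQ.eq_sup S.2 hR]
    exact sup_le (inf_le_right.trans hRO) h
  have hN : ¬ (S : Subgroup G) ⊓ Subgroup.centralizer ((⁅Q, Q⁆ : Subgroup G) : Set G) ≤ pCore p G := by
    intro h
    apply hZQ
    refine le_trans (le_inf (inf_le_left.trans hQ.1.1) ?_) h
    exact inf_le_right.trans (Subgroup.centralizer_le hDQ)
  exact central_of hS _ hN _ inf_le_left (Subgroup.centralizer_le inf_le_right)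

end Cfsg.Agent.Lib.Helper48.BN
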