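import Cfsg.Agent.Lib.Helper48.BN.CL1
import Cfsg.Agent.Lib.Helper48.BN.CL3

set_option autoImplicit false

namespace Cfsg.Agent.Lib.Helper48.BN

open scoped Pointwise
open Cfsg Cfsg.Agent.Lib.Helper33 Cfsg.Agent.Lib.Helper47

variable {G : Type*} [Group G] [Finite G]

theorem map_minimalCentrallyLargeJoin (S : Subgroup G) :
    (minimalCentrallyLargeJoin ↥S).map S.subtype = sSup {Q : Subgroup G | MCLin S Q} := by
  unfold minimalCentrallyLargeJoin
  rw [sSup_eq_iSup', Subgroup.map_iSup]
  apply le_antisymm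
  · refine iSup_le fun Q => ?_
    exact le_sSup ((isMinimalCentrallyLarge_iff_MCLin S Q.1).1 Q.2)
  · refine sSup_le fun Q hQ => ?_
    have h1 : IsMinimalCentrallyLarge (Q.subgroupOf S) := MCLin.isMinimalCentrallyLarge hQ
    have h2 : (Q.subgroupOf S).map S.subtype = Q := by
      rw [Subgroup.subgroupOf_map_subtype]
      exact inf_eq_left.2 hQ.1.1
    calc Q = (Q.subgroupOf S).map S.subtype := h2.symm
      _ ≤ _ := le_iSup (fun R : {R : Subgroup ↥S | IsMinimalCentrallyLarge R} =>
          (R : Subgroup ↥S).map S.subtype) ⟨Q.subgroupOf S, h1⟩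

/-- `G` permutes `{Q | MCLin S Q}` by conjugation (`MCLin.conj`, `Q^g ≤ O ≤ S`). -/
theorem join_normal (S O : Subgroup G) [O.Normal] (hO : O ≤ S) (h : ∀ Q, MCLin S Q → Q ≤ O) :
    ((minimalCentrallyLargeJoin ↥S).map S.subtype).Normal := by
  rw [map_minimalCentrallyLargeJoin]
  have key : ∀ g : G, MulAut.conj g • sSup {Q : Subgroup G | MCLin S Q}
      ≤ sSup {Q : Subgroup G | MCLin S Q} := by
    intro g
    rw [Subgroup.pointwise_smul_subset_iff]
    refine sSup_le fun Q hQ => ?_
    rw [← Subgroup.pointwise_smul_subset_iff]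
    have hQO : Q ≤ O := h Q hQ
    have h1 : MulAut.conj g • Q ≤ O := by
      calc MulAut.conj g • Q ≤ MulAut.conj g • O :=
            Subgroup.pointwise_smul_le_pointwise_smul_iff.2 hQO
        _ = O := Subgroup.Normal.conj_smul_eq_self g O
    have h2 : MCLin S (MulAut.conj g • Q) := MCLin.conj hQ g (h1.trans hO)
    exact le_sSup h2
  refine ⟨fun n hn g => ?_⟩
  apply key g
  exact ⟨n, hn, rfl⟩

end Cfsg.Agent.Lib.Helper48.BN
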