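import Cfsg.Agent.Lib.Helper48.BN.CLDefs
import Cfsg.Agent.S3007

set_option autoImplicit false

namespace Cfsg.Agent.Lib.Helper48.BN

open scoped Pointwise
open Cfsg Cfsg.Agent.Lib.Helper33 Cfsg.Agent.Lib.Helper47

theorem CL8_card_center_map {P : Type*} [Group P] (φ : P ≃* P) (R : Subgroup P) :
    Nat.card (Subgroup.center ↥(R.map φ.toMonoidHom)) = Nat.card (Subgroup.center ↥R) := by
  let e : ↥R ≃* ↥(R.map φ.toMonoidHom) := φ.subgroupMap R
  have h : (Subgroup.center ↥R).map e.toMonoidHom = Subgroup.center ↥(R.map φ.toMonoidHom) := by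
    ext x
    constructor
    · rintro ⟨y, hy, rfl⟩
      rw [Subgroup.mem_center_iff]
      intro g
      obtain ⟨g', rfl⟩ := e.surjective g
      have := Subgroup.mem_center_iff.1 hy g'
      show e g' * e y = e y * e g'
      rw [← map_mul, ← map_mul, this]
    · intro hx
      refine ⟨e.symm x, ?_, e.apply_symm_apply x⟩
      show e.symm x ∈ Subgroup.center ↥R
      rw [Subgroup.mem_center_iff]
      intro g
      have := Subgroup.mem_center_iff.1 hx (e g)
      apply e.injective
      rw [map_mul, map_mul, e.apply_symm_apply]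
      exact this
  rw [← h]
  exact Nat.card_congr (e.subgroupMap (Subgroup.center ↥R)).symm.toEquiv

theorem CL8_card_map {P : Type*} [Group P] (φ : P ≃* P) (R : Subgroup P) :
    Nat.card ↥(R.map φ.toMonoidHom) = Nat.card ↥R :=
  Nat.card_congr (φ.subgroupMap R).symm.toEquiv

theorem CL8_cl_map {P : Type*} [Group P] (φ : P ≃* P) {R : Subgroup P} (hR : IsCentrallyLarge R) :
    IsCentrallyLarge (R.map φ.toMonoidHom) := by
  unfold IsCentrallyLarge at hR ⊢
  rw [CL8_card_map, CL8_card_center_map, hR]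

theorem CL8_mcl_map {P : Type*} [Group P] (φ : P ≃* P) {R : Subgroup P}
    (hR : IsMinimalCentrallyLarge R) : IsMinimalCentrallyLarge (R.map φ.toMonoidHom) := by
  refine ⟨CL8_cl_map φ hR.1, fun R' hR' hcl => ?_⟩
  have h1 : R'.map φ.symm.toMonoidHom ≤ R := by
    rintro _ ⟨y, hy, rfl⟩
    obtain ⟨z, hz, rfl⟩ := hR' hy
    simpa using hz
  have h2 := hR.2 _ h1 (CL8_cl_map φ.symm hcl)
  rw [← h2]
  ext x
  constructor
  · intro hx
    exact ⟨φ.symm x, ⟨x, hx, rfl⟩, by simp⟩
  · rintro ⟨_, ⟨y, hy, rfl⟩, rfl⟩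
    simpa using hy

/-- an automorphism `φ` of `P` maps minimal centrally large subgroups to such (cardinalities of `R` and `Z(R)` are preserved), and
`[Q,Q].map φ = [Q.map φ, Q.map φ] = [Q,Q]` by `Cfsg.Agent.S3007.result` (`Helper50.mincl_commutator_eq`). -/
theorem commutator_MCL_characteristic {p : ℕ} [Fact p.Prime] {P : Type*} [Group P] [Finite P] (hP : IsPGroup p P)
    (Q : Subgroup P) (hQ : IsMinimalCentrallyLarge Q) : (⁅Q, Q⁆).Characteristic := by
  rw [Subgroup.characteristic_iff_map_eq]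
  intro φ
  rw [Subgroup.map_commutator]
  exact ((Cfsg.Agent.S3007.result P hP Q _ hQ (CL8_mcl_map φ hQ)).2.1).symm

end Cfsg.Agent.Lib.Helper48.BN
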