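import Cfsg.Agent.Lib.Helper48.BN.Defs
import Cfsg.Agent.Lib.Helper47.Frat2
import Cfsg.Agent.Lib.Helper50.CentrallyLarge3

/-! Centrally large subgroups of a subgroup `S` of `G`, seen inside `G` (for S2989, S2990). -/

set_option autoImplicit false

namespace Cfsg.Agent.Lib.Helper48.BN

open scoped Pointwise
open Cfsg

variable {G : Type*} [Group G]

/-- `R ≤ S` is centrally large in `S`: `|R| |Z(R)|` is as large as possible among the subgroups of `S`. -/
def CLin (S R : Subgroup G) : Prop :=
  R ≤ S ∧ ∀ R' : Subgroup G, R' ≤ S → Nat.card R' * Nat.card (ZS R') ≤ Nat.card R * Nat.card (ZS R)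

/-- minimal centrally large -/
def MCLin (S R : Subgroup G) : Prop :=
  CLin S R ∧ ∀ R' : Subgroup G, R' ≤ R → CLin S R' → R' = R

/-- minimal centrally large with `|Ω₁(Z(Q))|` as large as possible -/
def QMax (p : ℕ) (S Q : Subgroup G) : Prop :=
  MCLin S Q ∧ ∀ R : Subgroup G, MCLin S R → Nat.card (omegaOneCenter p R) ≤ Nat.card (omegaOneCenter p Q)

end Cfsg.Agent.Lib.Helper48.BN
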