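import Cfsg.Agent.Lib.Helper48.BN.CLDefs

set_option autoImplicit false

namespace Cfsg.Agent.Lib.Helper48.BN

open scoped Pointwise
open Cfsg Cfsg.Agent.Lib.Helper33 Cfsg.Agent.Lib.Helper47

variable {G : Type*} [Group G]

/-- more generally for an abelian subgroup -/
theorem mem_omegaOne_iff (p : ℕ) (A : Subgroup G) (hA : ∀ x ∈ A, ∀ y ∈ A, x * y = y * x) (x : G) :
    x ∈ omegaOne p A ↔ x ∈ A ∧ x ^ p = 1 := by
  constructor
  · intro hx
    unfold omegaOne at hx
    induction hx using Subgroup.closure_induction with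
    | mem y hy => exact hy
    | one => exact ⟨A.one_mem, one_pow p⟩
    | mul y z _ _ hy hz =>
      refine ⟨A.mul_mem hy.1 hz.1, ?_⟩
      have hc : Commute y z := hA y hy.1 z hz.1
      rw [hc.mul_pow, hy.2, hz.2, one_mul]
    | inv y _ hy => exact ⟨A.inv_mem hy.1, by rw [inv_pow, hy.2, inv_one]⟩
  · intro hx
    exact Subgroup.subset_closure hx

/-- `Z(R)` is abelian, so the elements with `x ^ p = 1` form a subgroup. -/
theorem mem_omegaOneCenter_iff (p : ℕ) (R : Subgroup G) (x : G) :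
    x ∈ omegaOneCenter p R ↔ x ∈ ZS R ∧ x ^ p = 1 := by
  unfold omegaOneCenter
  apply mem_omegaOne_iff
  intro x hx y hy
  exact (Subgroup.mem_centralizer_iff.1 (Subgroup.mem_inf.1 hy).2) x (Subgroup.mem_inf.1 hx).1

theorem map_omegaOneCenter (p : ℕ) (S : Subgroup G) (Q : Subgroup ↥S) :
    (omegaOneCenter p Q).map S.subtype = omegaOneCenter p (Q.map S.subtype) := by
  ext x
  rw [mem_omegaOneCenter_iff, Subgroup.mem_map]
  constructor
  · rintro ⟨y, hy, rfl⟩
    rw [mem_omegaOneCenter_iff] at hy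
    obtain ⟨hy1, hy2⟩ := hy
    obtain ⟨hyQ, hyC⟩ := Subgroup.mem_inf.1 hy1
    refine ⟨Subgroup.mem_inf.2 ⟨Subgroup.mem_map_of_mem _ hyQ, ?_⟩, ?_⟩
    · rw [Subgroup.mem_centralizer_iff]
      rintro _ ⟨h, hh, rfl⟩
      have := (Subgroup.mem_centralizer_iff.1 hyC) h hh
      exact congrArg Subtype.val this
    · have := congrArg Subtype.val hy2
      simpa using this
  · rintro ⟨hx1, hx2⟩
    obtain ⟨hxQ, hxC⟩ := Subgroup.mem_inf.1 hx1
    obtain ⟨y, hy, rfl⟩ := Subgroup.mem_map.1 hxQ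
    refine ⟨y, ?_, rfl⟩
    rw [mem_omegaOneCenter_iff]
    refine ⟨Subgroup.mem_inf.2 ⟨hy, ?_⟩, ?_⟩
    · rw [Subgroup.mem_centralizer_iff]
      intro h hh
      apply Subtype.ext
      exact (Subgroup.mem_centralizer_iff.1 hxC) _ (Subgroup.mem_map_of_mem _ hh)
    · apply Subtype.ext
      simpa using hx2

/-- the normal closure `V` of a set of elements of order dividing `p`, if abelian, has exponent dividing `p` -/
theorem pow_eq_one_of_mem_normalClosure (p : ℕ) (Z₀ : Subgroup G) (hZ₀ : ∀ x ∈ Z₀, x ^ p = 1)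
    (hab : ∀ x ∈ Subgroup.normalClosure (Z₀ : Set G), ∀ y ∈ Subgroup.normalClosure (Z₀ : Set G), x * y = y * x) :
    ∀ x ∈ Subgroup.normalClosure (Z₀ : Set G), x ^ p = 1 := by
  intro x hx
  have hx' : x ∈ Subgroup.closure (Group.conjugatesOfSet (Z₀ : Set G)) := hx
  induction hx' using Subgroup.closure_induction with
  | mem y hy =>
    obtain ⟨a, ha, hay⟩ := Group.mem_conjugatesOfSet_iff.1 hy
    obtain ⟨c, rfl⟩ := isConj_iff.1 hay
    rw [conj_pow, hZ₀ a ha, mul_one, mul_inv_cancel]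
  | one => exact one_pow p
  | mul y z hy hz ihy ihz =>
    have hc : Commute y z := hab y hy z hz
    rw [hc.mul_pow, ihy hy, ihz hz, one_mul]
  | inv y hy ihy => rw [inv_pow, ihy hy, inv_one]

end Cfsg.Agent.Lib.Helper48.BN
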