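import Cfsg.Agent.Lib.Helper48.BN.CLDefs
import Cfsg.Agent.Lib.Helper48.BN.CM0

set_option autoImplicit false

namespace Cfsg.Agent.Lib.Helper48.BN

open scoped Pointwise
open Cfsg Cfsg.Agent.Lib.Helper33 Cfsg.Agent.Lib.Helper47

variable {G : Type*} [Group G] [Finite G] {p : ℕ} [Fact p.Prime]

/-- Averaging step. -/
theorem central_of_pow_central (S : Sylow p G) (V : Subgroup G) [V.Normal] (hVS : V ≤ (S : Subgroup G))
    (hVab : ∀ x ∈ V, ∀ y ∈ V, x * y = y * x)
    (hΩ : ∀ y ∈ ZS (S : Subgroup G), y ^ p = 1 → y ∈ Subgroup.center G)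
    (x : G) (hxV : x ∈ V) (hxZ : x ∈ ZS (S : Subgroup G)) (hxp : x ^ p ∈ Subgroup.center G) :
    x ∈ Subgroup.center G := by
  classical
  letI : CommGroup V := { (inferInstance : Group V) with
    mul_comm := fun a b => Subtype.ext (hVab a a.2 b b.2) }
  haveI : Fintype (G ⧸ (S : Subgroup G)) := Fintype.ofFinite _
  have hxS : ∀ s ∈ (S : Subgroup G), s * x * s⁻¹ = x := by
    intro s hs
    have := Subgroup.mem_centralizer_iff.1 hxZ.2 s hs
    rw [this]; group
  have key : ∀ t : G, (QuotientGroup.mk t : G ⧸ (S : Subgroup G)).out * x *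
      ((QuotientGroup.mk t : G ⧸ (S : Subgroup G)).out)⁻¹ = t * x * t⁻¹ := by
    intro t
    obtain ⟨s, hs⟩ := QuotientGroup.mk_out_eq_mul (S : Subgroup G) t
    rw [hs]
    have := hxS s s.2
    calc t * ↑s * x * (t * ↑s)⁻¹ = t * (↑s * x * (↑s : G)⁻¹) * t⁻¹ := by group
      _ = _ := by rw [this]
  let x' : V := ⟨x, hxV⟩
  let f : G ⧸ (S : Subgroup G) → V := fun q => MulAut.conjNormal q.out x'
  have hf : ∀ q, ((f q : V) : G) = q.out * x * q.out⁻¹ := fun q => rfl
  let m : V := ∏ q, f q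
  have hm : ∀ g : G, MulAut.conjNormal g m = m := by
    intro g
    show MulAut.conjNormal g (∏ q, f q) = ∏ q, f q
    rw [map_prod]
    apply Fintype.prod_equiv (MulAction.toPerm g)
    intro q
    apply Subtype.ext
    rw [MulAut.conjNormal_apply, hf, hf]
    show g * (q.out * x * q.out⁻¹) * g⁻¹ = (g • q).out * x * ((g • q).out)⁻¹
    have : g • q = QuotientGroup.mk (g * q.out) := by
      conv_lhs => rw [← QuotientGroup.out_eq' q]
      rfl
    rw [this, key]; group
  have hmc : (m : G) ∈ Subgroup.center G := by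
    rw [Subgroup.mem_center_iff]
    intro g
    have h1 : g * (m : G) * g⁻¹ = m := by
      have := congrArg Subtype.val (hm g)
      rwa [MulAut.conjNormal_apply] at this
    calc g * (m : G) = (g * (m : G) * g⁻¹) * g := by group
      _ = m * g := by rw [h1]
  set n := (S : Subgroup G).index with hn
  let y : V := ∏ q, (f q * x'⁻¹)
  have hy : y = m * (x'⁻¹) ^ n := by
    show ∏ q, (f q * x'⁻¹) = (∏ q, f q) * (x'⁻¹) ^ n
    rw [Finset.prod_mul_distrib, Finset.prod_const, Finset.card_univ, hn, Subgroup.index,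
      Nat.card_eq_fintype_card]
  have hyp : y ^ p = 1 := by
    show (∏ q, (f q * x'⁻¹)) ^ p = 1
    rw [← Finset.prod_pow]
    apply Finset.prod_eq_one
    intro q _
    rw [mul_pow]
    apply Subtype.ext
    show ((f q : V) : G) ^ p * ((x : G)⁻¹) ^ p = 1
    rw [hf, conj_pow]
    have := (Subgroup.mem_center_iff.1 hxp q.out)
    rw [this]; group
  have hyG : (y : G) = (m : G) * (x⁻¹) ^ n := by
    rw [hy]; rfl
  have hyZ : (y : G) ∈ ZS (S : Subgroup G) := by
    refine ⟨hVS y.2, ?_⟩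
    rw [hyG]
    have ha : (m : G) ∈ Subgroup.centralizer ((S : Subgroup G) : Set G) :=
      Subgroup.center_le_centralizer _ hmc
    have hb : x⁻¹ ∈ Subgroup.centralizer ((S : Subgroup G) : Set G) := inv_mem hxZ.2
    exact mul_mem ha (pow_mem hb n)
  have hyc : (y : G) ∈ Subgroup.center G := hΩ _ hyZ (by
    have := congrArg Subtype.val hyp
    simpa using this)
  have hxn : x ^ n ∈ Subgroup.center G := by
    have h1 : x ^ n = (y : G)⁻¹ * (m : G) := by
      rw [hyG]; group
    rw [h1]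
    exact mul_mem (inv_mem hyc) hmc
  have hcop : Nat.Coprime n p := by
    rw [Nat.coprime_comm]
    exact (Nat.Prime.coprime_iff_not_dvd (Fact.out)).2 S.not_dvd_index
  have h1 : x = (x ^ n) ^ (Nat.gcdA n p) * (x ^ p) ^ (Nat.gcdB n p) := by
    rw [← zpow_natCast, ← zpow_natCast, ← zpow_mul, ← zpow_mul, ← zpow_add, ← Nat.gcd_eq_gcd_ab,
      hcop.gcd_eq_one]
    simp
  rw [h1]
  exact mul_mem (zpow_mem hxn _) (zpow_mem hxp _)

end Cfsg.Agent.Lib.Helper48.BN
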