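import Cfsg.Agent.Lib.Helper48.BN.CM1
import Cfsg.Agent.Lib.Helper48.BN.P4

set_option autoImplicit false

namespace Cfsg.Agent.Lib.Helper48.BN

open scoped Pointwise
open Cfsg Cfsg.Agent.Lib.Helper33 Cfsg.Agent.Lib.Helper47

variable {G : Type*} [Group G] [Finite G] {p : ℕ} [Fact p.Prime] {S : Sylow p G}

/-- induction on `k`: `x ∈ Z(S)`, `x ^ (p ^ k) = 1` implies `x` central. -/
theorem center_of_omega (hS : Setup p S) (h : omegaOneCenter p (S : Subgroup G) ≤ Subgroup.center G) :
    ZS (S : Subgroup G) ≤ Subgroup.center G := by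
  have hΩ : ∀ y ∈ ZS (S : Subgroup G), y ^ p = 1 → y ∈ Subgroup.center G := fun y hy hyp =>
    h ((mem_omegaOneCenter_iff p _ y).2 ⟨hy, hyp⟩)
  have hVn : (VS (S : Subgroup G)).Normal := Subgroup.normalClosure_normal
  have hVS : VS (S : Subgroup G) ≤ (S : Subgroup G) := by
    intro v hv
    have h1 : v ∈ pCore p G := (V_le hS hv).1
    exact Cfsg.Agent.Lib.Helper1.pCore_le_sylow S h1
  have main : ∀ k : ℕ, ∀ x ∈ ZS (S : Subgroup G), x ^ (p ^ k) = 1 → x ∈ Subgroup.center G := by
    intro k
    induction k with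
    | zero =>
      intro x _ hx
      rw [pow_zero, pow_one] at hx
      rw [hx]; exact one_mem _
    | succ k ih =>
      intro x hx hxk
      have h1 : x ^ p ∈ Subgroup.center G := by
        apply ih _ (pow_mem hx p)
        rw [← pow_mul, ← pow_succ']
        exact hxk
      exact central_of_pow_central S (VS (S : Subgroup G)) hVS (V_comm hS) hΩ x
        (Subgroup.subset_normalClosure hx) hx h1
  intro x hx
  obtain ⟨k, hk⟩ := (S.2 ⟨x, hx.1⟩)
  apply main k x hx
  have := congrArg Subtype.val hk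
  simpa using this

end Cfsg.Agent.Lib.Helper48.BN
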