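import Cfsg.Agent.Lib.Helper48.BN.CLDefs

set_option autoImplicit false

namespace Cfsg.Agent.Lib.Helper48.BN

open scoped Pointwise commutatorElement
open Cfsg Cfsg.Agent.Lib.Helper33 Cfsg.Agent.Lib.Helper47

variable {G : Type*} [Group G] [Finite G] {p : ℕ} [Fact p.Prime]

omit [Finite G] in
theorem CM2_comm_eq {a b e f : G} (e1 : e * b = b * e) (e2 : e * f = f * e)
    (e3 : f * a⁻¹ = a⁻¹ * f) : ⁅a * e, b * f⁆ = ⁅a, b⁆ := by
  rw [commutatorElement_def, commutatorElement_def]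
  calc a * e * (b * f) * (a * e)⁻¹ * (b * f)⁻¹
      = a * (e * b) * f * e⁻¹ * a⁻¹ * f⁻¹ * b⁻¹ := by group
    _ = a * b * (e * f) * e⁻¹ * a⁻¹ * f⁻¹ * b⁻¹ := by rw [e1]; group
    _ = a * b * (f * a⁻¹) * f⁻¹ * b⁻¹ := by rw [e2]; group
    _ = a * b * a⁻¹ * b⁻¹ := by rw [e3]; group

/-- `Φ(Q₁ E) = Φ(Q₁)` if `E` is elementary abelian and centralizes `Q₁` (`Q₁ E` a `p`-group).
`≤`: `frattiniOf_le_of_elementary` with `N = Φ(Q₁)`: `[Q₁E, Q₁E] = [Q₁,Q₁] ≤ Φ(Q₁)` (`commutator_le_frattiniOf`) and `(x e)^p = x^p ∈ Φ(Q₁)`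
(`pow_mem_frattiniOf`).  `≥`: `frattiniOf_le_of_elementary` for `P = Q₁`, `N = Φ(Q₁E)`. -/
theorem frattiniOf_sup_eq {Q₁ E : Subgroup G} (hQ₁ : IsPGroup p Q₁) (hE : ∀ e ∈ E, e ^ p = 1)
    (hEab : ∀ x ∈ E, ∀ y ∈ E, x * y = y * x) (hc : E ≤ Subgroup.centralizer (Q₁ : Set G)) :
    frattiniOf (Q₁ ⊔ E) = frattiniOf Q₁ := by
  have hcomm : ∀ e ∈ E, ∀ a ∈ Q₁, e * a = a * e := fun e he a ha =>
    ((Subgroup.mem_centralizer_iff.1 (hc he)) a ha).symm
  have hn : E ≤ Subgroup.normalizer (Q₁ : Set G) :=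
    hc.trans (Subgroup.centralizer_le_normalizer _)
  have hdec : ∀ x ∈ Q₁ ⊔ E, ∃ a ∈ Q₁, ∃ e ∈ E, x = a * e := fun x hx =>
    mem_sup_of_le_normalizer hn hx
  have hPG : IsPGroup p ↥(Q₁ ⊔ E) := by
    rintro ⟨x, hx⟩
    obtain ⟨a, ha, e, he, rfl⟩ := hdec x hx
    obtain ⟨k, hk⟩ := hQ₁ ⟨a, ha⟩
    have hk' : a ^ p ^ k = 1 := by simpa using congrArg Subtype.val hk
    refine ⟨k + 1, Subtype.ext ?_⟩
    have hcm : Commute a e := (hcomm e he a ha).symm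
    show (a * e) ^ p ^ (k + 1) = 1
    rw [hcm.mul_pow, pow_succ, pow_mul, hk', one_pow, one_mul, mul_comm, pow_mul, hE e he, one_pow]
  apply le_antisymm
  · apply frattiniOf_le_of_elementary (p := p)
    · rw [Subgroup.commutator_le]
      intro x hx y hy
      obtain ⟨a, ha, e, he, rfl⟩ := hdec x hx
      obtain ⟨b, hb, f, hf, rfl⟩ := hdec y hy
      rw [CM2_comm_eq (hcomm e he b hb) (hEab e he f hf) (hcomm f hf a⁻¹ (Q₁.inv_mem ha))]
      exact commutator_le_frattiniOf hQ₁ (Subgroup.commutator_mem_commutator ha hb)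
    · intro x hx
      obtain ⟨a, ha, e, he, rfl⟩ := hdec x hx
      have hcm : Commute a e := (hcomm e he a ha).symm
      rw [hcm.mul_pow, hE e he, mul_one]
      exact pow_mem_frattiniOf hQ₁ ha
  · apply frattiniOf_le_of_elementary (p := p)
    · exact (Subgroup.commutator_mono le_sup_left le_sup_left).trans (commutator_le_frattiniOf hPG)
    · intro x hx
      exact pow_mem_frattiniOf hPG (Subgroup.mem_sup_left hx)

end Cfsg.Agent.Lib.Helper48.BN
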