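import Cfsg.Agent.Lib.Helper48.BN.CL5b
import Cfsg.Agent.Lib.Helper48.BN.CM0

set_option autoImplicit false

namespace Cfsg.Agent.Lib.Helper48.BN

open scoped Pointwise
open Cfsg Cfsg.Agent.Lib.Helper33 Cfsg.Agent.Lib.Helper47

variable {G : Type*} [Group G] [Finite G] {p : ℕ} [Fact p.Prime] {S O V Q : Subgroup G}

/-- `A = Z(Q)`, `A₀ = A ∩ O`, `R = (Q ∩ O) V`, `V` of exponent `p`.  By `key_MCL`: `MCLin S R`, `Z(R) = A₀ V`, `|A| |A ∩ V| = |A₀| |V|`.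
`Ω₁(Z(R)) ⊇ Ω₁(A₀) V`, of order `|Ω₁(A₀)| |V| / |A₀ ∩ V| = |Ω₁(A₀)| |A| / |A₀|` (`Ω₁(A₀) ∩ V = A₀ ∩ V = A ∩ V`).
`Ω₁(A) ∩ A₀ = Ω₁(A₀)`, so `|Ω₁(A)| / |Ω₁(A₀)| = |Ω₁(A) A₀| / |A₀| ≤ |A| / |A₀|`.  Hence `|Ω₁(Z(R))| ≥ |Ω₁(A)|`; by `hQ.2` equality holds, so
`QMax p S R` and `Ω₁(A) A₀ = A`.  Finally `Q = (Q ∩ R) A` (`MCLin.eq_sup`) `≤ (Q ∩ O) Ω₁(A)`. -/
theorem key_QMax (hS : IsPGroup p S) (hOS : O ≤ S) (hVO : V ≤ O) (hVc : O ≤ Subgroup.centralizer (V : Set G))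
    (hVn : V.Normal) (hVp : ∀ v ∈ V, v ^ p = 1)
    (hff : ∀ A : Subgroup G, A ≤ S → Nat.card A * Nat.card (V ⊓ Subgroup.centralizer (A : Set G) : Subgroup G)
      ≤ Nat.card (A ⊓ O : Subgroup G) * Nat.card V)
    (hQ : QMax p S Q) :
    QMax p S ((Q ⊓ O) ⊔ V) ∧ Q = (Q ⊓ O) ⊔ omegaOneCenter p Q := by
  obtain ⟨hR, hZR, hcard⟩ := key_MCL hS hOS hVO hVc hVn hff hQ.1
  have hWmem : ∀ x, x ∈ omegaOneCenter p Q ↔ x ∈ ZS Q ∧ x ^ p = 1 := mem_omegaOneCenter_iff p Q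
  have hr := hQ.2 _ hR
  generalize hW : omegaOneCenter p Q = W at *
  generalize hA : ZS Q = A at *
  have hAQ : A ≤ Q := by rw [← hA]; exact inf_le_left
  have hWA : W ≤ A := fun x hx => ((hWmem x).1 hx).1
  have hAab : ∀ x ∈ A, ∀ y ∈ A, x * y = y * x := by
    intro x hx y hy
    rw [← hA] at hx hy
    exact (Subgroup.mem_centralizer_iff.1 hy.2 x hx.1)
  have h1 : (W ⊓ O) ⊔ V ≤ omegaOneCenter p ((Q ⊓ O) ⊔ V) := by
    refine sup_le ?_ ?_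
    · intro x hx
      rw [mem_omegaOneCenter_iff, hZR]
      exact ⟨(le_sup_left : A ⊓ O ≤ (A ⊓ O) ⊔ V) ⟨hWA hx.1, hx.2⟩, ((hWmem x).1 hx.1).2⟩
    · intro v hv
      rw [mem_omegaOneCenter_iff, hZR]
      exact ⟨(le_sup_right : V ≤ (A ⊓ O) ⊔ V) hv, hVp v hv⟩
  have h2 := Cfsg.Agent.Lib.Helper51.card_sup_mul_card_inf_of_le_normalizer (W ⊓ O) V
    Subgroup.le_normalizer_of_normal
  have h2' : (W ⊓ O) ⊓ V = A ⊓ V := by
    apply le_antisymm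
    · exact fun x hx => ⟨hWA hx.1.1, hx.2⟩
    · exact fun x hx => ⟨⟨(hWmem x).2 ⟨hx.1, hVp x hx.2⟩, hVO hx.2⟩, hx.2⟩
  rw [h2'] at h2
  have hnorm : W ≤ Subgroup.normalizer ((A ⊓ O : Subgroup G) : Set G) := by
    intro w hw
    apply Subgroup.mem_normalizer_fintype
    intro n hn
    have : w * n * w⁻¹ = n := by
      rw [hAab w (hWA hw) n hn.1, mul_inv_cancel_right]
    rw [this]
    exact hn
  have h3 := Cfsg.Agent.Lib.Helper51.card_sup_mul_card_inf_of_le_normalizer W (A ⊓ O) hnorm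
  have h3' : W ⊓ (A ⊓ O) = W ⊓ O := by
    apply le_antisymm
    · exact fun x hx => ⟨hx.1, hx.2.2⟩
    · exact fun x hx => ⟨hx.1, hWA hx.1, hx.2⟩
  rw [h3'] at h3
  have h3'' : W ⊔ (A ⊓ O) ≤ A := sup_le hWA inf_le_left
  have ht : Nat.card (W ⊔ (A ⊓ O) : Subgroup G) ≤ Nat.card A := Subgroup.card_le_of_le h3''
  have he : Nat.card ((W ⊓ O) ⊔ V : Subgroup G) ≤ Nat.card (omegaOneCenter p ((Q ⊓ O) ⊔ V)) :=
    Subgroup.card_le_of_le h1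
  have hi : 0 < Nat.card (A ⊓ V : Subgroup G) := Nat.card_pos
  have ha0 : 0 < Nat.card (A ⊓ O : Subgroup G) := Nat.card_pos
  have hw0 : 0 < Nat.card (W ⊓ O : Subgroup G) := Nat.card_pos
  -- e * a0 = w0 * a
  have hea : Nat.card ((W ⊓ O) ⊔ V : Subgroup G) * Nat.card (A ⊓ O : Subgroup G) =
      Nat.card (W ⊓ O : Subgroup G) * Nat.card A := by
    apply Nat.eq_of_mul_eq_mul_right hi
    calc Nat.card ((W ⊓ O) ⊔ V : Subgroup G) * Nat.card (A ⊓ O : Subgroup G) *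
          Nat.card (A ⊓ V : Subgroup G)
        = (Nat.card ((W ⊓ O) ⊔ V : Subgroup G) * Nat.card (A ⊓ V : Subgroup G)) *
          Nat.card (A ⊓ O : Subgroup G) := by ring
      _ = Nat.card (W ⊓ O : Subgroup G) * (Nat.card (A ⊓ O : Subgroup G) * Nat.card V) := by
          rw [h2]; ring
      _ = Nat.card (W ⊓ O : Subgroup G) * Nat.card A * Nat.card (A ⊓ V : Subgroup G) := by
          rw [← hcard]; ring
  have hwe : Nat.card W ≤ Nat.card ((W ⊓ O) ⊔ V : Subgroup G) := by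
    apply Nat.le_of_mul_le_mul_right _ ha0
    calc Nat.card W * Nat.card (A ⊓ O : Subgroup G)
        = Nat.card (W ⊔ (A ⊓ O) : Subgroup G) * Nat.card (W ⊓ O : Subgroup G) := h3.symm
      _ ≤ Nat.card A * Nat.card (W ⊓ O : Subgroup G) := Nat.mul_le_mul_right _ ht
      _ = Nat.card ((W ⊓ O) ⊔ V : Subgroup G) * Nat.card (A ⊓ O : Subgroup G) := by
          rw [hea]; ring
  have hew : Nat.card ((W ⊓ O) ⊔ V : Subgroup G) = Nat.card W := le_antisymm (he.trans hr) hwe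
  have hta : Nat.card (W ⊔ (A ⊓ O) : Subgroup G) = Nat.card A := by
    apply Nat.eq_of_mul_eq_mul_right hw0
    rw [h3, ← hew, hea]; ring
  have hsup : W ⊔ (A ⊓ O) = A := eq_of_le_of_card_le h3'' hta.ge
  refine ⟨⟨hR, fun R' hR' => ?_⟩, ?_⟩
  · have := hQ.2 R' hR'
    rw [hW] at this
    exact this.trans (hwe.trans he)
  · have hsupQ := MCLin.eq_sup hS hQ.1 hR
    rw [hA] at hsupQ
    apply le_antisymm
    · have hRO : (Q ⊓ O) ⊔ V ≤ O := sup_le inf_le_right hVO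
      calc Q = (Q ⊓ ((Q ⊓ O) ⊔ V)) ⊔ A := hsupQ.symm
        _ ≤ (Q ⊓ O) ⊔ W := by
          refine sup_le ?_ ?_
          · exact le_trans (inf_le_inf_left Q hRO) le_sup_left
          · rw [← hsup]
            exact sup_le le_sup_right (le_trans (inf_le_inf_right O hAQ) le_sup_left)
    · exact sup_le inf_le_left (hWA.trans hAQ)

end Cfsg.Agent.Lib.Helper48.BN
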