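import Cfsg.Agent.Lib.Helper48.BN.CM3
import Cfsg.Agent.Lib.Helper48.BN.CM2
import Cfsg.Agent.Lib.Helper48.BN.CL4

set_option autoImplicit false

namespace Cfsg.Agent.Lib.Helper48.BN

open scoped Pointwise
open Cfsg Cfsg.Agent.Lib.Helper33 Cfsg.Agent.Lib.Helper47

variable {G : Type*} [Group G] [Finite G] {p : ℕ} [Fact p.Prime] {S : Sylow p G} {Q : Subgroup G}

/-- `Z₀ = Ω₁(Z(S))`, `V = ⟨Z₀^G⟩` (exponent `p`: `pow_eq_one_of_mem_normalClosure`, abelian by `V0_le`), `O = O_p(G)`, `R = (Q ∩ O) V ≤ O`.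
`key_QMax` (with `V0_le`, `ff0`): `QMax p S R` and `Q = (Q ∩ O) Ω₁(Z(Q))`.  `frattiniOf_sup_eq` twice:
`Φ(Q) = Φ(Q ∩ O) = Φ(R)`. -/
theorem exists_QMax_le (hS : Setup p S) (hnc : ¬ omegaOneCenter p (S : Subgroup G) ≤ Subgroup.center G)
    (hQ : QMax p (S : Subgroup G) Q) :
    ∃ R, QMax p (S : Subgroup G) R ∧ R ≤ pCore p G ∧ frattiniOf Q = frattiniOf R := by
  have hZ₀ : omegaOneCenter p (S : Subgroup G) ≤ ZS (S : Subgroup G) := fun x hx =>
    ((mem_omegaOneCenter_iff p _ x).1 hx).1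
  have hV := V0_le hS hZ₀
  have hVO : Subgroup.normalClosure (omegaOneCenter p (S : Subgroup G) : Set G) ≤ pCore p G :=
    hV.trans inf_le_left
  have hVcO : Subgroup.normalClosure (omegaOneCenter p (S : Subgroup G) : Set G) ≤
      Subgroup.centralizer (pCore p G : Set G) := hV.trans inf_le_right
  have hVc : pCore p G ≤ Subgroup.centralizer
      (Subgroup.normalClosure (omegaOneCenter p (S : Subgroup G) : Set G) : Set G) :=
    Subgroup.le_centralizer_iff.1 hVcO
  have hab : ∀ x ∈ Subgroup.normalClosure (omegaOneCenter p (S : Subgroup G) : Set G),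
      ∀ y ∈ Subgroup.normalClosure (omegaOneCenter p (S : Subgroup G) : Set G), x * y = y * x := by
    intro x hx y hy
    exact (Subgroup.mem_centralizer_iff.1 (hVcO hy)) x (hVO hx)
  have hVp := pow_eq_one_of_mem_normalClosure p (omegaOneCenter p (S : Subgroup G))
    (fun x hx => ((mem_omegaOneCenter_iff p _ x).1 hx).2) hab
  obtain ⟨hR, hQeq⟩ := key_QMax (p := p) (S := (S : Subgroup G)) (O := pCore p G)
    (V := Subgroup.normalClosure (omegaOneCenter p (S : Subgroup G) : Set G)) (Q := Q)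
    S.isPGroup' (pCore_le S) hVO hVc Subgroup.normalClosure_normal hVp
    (fun A hA => ff0 hS hZ₀ hnc A hA) hQ
  refine ⟨_, hR, sup_le inf_le_right hVO, ?_⟩
  have hQ₁ : IsPGroup p ↥(Q ⊓ pCore p G : Subgroup G) :=
    S.isPGroup'.to_le (inf_le_right.trans (pCore_le S))
  have e1 : frattiniOf ((Q ⊓ pCore p G) ⊔ omegaOneCenter p Q) = frattiniOf (Q ⊓ pCore p G) := by
    apply frattiniOf_sup_eq hQ₁
    · exact fun e he => ((mem_omegaOneCenter_iff p _ e).1 he).2
    · intro x hx y hy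
      have hx1 := ((mem_omegaOneCenter_iff p _ x).1 hx).1
      have hy1 := ((mem_omegaOneCenter_iff p _ y).1 hy).1
      exact (Subgroup.mem_centralizer_iff.1 (Subgroup.mem_inf.1 hy1).2) x (Subgroup.mem_inf.1 hx1).1
    · intro x hx
      have hx1 := ((mem_omegaOneCenter_iff p _ x).1 hx).1
      exact Subgroup.centralizer_le (show ((Q ⊓ pCore p G : Subgroup G) : Set G) ⊆ (Q : Set G) from
        fun y hy => (Subgroup.mem_inf.1 hy).1) (Subgroup.mem_inf.1 hx1).2
  have e2 : frattiniOf ((Q ⊓ pCore p G) ⊔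
      Subgroup.normalClosure (omegaOneCenter p (S : Subgroup G) : Set G)) =
      frattiniOf (Q ⊓ pCore p G) := by
    apply frattiniOf_sup_eq hQ₁ hVp hab
    intro x hx
    exact Subgroup.centralizer_le (show ((Q ⊓ pCore p G : Subgroup G) : Set G) ⊆
      (pCore p G : Set G) from fun y hy => (Subgroup.mem_inf.1 hy).2) (hVcO hx)
  rw [e2, ← e1, ← hQeq]

end Cfsg.Agent.Lib.Helper48.BN
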