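import Cfsg.Agent.Lib.Helper48.BN.CL1
import Cfsg.Agent.Lib.Helper48.BN.CL2
import Cfsg.Agent.Lib.Helper48.BN.CL3
import Cfsg.Agent.Lib.Helper48.BN.CM0

set_option autoImplicit false

namespace Cfsg.Agent.Lib.Helper48.BN

open scoped Pointwise
open Cfsg Cfsg.Agent.Lib.Helper33 Cfsg.Agent.Lib.Helper47

variable {G : Type*} [Group G] [Finite G] {p : ℕ}

omit [Finite G] in
theorem CM5_frattini_map {A B : Type*} [Group A] [Group B] (e : A ≃* B) :
    (frattini A).map e.toMonoidHom = frattini B :=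
  e.mapSubgroup.map_radical

omit [Finite G] in
theorem CM5_frattiniOf_map (S : Subgroup G) (Q : Subgroup ↥S) :
    ((frattini ↥Q).map Q.subtype).map S.subtype = frattiniOf (Q.map S.subtype) := by
  unfold frattiniOf
  rw [← CM5_frattini_map (Q.equivMapOfInjective S.subtype S.subtype_injective), Subgroup.map_map,
    Subgroup.map_map]
  congr 1

omit [Finite G] in
theorem CM5_card_omega (S : Subgroup G) (Q : Subgroup ↥S) :
    Nat.card (omegaOneCenter p (Q.map S.subtype)) = Nat.card (omegaOneCenter p Q) := by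
  rw [← map_omegaOneCenter, card_map_subtype]

/-- `maxOmegaCenterOfMinimalCL` is a `sSup` of a nonempty bounded set of naturals, hence attained and an upper bound;
`map_omegaOneCenter`, `isMinimalCentrallyLarge_iff_MCLin`. -/
theorem qmax_iff (S : Subgroup G) (Q : Subgroup ↥S) :
    (IsMinimalCentrallyLarge Q ∧ Nat.card ↥(omegaOneCenter p Q) = maxOmegaCenterOfMinimalCL p ↥S) ↔
      QMax p S (Q.map S.subtype) := by
  have hbdd : BddAbove {k : ℕ | ∃ Q : Subgroup ↥S, IsMinimalCentrallyLarge Q ∧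
      Nat.card ↥(omegaOneCenter p Q) = k} := by
    refine ⟨Nat.card ↥S, ?_⟩
    rintro k ⟨Q', -, rfl⟩
    exact Subgroup.card_le_card_group _
  constructor
  · rintro ⟨h1, h2⟩
    refine ⟨(isMinimalCentrallyLarge_iff_MCLin S Q).1 h1, ?_⟩
    intro R hR
    have hRS : R ≤ S := hR.1.1
    have hmap : (R.subgroupOf S).map S.subtype = R := Subgroup.map_subgroupOf_eq_of_le hRS
    have h3 := CM5_card_omega (p := p) S (R.subgroupOf S)
    rw [hmap] at h3
    rw [CM5_card_omega, h2, h3]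
    exact le_csSup hbdd ⟨_, hR.isMinimalCentrallyLarge, rfl⟩
  · rintro ⟨h1, h2⟩
    have h1' := (isMinimalCentrallyLarge_iff_MCLin S Q).2 h1
    refine ⟨h1', le_antisymm (le_csSup hbdd ⟨Q, h1', rfl⟩) ?_⟩
    unfold maxOmegaCenterOfMinimalCL
    refine csSup_le ⟨Nat.card ↥(omegaOneCenter p Q), Q, h1', rfl⟩ ?_
    rintro k ⟨Q', hQ', rfl⟩
    have := h2 _ ((isMinimalCentrallyLarge_iff_MCLin S Q').1 hQ')
    rwa [CM5_card_omega, CM5_card_omega] at this

theorem map_frattiniOfMinimalCLJoin (S : Subgroup G) :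
    (frattiniOfMinimalCLJoin p ↥S).map S.subtype =
      ⨆ Q : {Q : Subgroup G // QMax p S Q}, frattiniOf (Q : Subgroup G) := by
  unfold frattiniOfMinimalCLJoin
  rw [Subgroup.map_iSup]
  apply le_antisymm
  · apply iSup_le
    rintro ⟨Q, hQ⟩
    rw [CM5_frattiniOf_map]
    exact le_iSup (fun Q : {Q : Subgroup G // QMax p S Q} => frattiniOf (Q : Subgroup G))
      ⟨_, (qmax_iff S Q).1 hQ⟩
  · apply iSup_le
    rintro ⟨R, hR⟩
    have hRS : R ≤ S := hR.1.1.1
    have hmap : (R.subgroupOf S).map S.subtype = R := Subgroup.map_subgroupOf_eq_of_le hRS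
    have hQ' : QMax p S ((R.subgroupOf S).map S.subtype) := by rw [hmap]; exact hR
    have h1 := (qmax_iff S (R.subgroupOf S)).2 hQ'
    have h2 := CM5_frattiniOf_map S (R.subgroupOf S)
    rw [hmap] at h2
    show frattiniOf R ≤ _
    rw [← h2]
    exact le_iSup (fun Q : {Q : Subgroup ↥S // IsMinimalCentrallyLarge Q ∧
      Nat.card ↥(omegaOneCenter p Q) = maxOmegaCenterOfMinimalCL p ↥S} =>
        ((frattini ↥(Q : Subgroup ↥S)).map (Q : Subgroup ↥S).subtype).map S.subtype) ⟨_, h1⟩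

end Cfsg.Agent.Lib.Helper48.BN
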