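import Cfsg.Agent.Lib.Helper48.BN.CL3

set_option autoImplicit false

namespace Cfsg.Agent.Lib.Helper48.BN

open scoped Pointwise
open Cfsg Cfsg.Agent.Lib.Helper33 Cfsg.Agent.Lib.Helper47

variable {G : Type*} [Group G] {p : ℕ}

/-- by `h` the join equals the join over the `R` with `QMax p S R`, `R ≤ O`; `G` permutes these (`QMax.conj`, `R^g ≤ O ≤ S`) and
`Φ(R^g) = Φ(R)^g` (`frattiniOf_conj`). -/
theorem iSup_frattiniOf_normal (S O : Subgroup G) [hOn : O.Normal] (hO : O ≤ S)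
    (h : ∀ Q, QMax p S Q → ∃ R, QMax p S R ∧ R ≤ O ∧ frattiniOf Q = frattiniOf R) :
    (⨆ Q : {Q : Subgroup G // QMax p S Q}, frattiniOf (Q : Subgroup G)).Normal := by
  constructor
  intro n hn g
  have key : (⨆ Q : {Q : Subgroup G // QMax p S Q}, frattiniOf (Q : Subgroup G)) ≤
      (⨆ Q : {Q : Subgroup G // QMax p S Q}, frattiniOf (Q : Subgroup G)).comap
        (MulAut.conj g).toMonoidHom := by
    apply iSup_le
    rintro ⟨Q, hQ⟩
    obtain ⟨R, hR, hRO, hQR⟩ := h Q hQ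
    have hRg : MulAut.conj g • R ≤ S := by
      rintro _ ⟨r, hr, rfl⟩
      exact hO (hOn.conj_mem r (hRO hr) g)
    have hRgQ := hR.conj g hRg
    intro x hx
    have h1 : g * x * g⁻¹ ∈ frattiniOf (MulAut.conj g • R) := by
      rw [frattiniOf_conj]
      refine ⟨x, ?_, rfl⟩
      rw [← hQR]
      exact hx
    exact (le_iSup (fun Q : {Q : Subgroup G // QMax p S Q} => frattiniOf (Q : Subgroup G))
      ⟨_, hRgQ⟩) h1
  exact key hn

end Cfsg.Agent.Lib.Helper48.BN
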