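import Cfsg.Agent.Lib.Helper48.BN.CLDefs
import Cfsg.Agent.S3007
import Cfsg.Agent.S0012

set_option autoImplicit false

namespace Cfsg.Agent.Lib.Helper48.BN

open scoped Pointwise commutatorElement
open Cfsg Cfsg.Agent.Lib.Helper33 Cfsg.Agent.Lib.Helper47

/-- There is a minimal centrally large `Q` with `|Ω₁(Z(Q))| = mz` (`Helper50.exists_isMinimalCentrallyLarge`; the `sSup` of a nonempty bounded
set of naturals is attained).  `Φ(Q)` is a term of the join, so `frattini ↥Q = ⊥`; `Q` is a `p`-group, so it is elementary abelian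
(`Cfsg.Agent.S0012.result`: commutators and `p`-th powers lie in the Frattini subgroup).  Then `Cfsg.Agent.S3007.result` (last part). -/
theorem part_two {p : ℕ} [Fact p.Prime] {P : Type*} [Group P] [Finite P] (hP : IsPGroup p P)
    (h : frattiniOfMinimalCLJoin p P = ⊥) :
    (∀ Q : Subgroup P, IsMinimalCentrallyLarge Q ↔ Q ∈ maxAbelianSubgroups P) ∧
      ∃ A ∈ maxAbelianSubgroups P, IsElementaryAbelian p A := by
  classical
  -- the sSup is attained
  have hne : {k : ℕ | ∃ Q : Subgroup P, IsMinimalCentrallyLarge Q ∧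
      Nat.card ↥(omegaOneCenter p Q) = k}.Nonempty := by
    obtain ⟨R, hR⟩ := Cfsg.Agent.Lib.Helper50.exists_isMinimalCentrallyLarge (G := P)
    exact ⟨_, R, hR, rfl⟩
  have hbdd : BddAbove {k : ℕ | ∃ Q : Subgroup P, IsMinimalCentrallyLarge Q ∧
      Nat.card ↥(omegaOneCenter p Q) = k} := by
    refine ⟨Nat.card P, ?_⟩
    rintro k ⟨Q, -, rfl⟩
    exact Subgroup.card_le_card_group _
  obtain ⟨Q, hQ, hQk⟩ := Nat.sSup_mem hne hbdd
  have hQk' : Nat.card ↥(omegaOneCenter p Q) = maxOmegaCenterOfMinimalCL p P := hQk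
  have hfr : (frattini ↥Q).map Q.subtype = ⊥ := by
    have h1 : (frattini ↥Q).map Q.subtype ≤ frattiniOfMinimalCLJoin p P := by
      unfold frattiniOfMinimalCLJoin
      exact le_iSup (fun Q : {Q : Subgroup P // IsMinimalCentrallyLarge Q ∧
        Nat.card ↥(omegaOneCenter p Q) = maxOmegaCenterOfMinimalCL p P} =>
          (frattini ↥(Q : Subgroup P)).map (Q : Subgroup P).subtype) ⟨Q, hQ, hQk'⟩
    rw [h] at h1
    exact le_bot_iff.1 h1
  have hfr' : frattini ↥Q = ⊥ := by
    rwa [Subgroup.map_eq_bot_iff_of_injective _ Q.subtype_injective] at hfr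
  have hQp : IsPGroup p ↥Q := hP.to_subgroup Q
  obtain ⟨hc, hpw⟩ := Cfsg.Agent.S0012.result p hQp
  rw [hfr'] at hc
  have hQab : IsMulCommutative ↥Q := by
    refine ⟨⟨fun a b => ?_⟩⟩
    have : ⁅a, b⁆ ∈ commutator ↥Q := Subgroup.commutator_mem_commutator (Subgroup.mem_top a) (Subgroup.mem_top b)
    have h1 : ⁅a, b⁆ = 1 := by
      have := hc this
      simpa using this
    exact commutatorElement_eq_one_iff_mul_comm.1 h1
  have hall := (Cfsg.Agent.S3007.result P hP Q Q hQ hQ).2.2.2.2 hQab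
  refine ⟨hall, Q, (hall Q).1 hQ, hQab, fun a ha => ?_⟩
  have h1 := hpw ⟨a, ha⟩
  rw [hfr'] at h1
  have h2 : (⟨a, ha⟩ : ↥Q) ^ p = 1 := by simpa using h1
  simpa using congrArg Subtype.val h2

end Cfsg.Agent.Lib.Helper48.BN
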