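import Mathlib
import Cfsg.Agent.Lib.Helper48.PMinimal3
import Cfsg.Agent.Lib.Helper33.ThompsonA

/-! Baumann / Glauberman-Niles package (S2768 S2769 S2770): definitions and basic tools. -/

set_option autoImplicit false

namespace Cfsg.Agent.Lib.Helper48.BN

open scoped Pointwise
open Cfsg Cfsg.Agent.Lib.Helper33

/-- the facts on `PSL₂(q)`, `q` a power of `p`, that are used -/
structure RankOne (p : ℕ) (X : Type*) [Group X] : Prop where
  gen : ∀ P P' : Sylow p X, P ≠ P' → (P : Subgroup X) ⊔ (P' : Subgroup X) = ⊤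
  ti : ∀ P P' : Sylow p X, P ≠ P' → (P : Subgroup X) ⊓ (P' : Subgroup X) = ⊥
  ab : ∀ P : Sylow p X, ∀ x ∈ (P : Subgroup X), ∀ y ∈ (P : Subgroup X), x * y = y * x
  irr : ∀ (P : Sylow p X) (H : Subgroup X), H ≤ (P : Subgroup X) → H ≠ ⊥ →
    (∀ n ∈ Subgroup.normalizer ((P : Subgroup X) : Set X), ∀ h ∈ H, n * h * n⁻¹ ∈ H) →
    H = (P : Subgroup X)
  two : ∃ P P' : Sylow p X, P ≠ P'

variable {G : Type*} [Group G]

/-- `Z(S)` inside `G` -/
abbrev ZS (S : Subgroup G) : Subgroup G := S ⊓ Subgroup.centralizer (S : Set G)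

/-- `C_S(Z(J(S)))` inside `G` -/
abbrev BS (S : Subgroup G) : Subgroup G := S ⊓ Subgroup.centralizer (centerThompsonAOf S : Set G)

/-- `⟨Z(S)^G⟩` -/
abbrev VS (S : Subgroup G) : Subgroup G := Subgroup.normalClosure ((ZS S : Subgroup G) : Set G)

/-- the abstract setting in which everything is proved -/
structure Setup (p : ℕ) (S : Sylow p G) : Prop where
  pmin : IsPMinimal p G
  cc : Subgroup.centralizer (pCore p G : Set G) ≤ pCore p G
  gen : ∃ g : G, ∀ a ∈ (S : Subgroup G), a ∉ pCore p G →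
    Subgroup.closure {a} ⊔ (MulAut.conj g • (S : Subgroup G)) = ⊤
  irr : ∀ H : Subgroup G, H ≤ (S : Subgroup G) →
    Subgroup.normalizer ((S : Subgroup G) : Set G) ≤ Subgroup.normalizer (H : Set G) →
    ¬ H ≤ pCore p G → H ⊔ pCore p G = (S : Subgroup G)
  ab : ∀ x ∈ (S : Subgroup G), ∀ y ∈ (S : Subgroup G), x * y * x⁻¹ * y⁻¹ ∈ pCore p G

instance pCore_normal_BN (p : ℕ) : (pCore p G).Normal := by
  unfold pCore
  constructor
  intro n hn g
  have h : ∀ N ∈ {N : Subgroup G | N.Normal ∧ IsPGroup p N},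
      N ≤ (sSup {N : Subgroup G | N.Normal ∧ IsPGroup p N}).comap (MulAut.conj g).toMonoidHom := by
    intro N hN x hx
    exact (le_sSup hN) (hN.1.conj_mem x hx g)
  exact (sSup_le h) hn

variable [Finite G] {p : ℕ} [Fact p.Prime] {S : Sylow p G}

/-- dichotomy for normal subgroups of a `p`-minimal group -/
theorem dich_pmin (hP : IsPMinimal p G) (S : Sylow p G) (N : Subgroup G) [hN : N.Normal] :
    (S : Subgroup G) ⊓ N ≤ pCore p G ∨ N ⊔ (S : Subgroup G) = ⊤ := by
  obtain ⟨-, M, ⟨hM, hSM⟩, -⟩ := hP S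
  by_cases h : N ≤ M
  · exact Or.inl (pmin_normal_inf_le hP S hM hSM N hN h)
  · exact Or.inr (pmin_eq_top hP S hM hSM le_sup_right (fun h' => h (le_sup_left.trans h')))

theorem dich (hS : Setup p S) (N : Subgroup G) [N.Normal] :
    (S : Subgroup G) ⊓ N ≤ pCore p G ∨ N ⊔ (S : Subgroup G) = ⊤ := dich_pmin hS.pmin S N

theorem sup_eq_top (hS : Setup p S) (N : Subgroup G) [N.Normal]
    (hN : ¬ (S : Subgroup G) ⊓ N ≤ pCore p G) : N ⊔ (S : Subgroup G) = ⊤ :=
  (dich hS N).resolve_left hN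

/-- a subgroup of `Z(S)` centralized by a normal subgroup `N` with `S ∩ N ≰ O_p(G)` is central -/
theorem central_of (hS : Setup p S) (N : Subgroup G) [N.Normal]
    (hN : ¬ (S : Subgroup G) ⊓ N ≤ pCore p G) (X : Subgroup G) (hX : X ≤ ZS (S : Subgroup G))
    (hNX : N ≤ Subgroup.centralizer (X : Set G)) : X ≤ Subgroup.center G := by
  have h1 : (S : Subgroup G) ≤ Subgroup.centralizer (X : Set G) := by
    rw [Subgroup.le_centralizer_iff]
    exact hX.trans inf_le_right
  have h2 : (⊤ : Subgroup G) ≤ Subgroup.centralizer (X : Set G) := by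
    rw [← sup_eq_top hS N hN]
    exact sup_le hNX h1
  rw [← Subgroup.centralizer_univ, ← Subgroup.coe_top, ← Subgroup.le_centralizer_iff]
  exact h2

omit [Finite G] in
theorem normal_of_le_center {X : Subgroup G} (h : X ≤ Subgroup.center G) : X.Normal := by
  constructor
  intro n hn g
  have := (Subgroup.mem_center_iff.mp (h hn)) g
  rw [this, mul_inv_cancel_right]
  exact hn

theorem pCore_le (S : Sylow p G) : pCore p G ≤ (S : Subgroup G) := pCore_le_sylow S

end Cfsg.Agent.Lib.Helper48.BN
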