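import Cfsg.Agent.Lib.Helper48.BN.C1
import Cfsg.Agent.Lib.Helper48.BN.P4

set_option autoImplicit false

namespace Cfsg.Agent.Lib.Helper48.BN

open scoped Pointwise commutatorElement
open Cfsg Cfsg.Agent.Lib.Helper33

variable {G : Type*} [Group G] [Finite G] {p : ℕ} [Fact p.Prime] {S : Sylow p G}

/-- `J = J(S)`, `W = Z(J)`, `V = VS S`, `Q = O_p(G)`.  `R = [W V, Q]` is normal in `G`.  `R ≤ W`: `[w v, q] = [w, q] ∈ W` as `V ≤ Z(Q)`
and `S` normalizes `W`.  `[W,S] ≤ R`: `S = J Q` by `hS.irr` (`normalizer_le_J`), and `[w, j q] = j [w,q] j⁻¹`.  `C_G(R)` is normal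
and contains `J ≰ Q`.  Apply `central_of` with `N = C_G(R)`, `X = [W,S] ∩ Z(S)`. -/
theorem comm_central (hS : Setup p S) (hJ : ¬ thompsonSubgroupAOf (S : Subgroup G) ≤ pCore p G)
    (hY : (centerThompsonAOf (S : Subgroup G) ⊔ VS (S : Subgroup G)).Normal) :
    ⁅centerThompsonAOf (S : Subgroup G), (S : Subgroup G)⁆ ⊓ ZS (S : Subgroup G) ≤ Subgroup.center G := by
  have hQ : (pCore p G).Normal := inferInstance
  set W : Subgroup G := centerThompsonAOf (S : Subgroup G) with hW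
  set V : Subgroup G := VS (S : Subgroup G) with hV
  set J : Subgroup G := thompsonSubgroupAOf (S : Subgroup G) with hJdef
  have hVn : V.Normal := Subgroup.normalClosure_normal
  have hRn : (⁅W ⊔ V, pCore p G⁆ : Subgroup G).Normal := inferInstance
  have hJQ : J ⊔ pCore p G = (S : Subgroup G) :=
    hS.irr _ (J_le_self (S : Subgroup G)) (normalizer_le_J (S : Subgroup G)) hJ
  -- `R ≤ W`
  have hRW : (⁅W ⊔ V, pCore p G⁆ : Subgroup G) ≤ W := by
    rw [Subgroup.commutator_le]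
    intro y hy q hq
    obtain ⟨w, hw, v, hv, rfl⟩ := Subgroup.mem_sup_of_normal_right.mp hy
    have hvq : q * v = v * q := (Subgroup.mem_centralizer_iff.mp (V_le hS hv).2) q hq
    have e : ⁅w * v, q⁆ = w * (q * w⁻¹ * q⁻¹) := by
      rw [commutatorElement_def]
      calc w * v * q * (w * v)⁻¹ * q⁻¹ = w * (v * q) * v⁻¹ * w⁻¹ * q⁻¹ := by group
        _ = w * (q * v) * v⁻¹ * w⁻¹ * q⁻¹ := by rw [hvq]
        _ = w * (q * w⁻¹ * q⁻¹) := by group
    rw [e]
    refine W.mul_mem hw ?_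
    have hqn : q ∈ Subgroup.normalizer (W : Set G) :=
      normalizer_le_W _ (Subgroup.le_normalizer (pCore_le S hq))
    exact (Subgroup.mem_normalizer_iff.mp hqn _).mp (W.inv_mem hw)
  -- `[W,S] ≤ R`
  have hWS : (⁅W, (S : Subgroup G)⁆ : Subgroup G) ≤ ⁅W ⊔ V, pCore p G⁆ := by
    rw [Subgroup.commutator_le]
    intro w hw s hs
    rw [← hJQ] at hs
    obtain ⟨j, hj, q, hq, rfl⟩ := Subgroup.mem_sup_of_normal_right.mp hs
    have hwj : j * w = w * j := (Subgroup.mem_centralizer_iff.mp hw.2) j hj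
    have e : ⁅w, j * q⁆ = j * ⁅w, q⁆ * j⁻¹ := by
      rw [commutatorElement_def, commutatorElement_def]
      calc w * (j * q) * w⁻¹ * (j * q)⁻¹ = (w * j) * q * w⁻¹ * q⁻¹ * j⁻¹ := by group
        _ = (j * w) * q * w⁻¹ * q⁻¹ * j⁻¹ := by rw [hwj]
        _ = j * (w * q * w⁻¹ * q⁻¹) * j⁻¹ := by group
    rw [e]
    exact hRn.conj_mem _ (Subgroup.commutator_mem_commutator ((le_sup_left : W ≤ W ⊔ V) hw) hq) j
  -- `J` centralizes `R`
  have hJR : J ≤ Subgroup.centralizer ((⁅W ⊔ V, pCore p G⁆ : Subgroup G) : Set G) := by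
    rw [Subgroup.le_centralizer_iff]
    exact hRW.trans inf_le_right
  refine central_of hS (Subgroup.centralizer ((⁅W ⊔ V, pCore p G⁆ : Subgroup G) : Set G))
    (fun hle => hJ ((le_inf (J_le_self _) hJR).trans hle)) _ inf_le_right ?_
  apply Subgroup.centralizer_le
  exact (inf_le_left : ⁅W, (S : Subgroup G)⁆ ⊓ ZS (S : Subgroup G) ≤ _).trans hWS

end Cfsg.Agent.Lib.Helper48.BN
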