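import Cfsg.Agent.Lib.Helper48.BN.Defs

set_option autoImplicit false

namespace Cfsg.Agent.Lib.Helper48.BN

open scoped Pointwise
open Cfsg Cfsg.Agent.Lib.Helper33

variable {G : Type*} [Group G] [Finite G] {p : ℕ} [Fact p.Prime] {S : Sylow p G}

omit [Finite G] [Fact p.Prime] in
theorem P11_powerClosure_normal (n : ℕ) (V : Subgroup G) [hV : V.Normal] : (powerClosure p n V).Normal := by
  constructor
  intro x hx g
  have hle : powerClosure p n V ≤ (powerClosure p n V).comap (MulAut.conj g).toMonoidHom := by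
    unfold powerClosure
    rw [Subgroup.closure_le]
    rintro _ ⟨v, hv, rfl⟩
    show g * v ^ p ^ n * g⁻¹ ∈ Subgroup.closure {y : G | ∃ x ∈ V, y = x ^ (p ^ n)}
    apply Subgroup.subset_closure
    exact ⟨g * v * g⁻¹, hV.conj_mem v hv g, by rw [conj_pow]⟩
  exact hle hx

omit [Finite G] [Fact p.Prime] in
theorem P11_powerClosure_mono (n : ℕ) {V W : Subgroup G} (h : V ≤ W) :
    powerClosure p n V ≤ powerClosure p n W := by
  unfold powerClosure
  apply Subgroup.closure_mono
  rintro _ ⟨v, hv, rfl⟩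
  exact ⟨v, h hv, rfl⟩

omit [Finite G] [Fact p.Prime] in
theorem P11_powerClosure_le (n : ℕ) (V : Subgroup G) : powerClosure p n V ≤ V := by
  unfold powerClosure
  rw [Subgroup.closure_le]
  rintro _ ⟨v, hv, rfl⟩
  exact V.pow_mem hv _

/-- `℧¹(V)` is normal in `G`, so is `N = C_G(℧¹(V))`, and `A ≤ S ∩ N`.  `central_of` with `X = ℧¹(Z(S)) ≤ ℧¹(V)`. -/
theorem agemo_central (hS : Setup p S) {A : Subgroup G} (hA : A ≤ (S : Subgroup G)) (hAQ : ¬ A ≤ pCore p G)
    (h : powerClosure p 1 (VS (S : Subgroup G)) ≤ Subgroup.centralizer (A : Set G)) :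
    powerClosure p 1 (ZS (S : Subgroup G)) ≤ Subgroup.center G := by
  haveI : (powerClosure p 1 (VS (S : Subgroup G))).Normal := P11_powerClosure_normal 1 _
  have hAN : A ≤ Subgroup.centralizer (powerClosure p 1 (VS (S : Subgroup G)) : Set G) :=
    Subgroup.le_centralizer_iff.mp h
  refine central_of hS (Subgroup.centralizer (powerClosure p 1 (VS (S : Subgroup G)) : Set G))
    (fun hle => hAQ ((le_inf hA hAN).trans hle)) _ (P11_powerClosure_le 1 _) ?_
  apply Subgroup.centralizer_le
  exact P11_powerClosure_mono 1 Subgroup.le_normalClosure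

end Cfsg.Agent.Lib.Helper48.BN
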