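import Cfsg.Agent.Lib.Helper48.BN.P12a

set_option autoImplicit false

namespace Cfsg.Agent.Lib.Helper48.BN

open scoped Pointwise commutatorElement
open Cfsg Cfsg.Agent.Lib.Helper33

variable {G : Type*} [Group G] [Finite G] {p : ℕ} [Fact p.Prime] {S : Sylow p G}

/-- `L S = G` for `L = ⟨B^G⟩` -/
theorem P12e_L_sup_S (hS : Setup p S) (hJ : ¬ thompsonSubgroupAOf (S : Subgroup G) ≤ pCore p G) :
    Subgroup.normalClosure ((BS (S : Subgroup G) : Subgroup G) : Set G) ⊔ (S : Subgroup G) = ⊤ := by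
  apply sup_eq_top hS
  intro hle
  apply hJ
  refine le_trans (le_inf (J_le_self _) ?_) hle
  exact (J_le_B (S : Subgroup G)).trans Subgroup.le_normalClosure

/-- `L = ⟨B^G⟩`, `L' = [L,L]` (normal in `G`).  `B L'` is normalized by `L` (`l b l⁻¹ = [l,b] b`), by `B`, and by `Q`
(`q b q⁻¹ b⁻¹ ∈ B ∩ Q`, see `comm_Q_L`), hence by `L S = L B Q = G` (`B_sup_Q`, `sup_eq_top` with `N = L`:
`J(S) ≤ B ≤ S ∩ L`).  So `B L'` is normal and contains `B`. -/
theorem L_le (hS : Setup p S) (hJ : ¬ thompsonSubgroupAOf (S : Subgroup G) ≤ pCore p G)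
    (hD : (BS (S : Subgroup G) ⊓ pCore p G).Normal) :
    Subgroup.normalClosure ((BS (S : Subgroup G) : Subgroup G) : Set G) ≤
      BS (S : Subgroup G) ⊔ ⁅Subgroup.normalClosure ((BS (S : Subgroup G) : Subgroup G) : Set G),
        Subgroup.normalClosure ((BS (S : Subgroup G) : Subgroup G) : Set G)⁆ := by
  set B : Subgroup G := BS (S : Subgroup G) with hB
  set L : Subgroup G := Subgroup.normalClosure (B : Set G) with hL
  have hBL : B ≤ L := Subgroup.le_normalClosure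
  have hL' : (⁅L, L⁆ : Subgroup G).Normal := inferInstance
  -- conjugation into `M`
  have hconj : ∀ x : G, (∀ b ∈ B, x * b * x⁻¹ ∈ B ⊔ ⁅L, L⁆) → ∀ m ∈ B ⊔ ⁅L, L⁆, x * m * x⁻¹ ∈ B ⊔ ⁅L, L⁆ := by
    intro x hx m hm
    have hle : B ⊔ ⁅L, L⁆ ≤ (B ⊔ ⁅L, L⁆).comap (MulAut.conj x).toMonoidHom := by
      apply sup_le
      · intro b hb
        exact hx b hb
      · intro c hc
        exact (le_sup_right : ⁅L, L⁆ ≤ B ⊔ ⁅L, L⁆) (hL'.conj_mem c hc x)
    exact hle hm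
  have h1 : L ≤ Subgroup.normalizer ((B ⊔ ⁅L, L⁆ : Subgroup G) : Set G) := by
    apply P12a_le_normalizer_of_conj
    intro l hl
    apply hconj
    intro b hb
    have e : l * b * l⁻¹ = ⁅l, b⁆ * b := by
      rw [commutatorElement_def]; group
    rw [e]
    exact Subgroup.mul_mem _ ((le_sup_right : ⁅L, L⁆ ≤ B ⊔ ⁅L, L⁆)
      (Subgroup.commutator_mem_commutator hl (hBL hb))) ((le_sup_left : B ≤ B ⊔ ⁅L, L⁆) hb)
  have h2 : (S : Subgroup G) ≤ Subgroup.normalizer ((B ⊔ ⁅L, L⁆ : Subgroup G) : Set G) := by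
    apply P12a_le_normalizer_of_conj
    intro s hs
    apply hconj
    intro b hb
    exact (le_sup_left : B ≤ B ⊔ ⁅L, L⁆) (P12a_S_conj_B S hs hb)
  have h3 : Subgroup.normalizer ((B ⊔ ⁅L, L⁆ : Subgroup G) : Set G) = ⊤ := by
    rw [eq_top_iff, ← P12e_L_sup_S hS hJ]
    exact sup_le h1 h2
  have hn : (B ⊔ ⁅L, L⁆ : Subgroup G).Normal := Subgroup.normalizer_eq_top_iff.mp h3
  exact Subgroup.normalClosure_le_normal (le_sup_left : B ≤ B ⊔ ⁅L, L⁆)

end Cfsg.Agent.Lib.Helper48.BN
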