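import Cfsg.Agent.Lib.Helper48.BN.Defs

set_option autoImplicit false

namespace Cfsg.Agent.Lib.Helper48.BN

open scoped Pointwise
open Cfsg Cfsg.Agent.Lib.Helper33

variable {G : Type*} [Group G] [Finite G] {p : ℕ} [Fact p.Prime]

/-- `S ∩ L` is a Sylow `p`-subgroup of the normal subgroup `L`. -/
theorem P12g_exists_sylow_inf (S : Sylow p G) (L : Subgroup G) [hL : L.Normal] :
    ∃ P : Sylow p ↥L, (P : Subgroup ↥L) = ((S : Subgroup G) ⊓ L).subgroupOf L := by
  have hsyl := isSylowIn_inf_of_isSubnormal S (H := L) hL.isSubnormal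
  exact ⟨hsyl.toSylow, Lib.Helper72.IsSylowIn.coe_toSylow hsyl⟩

/-- `S ∩ L` is a Sylow `p`-subgroup of the normal subgroup `L` (e.g. `isSylowIn_inf_of_isSubnormal` +
`Lib.Helper72.IsSylowIn.toSylow`, `coe_toSylow`, as in `Helper48/PMinimal.lean`). -/
theorem sylow_of_inf_le (S : Sylow p G) (B : Subgroup G) (hBS : B ≤ (S : Subgroup G))
    (h : (S : Subgroup G) ⊓ Subgroup.normalClosure (B : Set G) ≤ B) :
    ∃ P : Sylow p ↥(Subgroup.normalClosure (B : Set G)),
      (P : Subgroup ↥(Subgroup.normalClosure (B : Set G))) = B.subgroupOf (Subgroup.normalClosure (B : Set G)) := by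
  obtain ⟨P, hP⟩ := P12g_exists_sylow_inf S (Subgroup.normalClosure (B : Set G))
  refine ⟨P, ?_⟩
  rw [hP]
  congr 1
  exact le_antisymm h (le_inf hBS Subgroup.le_normalClosure)

end Cfsg.Agent.Lib.Helper48.BN
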