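import Cfsg.Agent.Lib.Helper48.BN.P12d
import Cfsg.Agent.Lib.Helper48.BN.P12g

set_option autoImplicit false

namespace Cfsg.Agent.Lib.Helper48.BN

open scoped Pointwise
open Cfsg Cfsg.Agent.Lib.Helper33

/-- `transfer_abs` applied to the group `↥L`, `L` normal in `G`: `(S ⊓ L).subgroupOf L` is a Sylow `p`-subgroup of `L`
(e.g. `isSylowIn_inf_of_isSubnormal` + `Lib.Helper72.IsSylowIn.toSylow`, as in `Helper48/PMinimal.lean`, or by cardinalities);
`(commutator ↥L).map L.subtype = ⁅L, L⁆` is `Subgroup.map_subtype_commutator`. -/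
theorem transfer_rel {G : Type*} [Group G] [Finite G] {p : ℕ} [Fact p.Prime] (S : Sylow p G)
    (L D B E : Subgroup G) [L.Normal] [D.Normal] (hDB : D ≤ B) (hBT : B ≤ (S : Subgroup G) ⊓ L)
    (hT : ∀ t ∈ (S : Subgroup G) ⊓ L, ∃ b ∈ B, ∃ e ∈ E ⊓ L, t = b * e)
    (hE : ∀ e ∈ E, ∀ l ∈ L, l * e * l⁻¹ * e⁻¹ ∈ D)
    (hab : ∀ x ∈ (S : Subgroup G) ⊓ L, ∀ y ∈ (S : Subgroup G) ⊓ L, x * y * x⁻¹ * y⁻¹ ∈ D)
    (hN : ∀ n ∈ L, n ∈ Subgroup.normalizer (((S : Subgroup G) ⊓ L : Subgroup G) : Set G) →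
      n ∈ Subgroup.normalizer (B : Set G)) :
    (S : Subgroup G) ⊓ ⁅L, L⁆ ≤ B := by
  obtain ⟨P, hP⟩ := P12g_exists_sylow_inf S L
  have hmemP : ∀ x : L, x ∈ (P : Subgroup L) ↔ (x : G) ∈ (S : Subgroup G) ⊓ L := by
    intro x
    rw [hP]
    exact Subgroup.mem_subgroupOf
  have key := transfer_abs P (D.subgroupOf L) (B.subgroupOf L) (E.subgroupOf L)
    (fun x hx => hDB hx)
    (fun x hx => (hmemP x).mpr (hBT hx))
    (by
      intro t ht
      obtain ⟨b, hb, e, he, hte⟩ := hT t ((hmemP t).mp ht)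
      exact ⟨⟨b, (hBT hb).2⟩, hb, ⟨e, he.2⟩, he.1, Subtype.ext hte⟩)
    (by
      intro e he l
      exact hE e he l l.2)
    (by
      intro x hx y hy
      exact hab x ((hmemP x).mp hx) y ((hmemP y).mp hy))
    (by
      intro n hn
      have hn1 : (n : G) ∈ Subgroup.normalizer (((S : Subgroup G) ⊓ L : Subgroup G) : Set G) := by
        rw [Subgroup.mem_normalizer_iff]
        intro h
        by_cases hh : h ∈ L
        · have := (Subgroup.mem_normalizer_iff.mp hn) ⟨h, hh⟩
          rw [hmemP, hmemP] at this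
          exact this
        · constructor
          · intro h1
            exact absurd h1.2 hh
          · intro h1
            exfalso
            apply hh
            have h2 := L.mul_mem (L.mul_mem (L.inv_mem n.2) h1.2) n.2
            simpa [mul_assoc] using h2
      have hn2 := hN n n.2 hn1
      rw [Subgroup.mem_normalizer_iff]
      intro h
      exact (Subgroup.mem_normalizer_iff.mp hn2) h)
  intro g hg
  have hgc : g ∈ (commutator L).map L.subtype := by
    rw [Subgroup.map_subtype_commutator]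
    exact hg.2
  obtain ⟨y, hy, rfl⟩ := hgc
  have : y ∈ (P : Subgroup L) ⊓ commutator L := ⟨(hmemP y).mpr ⟨hg.1, y.2⟩, hy⟩
  exact key this

end Cfsg.Agent.Lib.Helper48.BN
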