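import Cfsg.Agent.Lib.Helper48.BN.P12a
import Cfsg.Agent.Lib.Helper48.BN.P12r

set_option autoImplicit false

namespace Cfsg.Agent.Lib.Helper48.BN

open scoped Pointwise
open Cfsg Cfsg.Agent.Lib.Helper33

variable {G : Type*} [Group G] [Finite G] {p : ℕ} [Fact p.Prime] {S : Sylow p G}

/-- `transfer_rel` with `L = ⟨B^G⟩`, `D = B ∩ Q`, `B = BS S`, `E = Q = O_p(G)`.
`hT`: `S = B Q` (`B_sup_Q`), so `t = b q` and `q = b⁻¹ t ∈ L`.  `hE`: `comm_Q_L`.
`hab`: `x = b₁ q₁`, `y = b₂ q₂` with `qᵢ ∈ Q ∩ L` central in `L` modulo `D`, and `[b₁,b₂] ∈ B ∩ Q` by `hS.ab`.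
`hN`: if `n` normalizes `S ∩ L` then it normalizes `(S ∩ L) Q = S`, hence `B` (`normalizer_le_B`). -/
theorem S_inf_comm_le (hS : Setup p S) (hJ : ¬ thompsonSubgroupAOf (S : Subgroup G) ≤ pCore p G)
    (hD : (BS (S : Subgroup G) ⊓ pCore p G).Normal) :
    (S : Subgroup G) ⊓ ⁅Subgroup.normalClosure ((BS (S : Subgroup G) : Subgroup G) : Set G),
        Subgroup.normalClosure ((BS (S : Subgroup G) : Subgroup G) : Set G)⁆ ≤ BS (S : Subgroup G) := by
  have hQ : (pCore p G).Normal := inferInstance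
  have hBL : BS (S : Subgroup G) ≤ Subgroup.normalClosure ((BS (S : Subgroup G) : Subgroup G) : Set G) :=
    Subgroup.le_normalClosure
  have hBS : BS (S : Subgroup G) ≤ (S : Subgroup G) := inf_le_left
  have hdecomp : ∀ t ∈ (S : Subgroup G) ⊓ Subgroup.normalClosure ((BS (S : Subgroup G) : Subgroup G) : Set G),
      ∃ b ∈ BS (S : Subgroup G), ∃ e ∈ pCore p G ⊓
        Subgroup.normalClosure ((BS (S : Subgroup G) : Subgroup G) : Set G), t = b * e := by
    intro t ht
    have h1 : t ∈ BS (S : Subgroup G) ⊔ pCore p G := by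
      rw [B_sup_Q hS hJ]; exact ht.1
    obtain ⟨b, hb, q, hq, rfl⟩ := Subgroup.mem_sup_of_normal_right.mp h1
    refine ⟨b, hb, q, ⟨hq, ?_⟩, rfl⟩
    have := Subgroup.mul_mem _ (Subgroup.inv_mem _ (hBL hb)) ht.2
    simpa using this
  have hcQL := comm_Q_L hS hD
  refine transfer_rel S (Subgroup.normalClosure ((BS (S : Subgroup G) : Subgroup G) : Set G))
    (BS (S : Subgroup G) ⊓ pCore p G) (BS (S : Subgroup G)) (pCore p G) inf_le_left
    (le_inf hBS hBL) hdecomp hcQL ?_ ?_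
  · -- commutativity modulo `D`
    intro x hx y hy
    obtain ⟨b₁, hb₁, q₁, hq₁, rfl⟩ := hdecomp x hx
    obtain ⟨b₂, hb₂, q₂, hq₂, rfl⟩ := hdecomp y hy
    let π : G →* G ⧸ (BS (S : Subgroup G) ⊓ pCore p G) := QuotientGroup.mk' _
    have hone : ∀ u : G, π u = 1 ↔ u ∈ BS (S : Subgroup G) ⊓ pCore p G :=
      fun u => QuotientGroup.eq_one_iff u
    have hcomm_of : ∀ u v : G, u * v * u⁻¹ * v⁻¹ ∈ BS (S : Subgroup G) ⊓ pCore p G →
        Commute (π u) (π v) := by
      intro u v h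
      have h1 := (hone _).mpr h
      simp only [map_mul, map_inv] at h1
      have h2 := mul_inv_eq_one.mp h1
      exact mul_inv_eq_iff_eq_mul.mp h2
    have c1 : ∀ l ∈ Subgroup.normalClosure ((BS (S : Subgroup G) : Subgroup G) : Set G),
        ∀ q ∈ pCore p G, Commute (π l) (π q) := fun l hl q hq => hcomm_of l q (hcQL q hq l hl)
    have cbb : Commute (π b₁) (π b₂) := by
      apply hcomm_of
      refine ⟨?_, hS.ab b₁ (hBS hb₁) b₂ (hBS hb₂)⟩
      exact Subgroup.mul_mem _ (Subgroup.mul_mem _ (Subgroup.mul_mem _ hb₁ hb₂) (Subgroup.inv_mem _ hb₁))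
        (Subgroup.inv_mem _ hb₂)
    have cbq : Commute (π b₁) (π q₂) := c1 b₁ (hBL hb₁) q₂ hq₂.1
    have cqb : Commute (π q₁) (π b₂) := (c1 b₂ (hBL hb₂) q₁ hq₁.1).symm
    have cqq : Commute (π q₁) (π q₂) := c1 q₁ hq₁.2 q₂ hq₂.1
    have call : Commute (π (b₁ * q₁)) (π (b₂ * q₂)) := by
      rw [map_mul, map_mul]
      exact (cbb.mul_right cbq).mul_left (cqb.mul_right cqq)
    rw [← hone]
    simp only [map_mul, map_inv] at call ⊢
    rw [mul_inv_eq_one, mul_inv_eq_iff_eq_mul]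
    exact call
  · intro n _ hn
    apply normalizer_le_B
    have hz : Subgroup.zpowers n ≤ Subgroup.normalizer ((((S : Subgroup G) ⊓
        Subgroup.normalClosure ((BS (S : Subgroup G) : Subgroup G) : Set G) : Subgroup G)) : Set G) := by
      rw [Subgroup.zpowers_le]; exact hn
    have : Subgroup.zpowers n ≤ Subgroup.normalizer ((S : Subgroup G) : Set G) := by
      apply P12a_le_normalizer_of_conj
      intro x hx m hm
      have h1 : m ∈ BS (S : Subgroup G) ⊔ pCore p G := by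
        rw [B_sup_Q hS hJ]; exact hm
      obtain ⟨b, hb, q, hq, rfl⟩ := Subgroup.mem_sup_of_normal_right.mp h1
      have h2 := P12a_conj_mem_of_normalizer (hz hx)
        (show b ∈ (S : Subgroup G) ⊓ Subgroup.normalClosure ((BS (S : Subgroup G) : Subgroup G) : Set G) from
          ⟨hBS hb, hBL hb⟩)
      have h3 := pCore_le S (hQ.conj_mem q hq x)
      have h4 := Subgroup.mul_mem _ h2.1 h3
      convert h4 using 1
      group
    exact this (Subgroup.mem_zpowers n)

end Cfsg.Agent.Lib.Helper48.BN
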