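import Cfsg.Agent.Lib.Helper48.BN.Defs

set_option autoImplicit false

namespace Cfsg.Agent.Lib.Helper48.BN

open scoped Pointwise
open Cfsg Cfsg.Agent.Lib.Helper33

variable {G : Type*} [Group G] [Finite G] {p : ℕ} [Fact p.Prime] {S : Sylow p G}

/-- `J(S) ≤ O_p(G)`: then `J(S) = J(O_p(G))` is normal in `G`, so are `W = Z(J(S))` and `N = C_G(W)`;
by `dich` either `S ∩ N ≤ O_p(G)`, and then `B = S ∩ N = O_p(G) ∩ N` is normal, or `N S = G` and `Z(S) ≤ W`
is centralized by `N` and by `S`. -/
theorem easy_case (hS : Setup p S) (hJ : thompsonSubgroupAOf (S : Subgroup G) ≤ pCore p G) :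
    (BS (S : Subgroup G)).Normal ∨ ZS (S : Subgroup G) ≤ Subgroup.center G := by
  have hQS : pCore p G ≤ (S : Subgroup G) := pCore_le S
  have hJQ : thompsonSubgroupAOf (S : Subgroup G) = thompsonSubgroupAOf (pCore p G) :=
    J_eq_of_forall_le hQS (fun A hA => hA.le_J.trans hJ)
  have hJn : (thompsonSubgroupAOf (S : Subgroup G)).Normal := by
    rw [hJQ]
    have key : ∀ g : G, MulAut.conj g • thompsonSubgroupAOf (pCore p G)
        = thompsonSubgroupAOf (pCore p G) := by
      intro g
      rw [← J_conj, Subgroup.Normal.conj_smul_eq_self]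
    constructor
    intro n hn g
    rw [← key g]
    exact Subgroup.smul_mem_pointwise_smul n (MulAut.conj g) _ hn
  have hWn : (centerThompsonAOf (S : Subgroup G)).Normal := by
    unfold centerThompsonAOf
    infer_instance
  by_cases hN : (S : Subgroup G) ⊓ Subgroup.centralizer (centerThompsonAOf (S : Subgroup G) : Set G)
      ≤ pCore p G
  · left
    have : BS (S : Subgroup G)
        = pCore p G ⊓ Subgroup.centralizer (centerThompsonAOf (S : Subgroup G) : Set G) :=
      le_antisymm (le_inf hN inf_le_right) (inf_le_inf_right _ hQS)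
    rw [this]
    infer_instance
  · right
    refine central_of hS _ hN _ le_rfl (Subgroup.centralizer_le ?_)
    intro x hx
    refine ⟨center_le_J _ hx, ?_⟩
    exact Subgroup.centralizer_le (J_le_self _) hx.2

end Cfsg.Agent.Lib.Helper48.BN
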