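import Cfsg.Agent.Lib.Helper48.BN.Defs

set_option autoImplicit false

namespace Cfsg.Agent.Lib.Helper48.BN

open scoped Pointwise
open Cfsg Cfsg.Agent.Lib.Helper33

variable {G : Type*} [Group G] [Finite G] {p : ℕ} [Fact p.Prime] {S : Sylow p G}

/-- `C_G(Z(S))` is normal and contains `S`; use `pmin_normal_eq_top`. -/
theorem center_of_normal (hS : Setup p S) (h : (ZS (S : Subgroup G)).Normal) :
    ZS (S : Subgroup G) ≤ Subgroup.center G := by
  have h1 : (S : Subgroup G) ≤ Subgroup.centralizer (ZS (S : Subgroup G) : Set G) := by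
    rw [Subgroup.le_centralizer_iff]
    exact inf_le_right
  have h2 := pmin_normal_eq_top hS.pmin S (Subgroup.centralizer (ZS (S : Subgroup G) : Set G)) h1
  rw [← Subgroup.centralizer_univ, ← Subgroup.coe_top, ← Subgroup.le_centralizer_iff, h2]

end Cfsg.Agent.Lib.Helper48.BN
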