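import Cfsg.Agent.Lib.Helper48.BN.P4
import Cfsg.Agent.Lib.Helper48.BN.P6c
import Cfsg.Agent.Lib.Helper48.BN.P7d

set_option autoImplicit false

namespace Cfsg.Agent.Lib.Helper48.BN

open scoped Pointwise
open Cfsg Cfsg.Agent.Lib.Helper33

variable {G : Type*} [Group G] [Finite G] {p : ℕ} [Fact p.Prime] {S : Sylow p G}

/-- Thompson's count.  `Q = O_p(G)`, `V = VS S ≤ Z(Q)`.  `ff_ineq` with `T = S^g` (`g` from `hS.gen`), `C = A ∩ Q` and
`comm_not_le` give `|A| |C_V(A) ℧¹(V)| ≤ |A ∩ Q| |V|`.  `(A ∩ Q) V` is abelian, inside `S`, of order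
`|A ∩ Q| |V| / |A ∩ V|`, which is `≤ |A|`, and `A ∩ V ≤ C_V(A) ≤ C_V(A) ℧¹(V)`.  So equality holds everywhere. -/
theorem thompson_eq (hS : Setup p S) (hZ : ¬ ZS (S : Subgroup G) ≤ Subgroup.center G)
    {A : Subgroup G} (hA : MaxAb (S : Subgroup G) A) (hAQ : ¬ A ≤ pCore p G) :
    powerClosure p 1 (VS (S : Subgroup G)) ≤ Subgroup.centralizer (A : Set G) ∧
      MaxAb (S : Subgroup G) ((A ⊓ pCore p G) ⊔ VS (S : Subgroup G)) := by
  obtain ⟨g, hg⟩ := hS.gen
  have hVle := V_le hS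
  have hVab := V_comm hS
  have hQS : pCore p G ≤ (S : Subgroup G) := pCore_le S
  have hff := ff_ineq p (VS (S : Subgroup G)) (MulAut.conj g • (S : Subgroup G)) A (A ⊓ pCore p G) hVab
    inf_le_left (fun a ha hn => hg a (hA.1 ha) (fun h => hn ⟨ha, h⟩)) (comm_not_le hS hZ g)
  set V := VS (S : Subgroup G) with hV
  set Q := pCore p G with hQ
  set V₁ : Subgroup G := (V ⊓ Subgroup.centralizer (A : Set G)) ⊔ powerClosure p 1 V with hV₁
  have hprod := Cfsg.Agent.Lib.Helper51.card_sup_mul_card_inf_of_le_normalizer (A ⊓ Q) V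
    (Subgroup.le_normalizer_of_normal)
  -- E abelian
  have hEab : ∀ a ∈ (A ⊓ Q) ⊔ V, ∀ b ∈ (A ⊓ Q) ⊔ V, a * b = b * a := by
    have h1 : (A ⊓ Q) ⊔ V ≤ Subgroup.centralizer (((A ⊓ Q) ⊔ V : Subgroup G) : Set G) := by
      rw [Cfsg.Agent.Lib.Helper51.centralizer_sup_eq]
      refine sup_le (le_inf ?_ ?_) (le_inf ?_ ?_)
      · intro a ha
        rw [Subgroup.mem_centralizer_iff]
        intro b hb
        exact hA.2.1 b hb.1 a ha.1
      · intro a ha
        rw [Subgroup.mem_centralizer_iff]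
        intro d hd
        exact ((Subgroup.mem_centralizer_iff.1 (hVle hd).2) a ha.2).symm
      · intro d hd
        rw [Subgroup.mem_centralizer_iff]
        intro a ha
        exact (Subgroup.mem_centralizer_iff.1 (hVle hd).2) a ha.2
      · intro d hd
        rw [Subgroup.mem_centralizer_iff]
        intro b hb
        exact hVab b hb d hd
    intro a ha b hb
    exact (Subgroup.mem_centralizer_iff.1 (h1 hb)) a ha
  have hES : (A ⊓ Q) ⊔ V ≤ (S : Subgroup G) :=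
    sup_le (inf_le_right.trans hQS) ((hVle.trans inf_le_left).trans hQS)
  have hEA : Nat.card ((A ⊓ Q) ⊔ V : Subgroup G) ≤ Nat.card A := hA.2.2 _ hES hEab
  have hle : (A ⊓ Q) ⊓ V ≤ V₁ := by
    refine le_trans ?_ le_sup_left
    intro x hx
    refine ⟨hx.2, ?_⟩
    show x ∈ Subgroup.centralizer (A : Set G)
    rw [Subgroup.mem_centralizer_iff]
    intro a ha
    exact hA.2.1 a ha x hx.1.1
  have hApos : 0 < Nat.card A := Nat.card_pos
  have hV₁pos : 0 < Nat.card V₁ := Nat.card_pos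
  have hc1 : Nat.card V₁ ≤ Nat.card ((A ⊓ Q) ⊓ V : Subgroup G) := by
    have : Nat.card A * Nat.card V₁ ≤ Nat.card A * Nat.card ((A ⊓ Q) ⊓ V : Subgroup G) := by
      calc Nat.card A * Nat.card V₁ ≤ Nat.card (A ⊓ Q : Subgroup G) * Nat.card V := hff
        _ = Nat.card ((A ⊓ Q) ⊔ V : Subgroup G) * Nat.card ((A ⊓ Q) ⊓ V : Subgroup G) := hprod.symm
        _ ≤ Nat.card A * Nat.card ((A ⊓ Q) ⊓ V : Subgroup G) := Nat.mul_le_mul_right _ hEA
    exact Nat.le_of_mul_le_mul_left this hApos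
  have heq : (A ⊓ Q) ⊓ V = V₁ := eq_of_le_of_card_le hle hc1
  constructor
  · have h1 : powerClosure p 1 V ≤ V₁ := le_sup_right
    rw [← heq] at h1
    intro x hx
    rw [Subgroup.mem_centralizer_iff]
    intro a ha
    exact hA.2.1 a ha x (h1 hx).1.1
  · refine ⟨hES, hEab, ?_⟩
    intro B hB hBab
    refine (hA.2.2 B hB hBab).trans ?_
    have : Nat.card A * Nat.card V₁ ≤ Nat.card ((A ⊓ Q) ⊔ V : Subgroup G) * Nat.card V₁ := by
      calc Nat.card A * Nat.card V₁ ≤ Nat.card (A ⊓ Q : Subgroup G) * Nat.card V := hff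
        _ = Nat.card ((A ⊓ Q) ⊔ V : Subgroup G) * Nat.card ((A ⊓ Q) ⊓ V : Subgroup G) := hprod.symm
        _ = Nat.card ((A ⊓ Q) ⊔ V : Subgroup G) * Nat.card V₁ := by rw [heq]
    exact Nat.le_of_mul_le_mul_right this hV₁pos

end Cfsg.Agent.Lib.Helper48.BN
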