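import Cfsg.Agent.Lib.Helper48.BN.C1
import Cfsg.Agent.Lib.Helper48.BN.P4

set_option autoImplicit false

namespace Cfsg.Agent.Lib.Helper48.BN

open scoped Pointwise
open Cfsg Cfsg.Agent.Lib.Helper33

variable {G : Type*} [Group G] [Finite G] {p : ℕ} [Fact p.Prime] {S : Sylow p G}

/-- `W = Z(J(S))`, `V = VS S`, `Q = O_p(G)`, `E = (A ∩ Q) V`.  For `x : G` the conjugate `E^x = (A^x ∩ Q) V` is an abelian
subgroup of `Q ≤ S` of order `|E|`, so `MaxAb S E^x` and `W ≤ E^x` (`W_le_of_maxAb`).  If `w = a v ∈ W`, `a ∈ A^x ∩ Q`, `v ∈ V` and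
`y ∈ A^x` then `y w y⁻¹ = a (y v y⁻¹) ∈ w V`.  So every `A^x` normalizes `W V`; so does `S` (`normalizer_le_W`).  As
`A ≤ S ∩ ⟨A^G⟩` and `A ≰ Q`, `⟨A^G⟩ S = G` (`sup_eq_top`). -/
theorem Y_normal (hS : Setup p S) {A : Subgroup G} (hA : MaxAb (S : Subgroup G) A) (hAQ : ¬ A ≤ pCore p G)
    (hE : MaxAb (S : Subgroup G) ((A ⊓ pCore p G) ⊔ VS (S : Subgroup G))) :
    (centerThompsonAOf (S : Subgroup G) ⊔ VS (S : Subgroup G)).Normal := by
  have hVle := V_le hS
  have hQS : pCore p G ≤ (S : Subgroup G) := pCore_le S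
  set V := VS (S : Subgroup G) with hV
  set Q := pCore p G with hQ
  set W := centerThompsonAOf (S : Subgroup G) with hW
  have hVn : V.Normal := by rw [hV]; infer_instance
  have hQn : Q.Normal := by rw [hQ]; infer_instance
  -- criterion
  have crit : ∀ x : G, (∀ w ∈ W, x * w * x⁻¹ ∈ W ⊔ V) →
      x ∈ Subgroup.normalizer ((W ⊔ V : Subgroup G) : Set G) := by
    intro x hx
    apply Subgroup.mem_normalizer_fintype
    intro n hn
    have h1 : W ⊔ V ≤ (W ⊔ V).comap (MulAut.conj x).toMonoidHom := by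
      refine sup_le ?_ ?_
      · intro w hw
        exact hx w hw
      · intro v hv
        exact (le_sup_right : V ≤ W ⊔ V) (hVn.conj_mem v hv x)
    exact h1 hn
  have hSn : (S : Subgroup G) ≤ Subgroup.normalizer ((W ⊔ V : Subgroup G) : Set G) := by
    intro s hs
    apply crit
    intro w hw
    have h1 : s ∈ Subgroup.normalizer (W : Set G) :=
      normalizer_le_W (S : Subgroup G) (Subgroup.le_normalizer hs)
    exact (le_sup_left : W ≤ W ⊔ V) ((Subgroup.mem_normalizer_iff.1 h1 w).1 hw)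
  have hEQ : (A ⊓ Q) ⊔ V ≤ Q := sup_le inf_le_right (hVle.trans inf_le_left)
  have hNn : Subgroup.normalClosure (A : Set G) ≤
      Subgroup.normalizer ((W ⊔ V : Subgroup G) : Set G) := by
    unfold Subgroup.normalClosure
    rw [Subgroup.closure_le]
    intro y hy
    rw [Group.mem_conjugatesOfSet_iff] at hy
    obtain ⟨a, ha, hay⟩ := hy
    rw [isConj_iff] at hay
    obtain ⟨x, rfl⟩ := hay
    apply crit
    intro w hw
    have hEx : MaxAb (S : Subgroup G) (MulAut.conj x • ((A ⊓ Q) ⊔ V)) := by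
      have h1 := hE.conj x
      refine ⟨?_, h1.2.1, ?_⟩
      · rintro _ ⟨e, he, rfl⟩
        exact hQS (hQn.conj_mem e (hEQ he) x)
      · intro B hB hBab
        rw [card_conj_smul]
        exact hE.2.2 B hB hBab
    have hwE := W_le_of_maxAb hEx hw
    obtain ⟨e, he, hew⟩ := hwE
    have hew' : x * e * x⁻¹ = w := hew
    rw [SetLike.mem_coe, Subgroup.mem_sup_of_normal_right] at he
    obtain ⟨a', ha', v', hv', rfl⟩ := he
    have hcomm : a * a' = a' * a := hA.2.1 a ha a' ha'.1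
    have key : x * a * x⁻¹ * w * (x * a * x⁻¹)⁻¹ = w * (x * (v'⁻¹ * (a * v' * a⁻¹)) * x⁻¹) := by
      rw [← hew']
      calc x * a * x⁻¹ * (x * (a' * v') * x⁻¹) * (x * a * x⁻¹)⁻¹
          = x * ((a * a') * v' * a⁻¹) * x⁻¹ := by group
        _ = x * ((a' * a) * v' * a⁻¹) * x⁻¹ := by rw [hcomm]
        _ = _ := by group
    rw [key]
    refine Subgroup.mul_mem _ ((le_sup_left : W ≤ W ⊔ V) hw) ((le_sup_right : V ≤ W ⊔ V) ?_)
    exact hVn.conj_mem _ (V.mul_mem (V.inv_mem hv') (hVn.conj_mem v' hv' a)) x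
  have hnot : ¬ (S : Subgroup G) ⊓ Subgroup.normalClosure (A : Set G) ≤ pCore p G := by
    intro h
    exact hAQ (fun a ha => h ⟨hA.1 ha, Subgroup.subset_normalClosure ha⟩)
  have htop := sup_eq_top hS (Subgroup.normalClosure (A : Set G)) hnot
  rw [← Subgroup.normalizer_eq_top_iff, eq_top_iff, ← htop]
  exact sup_le hNn hSn

end Cfsg.Agent.Lib.Helper48.BN
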