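import Cfsg.Agent.Lib.Helper48.BN.Defs
import Cfsg.Agent.Lib.Helper5.SL2SylowP

set_option autoImplicit false

namespace Cfsg.Agent.Lib.Helper48.BN

open scoped Pointwise
open Cfsg Cfsg.Agent.Lib.Helper33

open Matrix Cfsg.Agent.Lib.Helper46.SL2Nat

variable {F : Type*} [Field F] [Finite F] (p : ℕ) [Fact p.Prime] [CharP F p]

theorem addSubgroup_eq_top (I : AddSubgroup F) (hI : ∀ a : F, a ≠ 0 → ∀ b ∈ I, a ^ 2 * b ∈ I)
    (b₀ : F) (hb₀ : b₀ ∈ I) (hb₀' : b₀ ≠ 0) : I = ⊤ := by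
  have hsq : ∀ s : F, s ^ 2 * b₀ ∈ I := by
    intro s
    by_cases hs : s = 0
    · rw [hs]; simp [I.zero_mem]
    · exact hI s hs b₀ hb₀
  have hall : ∀ e : F, e * b₀ ∈ I := by
    intro e
    by_cases h2 : (2 : F) = 0
    · have : CharP F 2 := CharTwo.of_one_ne_zero_of_two_eq_zero one_ne_zero h2
      obtain ⟨s, hs⟩ := FiniteField.isSquare_of_char_two (ringChar.eq F 2) e
      rw [hs, ← pow_two]
      exact hsq s
    · have : e * b₀ = ((e + 1) / 2) ^ 2 * b₀ - ((e - 1) / 2) ^ 2 * b₀ := by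
        field_simp
        ring
      rw [this]
      exact I.sub_mem (hsq _) (hsq _)
  rw [eq_top_iff]
  intro c _
  have := hall (c / b₀)
  rwa [div_mul_cancel₀ _ hb₀'] at this

theorem R1b_dg_conj (a : F) (ha : a ≠ 0) (b : F) : dg a ha * u b * (dg a ha)⁻¹ = u (a ^ 2 * b) := by
  apply ext2
  · rw [mul_00, mul_00, mul_01, inv_00, inv_10]; simp; field_simp
  · rw [mul_01, mul_00, mul_01, inv_01, inv_11]; simp; ring
  · rw [mul_10, mul_10, mul_11, inv_00, inv_10]; simp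
  · rw [mul_11, mul_10, mul_11, inv_01, inv_11]; simp; field_simp

theorem sl2_irr (P : Sylow p (SpecialLinearGroup (Fin 2) F)) (H : Subgroup (SpecialLinearGroup (Fin 2) F))
    (hHP : H ≤ (P : Subgroup (SpecialLinearGroup (Fin 2) F))) (hH : H ≠ ⊥)
    (hinv : ∀ n ∈ Subgroup.normalizer ((P : Subgroup (SpecialLinearGroup (Fin 2) F)) : Set (SpecialLinearGroup (Fin 2) F)),
      ∀ h ∈ H, n * h * n⁻¹ ∈ H) :
    H = (P : Subgroup (SpecialLinearGroup (Fin 2) F)) := by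
  obtain ⟨g, hg⟩ := sylow_eq_conj_U p P
  have hPu : ∀ x, x ∈ (P : Subgroup (SpecialLinearGroup (Fin 2) F)) ↔ ∃ b, x = g * u b * g⁻¹ := by
    intro x
    constructor
    · intro hx
      refine ⟨(g⁻¹ * x * g) 0 1, ?_⟩
      rw [← eq_u_of_mem ((hg x).1 hx)]
      group
    · rintro ⟨b, rfl⟩
      apply (hg _).2
      have : g⁻¹ * (g * u b * g⁻¹) * g = u b := by group
      rw [this]
      exact u_mem b
  let I : AddSubgroup F :=
    { carrier := {b | g * u b * g⁻¹ ∈ H}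
      zero_mem' := by
        show g * u 0 * g⁻¹ ∈ H
        rw [u_zero]; simp [H.one_mem]
      add_mem' := by
        intro a b ha hb
        show g * u (a + b) * g⁻¹ ∈ H
        have : g * u (a + b) * g⁻¹ = (g * u a * g⁻¹) * (g * u b * g⁻¹) := by
          rw [u_add]; group
        rw [this]
        exact H.mul_mem ha hb
      neg_mem' := by
        intro a ha
        show g * u (-a) * g⁻¹ ∈ H
        have h1 : u (-a) = (u a)⁻¹ := by
          rw [eq_inv_iff_mul_eq_one, ← u_add, neg_add_cancel, u_zero]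
        have : g * u (-a) * g⁻¹ = (g * u a * g⁻¹)⁻¹ := by
          rw [h1]; group
        rw [this]
        exact H.inv_mem ha }
  have hImem : ∀ b, b ∈ I ↔ g * u b * g⁻¹ ∈ H := fun b => Iff.rfl
  have hnorm : ∀ (a : F) (ha : a ≠ 0), g * dg a ha * g⁻¹ ∈
      Subgroup.normalizer ((P : Subgroup (SpecialLinearGroup (Fin 2) F)) : Set (SpecialLinearGroup (Fin 2) F)) := by
    have hfw : ∀ (a : F) (ha : a ≠ 0), ∀ x ∈ (P : Subgroup (SpecialLinearGroup (Fin 2) F)),
        (g * dg a ha * g⁻¹) * x * (g * dg a ha * g⁻¹)⁻¹ ∈ (P : Subgroup (SpecialLinearGroup (Fin 2) F)) := by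
      intro a ha x hx
      obtain ⟨b, rfl⟩ := (hPu x).1 hx
      rw [hPu]
      refine ⟨a ^ 2 * b, ?_⟩
      rw [← R1b_dg_conj a ha b]
      group
    intro a ha
    rw [Subgroup.mem_normalizer_iff]
    intro x
    constructor
    · exact hfw a ha x
    · intro hx
      have h1 := hfw a⁻¹ (inv_ne_zero ha) _ hx
      have h2 : dg a⁻¹ (inv_ne_zero ha) = (dg a ha)⁻¹ := by
        apply ext2
        · rw [inv_00]; simp
        · rw [inv_01]; simp
        · rw [inv_10]; simp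
        · rw [inv_11]; simp
      rw [h2] at h1
      have h3 : g * (dg a ha)⁻¹ * g⁻¹ * (g * dg a ha * g⁻¹ * x * (g * dg a ha * g⁻¹)⁻¹) *
          (g * (dg a ha)⁻¹ * g⁻¹)⁻¹ = x := by group
      rwa [h3] at h1
  have hI : ∀ a : F, a ≠ 0 → ∀ b ∈ I, a ^ 2 * b ∈ I := by
    intro a ha b hb
    rw [hImem] at hb ⊢
    have h1 := hinv _ (hnorm a ha) _ hb
    have h2 : g * dg a ha * g⁻¹ * (g * u b * g⁻¹) * (g * dg a ha * g⁻¹)⁻¹
        = g * (dg a ha * u b * (dg a ha)⁻¹) * g⁻¹ := by group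
    rwa [h2, R1b_dg_conj] at h1
  obtain ⟨h0, hh0, hne⟩ : ∃ h0 ∈ H, h0 ≠ 1 := by
    by_contra hcon
    push Not at hcon
    exact hH ((Subgroup.eq_bot_iff_forall _).2 hcon)
  obtain ⟨b₀, hb₀⟩ := (hPu h0).1 (hHP hh0)
  have hb₀I : b₀ ∈ I := by rw [hImem, ← hb₀]; exact hh0
  have hb₀ne : b₀ ≠ 0 := by
    rintro rfl
    apply hne
    rw [hb₀, u_zero]; group
  have htop := addSubgroup_eq_top I hI b₀ hb₀I hb₀ne
  apply le_antisymm hHP
  intro x hx
  obtain ⟨b, rfl⟩ := (hPu x).1 hx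
  have : b ∈ I := by rw [htop]; trivial
  exact this

end Cfsg.Agent.Lib.Helper48.BN
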