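import Cfsg.Agent.Lib.Helper48.BN.Defs

set_option autoImplicit false

namespace Cfsg.Agent.Lib.Helper48.BN

open scoped Pointwise
open Cfsg Cfsg.Agent.Lib.Helper33

variable {X Y : Type*} [Group X] [Group Y] [Finite X] {p : ℕ} [Fact p.Prime]

/-- every Sylow subgroup of the image is the image of a Sylow subgroup -/
theorem R2a_exists_map (f : X →* Y) (hf : Function.Surjective f) (P : Sylow p Y) :
    ∃ P₀ : Sylow p X, (P : Subgroup Y) = (P₀ : Subgroup X).map f := by
  obtain ⟨P₀, rfl⟩ := Sylow.mapSurjective_surjective hf p P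
  exact ⟨P₀, rfl⟩

/-- the key computation -/
theorem R2a_key (h : RankOne p X) (f : X →* Y)
    (hk : f.ker ≤ Subgroup.center X) (hc : (Nat.card f.ker).Coprime p) (P P' : Sylow p X)
    (hne : P ≠ P') (a a' : X) (ha : a ∈ (P : Subgroup X)) (ha' : a' ∈ (P' : Subgroup X))
    (hf : f a = f a') : a = 1 := by
  set z : X := a'⁻¹ * a with hz
  have hzk : z ∈ f.ker := by
    rw [MonoidHom.mem_ker, hz, map_mul, map_inv, hf, inv_mul_cancel]
  have hzc : Commute a' z := (Subgroup.mem_center_iff.mp (hk hzk)) a'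
  have haz : a = a' * z := by rw [hz, mul_inv_cancel_left]
  have hzm : z ^ Nat.card f.ker = 1 := by
    have := pow_card_eq_one' (G := f.ker) (x := ⟨z, hzk⟩)
    exact congrArg Subtype.val this
  have ham : a ^ Nat.card f.ker = a' ^ Nat.card f.ker := by
    rw [haz, hzc.mul_pow, hzm, mul_one]
  have h1 : a ^ Nat.card f.ker ∈ (P : Subgroup X) ⊓ (P' : Subgroup X) :=
    ⟨Subgroup.pow_mem _ ha _, ham ▸ Subgroup.pow_mem _ ha' _⟩
  rw [h.ti P P' hne, Subgroup.mem_bot] at h1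
  obtain ⟨k, hk'⟩ := (IsPGroup.iff_orderOf.mp P.2) ⟨a, ha⟩
  rw [Subgroup.orderOf_mk] at hk'
  have h2 : orderOf a ∣ Nat.card f.ker := orderOf_dvd_of_pow_eq_one h1
  have h3 : (orderOf a).Coprime (Nat.card f.ker) := by
    rw [hk']
    exact (Nat.Coprime.pow_right k hc).symm
  have h4 : orderOf a = 1 := Nat.Coprime.eq_one_of_dvd h3 h2
  exact orderOf_eq_one_iff.mp h4

/-- every Sylow `p`-subgroup of `Y` is `P.map f` (`Sylow.mapSurjective_surjective`, `Sylow.coe_mapSurjective`). -/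
theorem sur_gen (h : RankOne p X) (f : X →* Y) (hf : Function.Surjective f) :
    ∀ P P' : Sylow p Y, P ≠ P' → (P : Subgroup Y) ⊔ (P' : Subgroup Y) = ⊤ := by
  intro P P' hne
  obtain ⟨P₀, hP⟩ := R2a_exists_map f hf P
  obtain ⟨P₀', hP'⟩ := R2a_exists_map f hf P'
  have hne0 : P₀ ≠ P₀' := by
    rintro rfl
    exact hne (Sylow.ext (hP.trans hP'.symm))
  rw [hP, hP', ← Subgroup.map_sup, h.gen P₀ P₀' hne0, Subgroup.map_top_of_surjective f hf]

theorem sur_ab (h : RankOne p X) (f : X →* Y) (hf : Function.Surjective f) :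
    ∀ P : Sylow p Y, ∀ x ∈ (P : Subgroup Y), ∀ y ∈ (P : Subgroup Y), x * y = y * x := by
  intro P x hx y hy
  obtain ⟨P₀, hP⟩ := R2a_exists_map f hf P
  rw [hP] at hx hy
  obtain ⟨a, ha, rfl⟩ := hx
  obtain ⟨b, hb, rfl⟩ := hy
  rw [← map_mul, ← map_mul, h.ab P₀ a ha b hb]

/-- if `P.map f = P'.map f` and `a ∈ P` then `a = a' z`, `a' ∈ P'`, `z ∈ ker f` central of order prime to `p`;
with `m = |ker f|`: `a^m = a'^m ∈ P ∩ P' = 1`, so `a = 1` (`a` is a `p`-element).  So `P = ⊥`, and also `P' = ⊥`. -/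
theorem sur_two (h : RankOne p X) (f : X →* Y) (hf : Function.Surjective f)
    (hk : f.ker ≤ Subgroup.center X) (hc : (Nat.card f.ker).Coprime p) :
    ∃ P P' : Sylow p Y, P ≠ P' := by
  obtain ⟨P, P', hne⟩ := h.two
  refine ⟨P.mapSurjective hf, P'.mapSurjective hf, fun heq => hne ?_⟩
  have heq' : (P : Subgroup X).map f = (P' : Subgroup X).map f := congrArg Sylow.toSubgroup heq
  have h1 : (P : Subgroup X) = ⊥ := by
    rw [eq_bot_iff]
    intro a ha
    have : f a ∈ (P' : Subgroup X).map f := heq' ▸ Subgroup.mem_map_of_mem f ha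
    obtain ⟨a', ha', he⟩ := this
    exact Subgroup.mem_bot.mpr (R2a_key h f hk hc P P' hne a a' ha ha' he.symm)
  have h2 : (P' : Subgroup X) = ⊥ := by
    rw [eq_bot_iff]
    intro a ha
    have : f a ∈ (P : Subgroup X).map f := heq' ▸ Subgroup.mem_map_of_mem f ha
    obtain ⟨a', ha', he⟩ := this
    exact Subgroup.mem_bot.mpr (R2a_key h f hk hc P' P hne.symm a a' ha ha' he.symm)
  exact Sylow.ext (h1.trans h2.symm)

end Cfsg.Agent.Lib.Helper48.BN
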