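import Cfsg.Agent.Lib.Helper48.BN.R2a

set_option autoImplicit false

namespace Cfsg.Agent.Lib.Helper48.BN

open scoped Pointwise
open Cfsg Cfsg.Agent.Lib.Helper33

variable {X Y : Type*} [Group X] [Group Y] [Finite X] {p : ℕ} [Fact p.Prime]

/-- `f a = f a'`, `a ∈ P`, `a' ∈ P'`, `P ≠ P'`: `a = a' z` with `z ∈ ker f` central; `m = |ker f|`: `a^m = a'^m ∈ P ∩ P' = 1`, and `a` is a
`p`-element, `m` prime to `p`, so `a = 1`. -/
theorem sur_ti (h : RankOne p X) (f : X →* Y) (hf : Function.Surjective f)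
    (hk : f.ker ≤ Subgroup.center X) (hc : (Nat.card f.ker).Coprime p) :
    ∀ P P' : Sylow p Y, P ≠ P' → (P : Subgroup Y) ⊓ (P' : Subgroup Y) = ⊥ := by
  intro P P' hne
  obtain ⟨P₀, hP⟩ := R2a_exists_map f hf P
  obtain ⟨P₀', hP'⟩ := R2a_exists_map f hf P'
  have hne0 : P₀ ≠ P₀' := by
    rintro rfl
    exact hne (Sylow.ext (hP.trans hP'.symm))
  rw [eq_bot_iff, hP, hP']
  rintro y ⟨⟨a, ha, rfl⟩, ⟨a', ha', he⟩⟩
  rw [Subgroup.mem_bot, R2a_key h f hk hc P₀ P₀' hne0 a a' ha ha' he.symm, map_one]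

/-- `P = P₀.map f`; `H₀ = H.comap f ⊓ P₀` is `≠ ⊥`, invariant under `N_X(P₀)` (which maps into `N_Y(P)`), so `H₀ = P₀`. -/
theorem sur_irr (h : RankOne p X) (f : X →* Y) (hf : Function.Surjective f) :
    ∀ (P : Sylow p Y) (H : Subgroup Y), H ≤ (P : Subgroup Y) → H ≠ ⊥ →
    (∀ n ∈ Subgroup.normalizer ((P : Subgroup Y) : Set Y), ∀ h ∈ H, n * h * n⁻¹ ∈ H) →
    H = (P : Subgroup Y) := by
  intro P H hHP hH hinv
  obtain ⟨P₀, hP⟩ := R2a_exists_map f hf P
  have h0 : H.comap f ⊓ (P₀ : Subgroup X) = (P₀ : Subgroup X) := by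
    apply h.irr P₀ _ inf_le_right
    · intro hbot
      apply hH
      rw [eq_bot_iff]
      intro y hy
      have hy' := hHP hy
      rw [hP] at hy'
      obtain ⟨a, ha, rfl⟩ := hy'
      have : a ∈ H.comap f ⊓ (P₀ : Subgroup X) := ⟨hy, ha⟩
      rw [hbot, Subgroup.mem_bot] at this
      rw [this, map_one]
      exact Subgroup.one_mem _
    · intro n hn x hx
      refine ⟨?_, (Subgroup.mem_normalizer_iff.mp hn x).mp hx.2⟩
      show f (n * x * n⁻¹) ∈ H
      rw [map_mul, map_mul, map_inv]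
      apply hinv _ _ _ hx.1
      rw [hP]
      exact Subgroup.le_normalizer_map f (Subgroup.mem_map_of_mem f hn)
  apply le_antisymm hHP
  rw [hP, Subgroup.map_le_iff_le_comap, ← h0]
  exact inf_le_left

end Cfsg.Agent.Lib.Helper48.BN
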