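import Cfsg.Agent.Lib.Helper48.BN.R1a
import Cfsg.Agent.Lib.Helper48.BN.R1b
import Cfsg.Agent.Lib.Helper48.BN.R2a
import Cfsg.Agent.Lib.Helper48.BN.R2b

set_option autoImplicit false

namespace Cfsg.Agent.Lib.Helper48.BN

open scoped Pointwise
open Cfsg Cfsg.Agent.Lib.Helper33

open Matrix

/-- assemble: `CharP F p` from `hF`; `RankOne p SL₂(F)` from `Helper5.sl2_sylow_sup_eq_top`, `sl2_ti`, `sl2_ab`, `sl2_irr`, `sl2_two`;
`f = e.symm ∘ QuotientGroup.mk' (center SL₂(F))` is onto with kernel the centre (`sl2_center_coprime`); then `sur_*`. -/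
theorem rankOne_of_equiv {X : Type*} [Group X] {p : ℕ} [Fact p.Prime] (F : Type) [Field F] [Fintype F] (n : ℕ)
    (hn : 1 ≤ n) (hF : Fintype.card F = p ^ n)
    (e : Nonempty (X ≃* Matrix.ProjectiveSpecialLinearGroup (Fin 2) F)) : RankOne p X := by
  obtain ⟨e⟩ := e
  have hp : p.Prime := Fact.out
  haveI : CharP F p := by
    obtain ⟨r, hr⟩ := CharP.exists F
    haveI := hr
    obtain ⟨k, hrp, hk⟩ := FiniteField.card F r
    have : r = p := by
      have h1 : r ∣ p ^ n := by
        rw [← hF, hk]; exact dvd_pow_self r k.ne_zero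
      exact (Nat.prime_dvd_prime_iff_eq hrp hp).1 (hrp.dvd_of_dvd_pow h1)
    rwa [this] at hr
  have h0 : RankOne p (SpecialLinearGroup (Fin 2) F) :=
    { gen := fun P P' h => Cfsg.Agent.Lib.Helper5.sl2_sylow_sup_eq_top p P P' h
      ti := fun P P' h => sl2_ti p P P' h
      ab := fun P => sl2_ab p P
      irr := fun P H h1 h2 h3 => sl2_irr p P H h1 h2 h3
      two := sl2_two p }
  let f : SpecialLinearGroup (Fin 2) F →* X :=
    e.symm.toMonoidHom.comp (QuotientGroup.mk' (Subgroup.center (SpecialLinearGroup (Fin 2) F)))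
  have hf : Function.Surjective f :=
    e.symm.surjective.comp (QuotientGroup.mk'_surjective _)
  have hker : f.ker = Subgroup.center (SpecialLinearGroup (Fin 2) F) := by
    ext x
    simp only [f, MonoidHom.mem_ker, MonoidHom.comp_apply, MulEquiv.coe_toMonoidHom,
      EmbeddingLike.map_eq_one_iff, QuotientGroup.mk'_apply, QuotientGroup.eq_one_iff]
  have hk : f.ker ≤ Subgroup.center (SpecialLinearGroup (Fin 2) F) := hker.le
  have hc : (Nat.card f.ker).Coprime p := by
    rw [hker]; exact sl2_center_coprime p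
  exact
    { gen := sur_gen h0 f hf
      ti := sur_ti h0 f hf hk hc
      ab := sur_ab h0 f hf
      irr := sur_irr h0 f hf
      two := sur_two h0 f hf hk hc }

end Cfsg.Agent.Lib.Helper48.BN
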