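import Cfsg.Agent.Lib.Helper48.BN.R4a

set_option autoImplicit false
set_option linter.unusedSectionVars false

namespace Cfsg.Agent.Lib.Helper48.BN

open scoped Pointwise
open Cfsg Cfsg.Agent.Lib.Helper33

variable {G : Type*} [Group G] [Finite G] {p : ℕ} [Fact p.Prime]

/-- `π = mk' K`, `P = S.map π`.  There is a Sylow `p`-subgroup `P' ≠ P` of `G ⧸ K`, `P' = (S^g).map π` for some `g`.
Let `a ∈ S`, `a ∉ O_p(G)`; then `a ∉ K` (`S_inf_K_le`), `π a ∈ P`, `π a ≠ 1`, so `π a ∉ P'` (`h.ti`), so `π a` does not normalize `P'`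
(a `p`-element normalizing a Sylow `p`-subgroup lies in it), and `P'` and its conjugate under `π a` generate `G ⧸ K` (`h.gen`).  So
`H K = G` for `H = ⟨a⟩ S^g`.  If `H ≠ ⊤`, take the coatom `M'` above `H`; it is the unique coatom above `S^g` (`hP (g • S)`), and
`K S^g ≠ ⊤` (`K_sup_ne_top`) lies in a coatom above `S^g`, that is, in `M'`.  So `H K ≤ M'`, a contradiction. -/
theorem setup_gen (hP : IsPMinimal p G) (S : Sylow p G) (K : Subgroup G) [K.Normal] (h : RankOne p (G ⧸ K)) :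
    ∃ g : G, ∀ a ∈ (S : Subgroup G), a ∉ pCore p G →
      Subgroup.closure {a} ⊔ (MulAut.conj g • (S : Subgroup G)) = ⊤ := by
  set π := QuotientGroup.mk' K with hπ
  have hsur : Function.Surjective π := QuotientGroup.mk'_surjective K
  set P : Sylow p (G ⧸ K) := S.mapSurjective hsur with hPdef
  obtain ⟨P', hne⟩ : ∃ P' : Sylow p (G ⧸ K), P ≠ P' := by
    obtain ⟨P1, P2, h12⟩ := h.two
    by_cases h1 : P = P1
    · exact ⟨P2, h1 ▸ h12⟩
    · exact ⟨P1, h1⟩
  obtain ⟨P₀', hP₀'⟩ := Sylow.mapSurjective_surjective hsur p P'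
  obtain ⟨g, hg⟩ := MulAction.exists_smul_eq G S P₀'
  refine ⟨g, fun a ha haO => ?_⟩
  have hP'map : (P' : Subgroup (G ⧸ K)) = (MulAut.conj g • (S : Subgroup G)).map π := by
    rw [← hP₀', ← hg]
    rfl
  have haK : a ∉ K := fun hK => haO (S_inf_K_le hP S K h ⟨ha, hK⟩)
  have hπa1 : π a ≠ 1 := by
    intro h1
    apply haK
    rw [← QuotientGroup.ker_mk' K]
    exact h1
  have hπaP : π a ∈ (P : Subgroup (G ⧸ K)) := Subgroup.mem_map_of_mem π ha
  have hnn : π a • P' ≠ P' := by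
    intro heq
    have h1 : π a ∈ (P : Subgroup (G ⧸ K)) ⊓ Subgroup.normalizer ((P' : Subgroup (G ⧸ K)) : Set (G ⧸ K)) :=
      ⟨hπaP, Sylow.smul_eq_iff_mem_normalizer.mp heq⟩
    have h2 := IsPGroup.inf_normalizer_sylow P.2 P'
    have h3 : π a ∈ (P : Subgroup (G ⧸ K)) ⊓ (P' : Subgroup (G ⧸ K)) := by
      rw [← h2]; exact h1
    rw [h.ti P P' hne, Subgroup.mem_bot] at h3
    exact hπa1 h3
  have hgen := h.gen (π a • P') P' hnn
  set H : Subgroup G := Subgroup.closure {a} ⊔ (MulAut.conj g • (S : Subgroup G)) with hH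
  have haH : a ∈ H := (le_sup_left : Subgroup.closure {a} ≤ H) (Subgroup.subset_closure rfl)
  have hP'H : (P' : Subgroup (G ⧸ K)) ≤ H.map π := by
    rw [hP'map]
    exact Subgroup.map_mono le_sup_right
  have hP''H : ((π a • P' : Sylow p (G ⧸ K)) : Subgroup (G ⧸ K)) ≤ H.map π := by
    intro x hx
    rw [Sylow.coe_subgroup_smul, Subgroup.mem_pointwise_smul_iff_inv_smul_mem] at hx
    have hx' : (π a)⁻¹ * x * π a ∈ (P' : Subgroup (G ⧸ K)) := by
      simpa [MulAut.smul_def] using hx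
    have h1 := Subgroup.mul_mem _ (Subgroup.mul_mem _ (Subgroup.mem_map_of_mem π haH) (hP'H hx'))
      (Subgroup.inv_mem _ (Subgroup.mem_map_of_mem π haH))
    have h2 : π a * ((π a)⁻¹ * x * π a) * (π a)⁻¹ = x := by group
    rwa [h2] at h1
  have hmap : H.map π = ⊤ := by
    rw [eq_top_iff, ← hgen]
    exact sup_le hP''H hP'H
  have hHK : H ⊔ K = ⊤ := by
    have := Subgroup.comap_map_eq π H
    rw [hmap, Subgroup.comap_top, hπ, QuotientGroup.ker_mk'] at this
    exact this.symm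
  by_contra hHtop
  obtain ⟨-, M', ⟨hM', hSM'⟩, -⟩ := hP (g • S)
  have h1 : H ≤ M' := pmin_le_of_ne_top hP (g • S) hM' hSM' (le_sup_right : _ ≤ H) hHtop
  have h2 : K ⊔ ((g • S : Sylow p G) : Subgroup G) ≤ M' :=
    pmin_le_of_ne_top hP (g • S) hM' hSM' le_sup_right (K_sup_ne_top (g • S) K h)
  apply hM'.1
  rw [eq_top_iff, ← hHK]
  exact sup_le h1 (le_sup_left.trans h2)

end Cfsg.Agent.Lib.Helper48.BN
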