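import Cfsg.Agent.Lib.Helper48.BN.C1
import Cfsg.Agent.Lib.Helper48.BN.P2
import Cfsg.Agent.Lib.Helper48.BN.P3
import Cfsg.Agent.Lib.Helper48.BN.P8
import Cfsg.Agent.Lib.Helper48.BN.P9
import Cfsg.Agent.Lib.Helper48.BN.P10
import Cfsg.Agent.Lib.Helper48.BN.P11
import Cfsg.Agent.Lib.Helper48.BN.P12e
import Cfsg.Agent.Lib.Helper48.BN.P12f
import Cfsg.Agent.Lib.Helper48.BN.P12g
import Cfsg.Agent.Lib.Helper48.BN.R3
import Cfsg.Agent.Lib.Helper48.BN.R4c
import Cfsg.Agent.Lib.Helper48.BN.R4d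

/-! Assembly of the Baumann / Glauberman-Niles package. -/

set_option autoImplicit false

namespace Cfsg.Agent.Lib.Helper48.BN

open scoped Pointwise
open Cfsg Cfsg.Agent.Lib.Helper33

variable {G : Type*} [Group G] [Finite G] {p : ℕ} [Fact p.Prime]

theorem setup_of (S : Sylow p G)
    (hE₁ : Subgroup.centralizer (Cfsg.pCore p G : Set G) ≤ Cfsg.pCore p G)
    (hE₂ : ∃! M : Subgroup G, IsCoatom M ∧ (S : Subgroup G) ≤ M) (K : Subgroup G) [K.Normal]
    (F : Type) [Field F] [Fintype F] (n : ℕ) (hn : 1 ≤ n) (hF : Fintype.card F = p ^ n)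
    (hE₃ : Nonempty (G ⧸ K ≃* Matrix.ProjectiveSpecialLinearGroup (Fin 2) F)) : Setup p S := by
  have hR : RankOne p (G ⧸ K) := rankOne_of_equiv F n hn hF hE₃
  have hP : IsPMinimal p G := isPMinimal_of_rankOne S K hR hE₂
  exact ⟨hP, hE₁, setup_gen hP S K hR, setup_irr hP S K hR, setup_ab hP S K hR⟩

variable {S : Sylow p G}

/-- the failure-of-factorization case: what all three rows use -/
theorem ff_case (hS : Setup p S) (hZ : ¬ ZS (S : Subgroup G) ≤ Subgroup.center G)
    (hJ : ¬ thompsonSubgroupAOf (S : Subgroup G) ≤ pCore p G) :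
    powerClosure p 1 (ZS (S : Subgroup G)) ≤ Subgroup.center G ∧
      (centerThompsonAOf (S : Subgroup G) ⊔ VS (S : Subgroup G)).Normal := by
  obtain ⟨A, hA, hAQ⟩ : ∃ A, MaxAb (S : Subgroup G) A ∧ ¬ A ≤ pCore p G := by
    by_contra hcon
    push Not at hcon
    exact hJ (J_le hcon)
  obtain ⟨h1, h2⟩ := thompson_eq hS hZ hA hAQ
  exact ⟨agemo_central hS hA.1 hAQ h1, Y_normal hS hA hAQ h2⟩

/-- S2770 -/
theorem main_agemo (hS : Setup p S) :
    (powerClosure p 1 (ZS (S : Subgroup G))).Normal ∨ (BS (S : Subgroup G)).Normal := by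
  have hle : powerClosure p 1 (ZS (S : Subgroup G)) ≤ ZS (S : Subgroup G) := by
    unfold powerClosure
    rw [Subgroup.closure_le]
    rintro _ ⟨x, hx, rfl⟩
    exact Subgroup.pow_mem _ hx _
  by_cases hZ : ZS (S : Subgroup G) ≤ Subgroup.center G
  · exact Or.inl (normal_of_le_center (hle.trans hZ))
  by_cases hJ : thompsonSubgroupAOf (S : Subgroup G) ≤ pCore p G
  · exact Or.inr ((easy_case hS hJ).resolve_right hZ)
  · exact Or.inl (normal_of_le_center (ff_case hS hZ hJ).1)

/-- S2769 -/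
theorem main_comm (hS : Setup p S) :
    (⁅centerThompsonAOf (S : Subgroup G), (S : Subgroup G)⁆ ⊓ ZS (S : Subgroup G)).Normal ∨
      (BS (S : Subgroup G)).Normal := by
  by_cases hZ : ZS (S : Subgroup G) ≤ Subgroup.center G
  · exact Or.inl (normal_of_le_center (inf_le_right.trans hZ))
  by_cases hJ : thompsonSubgroupAOf (S : Subgroup G) ≤ pCore p G
  · exact Or.inr ((easy_case hS hJ).resolve_right hZ)
  · exact Or.inl (normal_of_le_center (comm_central hS hJ (ff_case hS hZ hJ).2))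

/-- S2768 -/
theorem main_sylow (hS : Setup p S) (hZn : ¬ (ZS (S : Subgroup G)).Normal) :
    ∃ P : Sylow p ↥(Subgroup.normalClosure ((BS (S : Subgroup G) : Subgroup G) : Set G)),
      (P : Subgroup ↥(Subgroup.normalClosure ((BS (S : Subgroup G) : Subgroup G) : Set G))) =
        (BS (S : Subgroup G)).subgroupOf (Subgroup.normalClosure ((BS (S : Subgroup G) : Subgroup G) : Set G)) := by
  have hZ : ¬ ZS (S : Subgroup G) ≤ Subgroup.center G := fun h => hZn (normal_of_le_center h)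
  apply sylow_of_inf_le S (BS (S : Subgroup G)) inf_le_left
  by_cases hJ : thompsonSubgroupAOf (S : Subgroup G) ≤ pCore p G
  · have hB : (BS (S : Subgroup G)).Normal := (easy_case hS hJ).resolve_right hZ
    rw [Subgroup.normalClosure_eq_self]
    exact inf_le_right
  · have hY := (ff_case hS hZ hJ).2
    have hD := D_normal hS hY
    have h1 := L_le hS hJ hD
    have h2 := S_inf_comm_le hS hJ hD
    intro t ht
    obtain ⟨htS, htL⟩ := Subgroup.mem_inf.mp ht
    have h3 := h1 htL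
    rw [Subgroup.mem_sup_of_normal_right] at h3
    obtain ⟨b, hb, c, hc, hbc⟩ := h3
    have hcS : c ∈ (S : Subgroup G) := by
      have : c = b⁻¹ * t := by rw [← hbc]; group
      rw [this]
      exact Subgroup.mul_mem _ (Subgroup.inv_mem _ (inf_le_left (a := (S : Subgroup G)) hb)) htS
    rw [← hbc]
    exact Subgroup.mul_mem _ hb (h2 (Subgroup.mem_inf.mpr ⟨hcS, hc⟩))

end Cfsg.Agent.Lib.Helper48.BN
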