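import Cfsg.Agent.Lib.Helper48.BN.Main
import Cfsg.Agent.Lib.Helper48.BN.CL6
import Cfsg.Agent.Lib.Helper48.BN.CL7
import Cfsg.Agent.Lib.Helper48.BN.CL8
import Cfsg.Agent.Lib.Helper48.BN.CM1b
import Cfsg.Agent.Lib.Helper48.BN.CM4
import Cfsg.Agent.Lib.Helper48.BN.CM5
import Cfsg.Agent.Lib.Helper48.BN.CM5b
import Cfsg.Agent.Lib.Helper48.BN.CM6

/-! Assembly of S2989, S2990 (centrally large subgroups in the pushing-up situation). -/

set_option autoImplicit false

namespace Cfsg.Agent.Lib.Helper48.BN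

open scoped Pointwise
open Cfsg Cfsg.Agent.Lib.Helper33 Cfsg.Agent.Lib.Helper47

variable {G : Type*} [Group G] [Finite G] {p : ℕ} [Fact p.Prime]

theorem setup_of_pushingUp {S : Subgroup G} (hE : IsPushingUpSituation p S) :
    ∃ P : Sylow p G, (P : Subgroup G) = S ∧ Setup p P := by
  obtain ⟨-, ⟨P, rfl⟩, hE₁, hE₂, K, hK, F, hF1, hF2, n, hF, hE₃⟩ := hE
  refine ⟨P, rfl, ?_⟩
  have hn : 1 ≤ n := by
    rcases Nat.eq_zero_or_pos n with rfl | h
    · exfalso
      rw [pow_zero] at hF
      have := Fintype.one_lt_card (α := F)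
      omega
    · exact h
  exact setup_of P hE₁ hE₂ K F n hn hF hE₃

theorem main_MCL {S : Sylow p G} (hS : Setup p S) (Q : Subgroup ↥(S : Subgroup G))
    (hQ : IsMinimalCentrallyLarge Q) :
    (ZS (S : Subgroup G) ⊓ (⁅Q, Q⁆).map (S : Subgroup G).subtype).Normal ∨
      ((minimalCentrallyLargeJoin ↥(S : Subgroup G)).map (S : Subgroup G).subtype).Normal := by
  by_cases hZ : ZS (S : Subgroup G) ≤ Subgroup.center G
  · exact Or.inl (normal_of_le_center (inf_le_left.trans hZ))
  by_cases hall : ∀ R, MCLin (S : Subgroup G) R → R ≤ pCore p G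
  · exact Or.inr (join_normal (S : Subgroup G) (pCore p G) (pCore_le S) hall)
  · left
    push Not at hall
    obtain ⟨R, hR, hRO⟩ := hall
    have h1 := comm_MCL_central hS hZ hR hRO
    have hQ' := (isMinimalCentrallyLarge_iff_MCLin (S : Subgroup G) Q).mp hQ
    have h2 : ⁅R, R⁆ = (⁅Q, Q⁆).map (S : Subgroup G).subtype := by
      rw [Subgroup.map_commutator]
      exact MCLin.commutator_eq S.2 hR hQ'
    rw [h2] at h1
    exact normal_of_le_center h1

theorem main_Phi {S : Sylow p G} (hS : Setup p S) :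
    (ZS (S : Subgroup G)).Normal ∨
      ((frattiniOfMinimalCLJoin p ↥(S : Subgroup G)).map (S : Subgroup G).subtype).Normal := by
  by_cases hΩ : omegaOneCenter p (S : Subgroup G) ≤ Subgroup.center G
  · exact Or.inl (normal_of_le_center (center_of_omega hS hΩ))
  · right
    rw [map_frattiniOfMinimalCLJoin]
    exact iSup_frattiniOf_normal (S : Subgroup G) (pCore p G) (pCore_le S)
      (fun Q hQ => exists_QMax_le hS hΩ hQ)

end Cfsg.Agent.Lib.Helper48.BN
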