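import Cfsg.Agent.Lib.Helper48.BN.C1
import Cfsg.Agent.Lib.Helper48.BN.P4

set_option autoImplicit false

namespace Cfsg.Agent.Lib.Helper48.BN

open scoped Pointwise
open Cfsg Cfsg.Agent.Lib.Helper33

variable {G : Type*} [Group G] [Finite G] {p : ℕ} [Fact p.Prime] {S : Sylow p G}

omit [Finite G] in
/-- a subgroup whose elements conjugate `H` into `H` normalizes `H` -/
theorem P12a_le_normalizer_of_conj {H K : Subgroup G} (h : ∀ x ∈ K, ∀ m ∈ H, x * m * x⁻¹ ∈ H) :
    K ≤ Subgroup.normalizer (H : Set G) := by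
  intro x hx
  rw [Subgroup.mem_normalizer_iff]
  intro m
  refine ⟨h x hx m, fun hm => ?_⟩
  have := h x⁻¹ (K.inv_mem hx) _ hm
  simpa [mul_assoc] using this

omit [Finite G] in
theorem P12a_conj_mem_of_normalizer {H : Subgroup G} {x m : G}
    (hx : x ∈ Subgroup.normalizer (H : Set G)) (hm : m ∈ H) : x * m * x⁻¹ ∈ H :=
  (Subgroup.mem_normalizer_iff.mp hx m).mp hm

/-- `S` normalizes `B` -/
theorem P12a_S_conj_B (S : Sylow p G) {s b : G} (hs : s ∈ (S : Subgroup G))
    (hb : b ∈ BS (S : Subgroup G)) : s * b * s⁻¹ ∈ BS (S : Subgroup G) :=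
  P12a_conj_mem_of_normalizer (normalizer_le_B _ (Subgroup.le_normalizer hs)) hb

/-- `B ∩ Q = Q ∩ C_G(W) = Q ∩ C_G(W V)` because `Q ≤ S` and `Q` centralizes `V` (`V_le`). -/
theorem D_normal (hS : Setup p S)
    (hY : (centerThompsonAOf (S : Subgroup G) ⊔ VS (S : Subgroup G)).Normal) :
    (BS (S : Subgroup G) ⊓ pCore p G).Normal := by
  have heq : BS (S : Subgroup G) ⊓ pCore p G = pCore p G ⊓ Subgroup.centralizer
      ((centerThompsonAOf (S : Subgroup G) ⊔ VS (S : Subgroup G) : Subgroup G) : Set G) := by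
    apply le_antisymm
    · intro x hx
      refine ⟨hx.2, ?_⟩
      have h1 : centerThompsonAOf (S : Subgroup G) ⊔ VS (S : Subgroup G) ≤
          Subgroup.centralizer ({x} : Set G) := by
        apply sup_le
        · intro w hw
          rw [Subgroup.mem_centralizer_singleton_iff]
          exact (Subgroup.mem_centralizer_iff.mp hx.1.2) w hw
        · intro v hv
          rw [Subgroup.mem_centralizer_singleton_iff]
          exact ((Subgroup.mem_centralizer_iff.mp (V_le hS hv).2) x hx.2).symm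
      show x ∈ Subgroup.centralizer
        ((centerThompsonAOf (S : Subgroup G) ⊔ VS (S : Subgroup G) : Subgroup G) : Set G)
      rw [Subgroup.mem_centralizer_iff]
      intro h hh
      exact Subgroup.mem_centralizer_singleton_iff.mp (h1 hh)
    · intro x hx
      refine ⟨⟨pCore_le S hx.1, ?_⟩, hx.1⟩
      exact Subgroup.centralizer_le (by exact_mod_cast (le_sup_left : centerThompsonAOf (S : Subgroup G) ≤ _)) hx.2
  rw [heq]
  infer_instance

/-- `J(S) ≤ B` (`J_le_B`) and `J(S) Q = S` by `hS.irr` (`normalizer_le_J`). -/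
theorem B_sup_Q (hS : Setup p S) (hJ : ¬ thompsonSubgroupAOf (S : Subgroup G) ≤ pCore p G) :
    BS (S : Subgroup G) ⊔ pCore p G = (S : Subgroup G) := by
  have h1 := hS.irr _ (J_le_self (S : Subgroup G)) (normalizer_le_J (S : Subgroup G)) hJ
  apply le_antisymm
  · exact sup_le inf_le_left (pCore_le S)
  · exact h1.ge.trans (sup_le_sup_right (J_le_B (S : Subgroup G)) _)

/-- `[Q,B] ≤ Q ∩ B` as `S` normalizes `B` (`normalizer_le_B`) and `Q`; `Q` and `D = B ∩ Q` are normal in `G`, so
`{l | ∀ q ∈ Q, l q l⁻¹ q⁻¹ ∈ D}` is a normal subgroup of `G` containing `B`. -/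
theorem comm_Q_L (hS : Setup p S) (hD : (BS (S : Subgroup G) ⊓ pCore p G).Normal) :
    ∀ q ∈ pCore p G, ∀ l ∈ Subgroup.normalClosure ((BS (S : Subgroup G) : Subgroup G) : Set G),
      l * q * l⁻¹ * q⁻¹ ∈ BS (S : Subgroup G) ⊓ pCore p G := by
  have hQ : (pCore p G).Normal := inferInstance
  let K : Subgroup G :=
    { carrier := {l | ∀ q ∈ pCore p G, l * q * l⁻¹ * q⁻¹ ∈ BS (S : Subgroup G) ⊓ pCore p G}
      one_mem' := by
        intro q _
        simp [Subgroup.one_mem]
      mul_mem' := by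
        intro l l' hl hl' q hq
        have h1 := hD.conj_mem _ (hl' q hq) l
        have h2 := Subgroup.mul_mem _ h1 (hl q hq)
        convert h2 using 1
        group
      inv_mem' := by
        intro l hl q hq
        have h1 := hD.conj_mem _ (Subgroup.inv_mem _ (hl q hq)) l⁻¹
        convert h1 using 1
        group }
  have hKn : K.Normal := by
    constructor
    intro l hl g q hq
    have h1 := hl (g⁻¹ * q * g) (by
      have := hQ.conj_mem q hq g⁻¹
      simpa using this)
    have h2 := hD.conj_mem _ h1 g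
    convert h2 using 1
    group
  have hBK : ((BS (S : Subgroup G) : Subgroup G) : Set G) ⊆ K := by
    intro b hb q hq
    constructor
    · have h1 : q * b⁻¹ * q⁻¹ ∈ BS (S : Subgroup G) :=
        P12a_S_conj_B S (pCore_le S hq) (Subgroup.inv_mem _ hb)
      have h2 := Subgroup.mul_mem _ hb h1
      have e : b * q * b⁻¹ * q⁻¹ = b * (q * b⁻¹ * q⁻¹) := by group
      rw [e]
      exact h2
    · exact Subgroup.mul_mem _ (hQ.conj_mem q hq b) (Subgroup.inv_mem _ hq)
  intro q hq l hl
  exact (Subgroup.normalClosure_le_normal hBK hl) q hq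

end Cfsg.Agent.Lib.Helper48.BN
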