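import Cfsg.Agent.Lib.Helper48.BN.Defs
import Cfsg.Agent.S1241

set_option autoImplicit false

namespace Cfsg.Agent.Lib.Helper48.BN

open scoped Pointwise
open Cfsg Cfsg.Agent.Lib.Helper33

/-- Transfer.  Suppose `g ∈ T ∩ L'`, `g ∉ B`; apply `Cfsg.Agent.S1241.result` with `H = T`, `K = B`.  Control of fusion: let
`a g^m a⁻¹ ∈ T`.  `T / D` is an abelian Sylow `p`-subgroup of `L ⧸ D` (`Sylow.mapSurjective`), so by Burnside
(`Sylow.conj_eq_normalizer_conj_of_mem`) there is `n` with `n D ∈ N(T/D)`, i.e. `n ∈ N_L(T)` (as `D ≤ T`), and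
`a g^m a⁻¹ ∈ n g^m n⁻¹ D`.  Write `g^m = b e`; then `n b e n⁻¹ (b e)⁻¹ = (n b n⁻¹) (n e n⁻¹ e⁻¹) b⁻¹ ∈ B D B = B`. -/
theorem transfer_abs {L : Type*} [Group L] [Finite L] {p : ℕ} [Fact p.Prime] (T : Sylow p L)
    (D B E : Subgroup L) [D.Normal] (hDB : D ≤ B) (hBT : B ≤ (T : Subgroup L))
    (hT : ∀ t ∈ (T : Subgroup L), ∃ b ∈ B, ∃ e ∈ E, t = b * e)
    (hE : ∀ e ∈ E, ∀ l : L, l * e * l⁻¹ * e⁻¹ ∈ D)
    (hab : ∀ x ∈ (T : Subgroup L), ∀ y ∈ (T : Subgroup L), x * y * x⁻¹ * y⁻¹ ∈ D)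
    (hN : Subgroup.normalizer ((T : Subgroup L) : Set L) ≤ Subgroup.normalizer (B : Set L)) :
    (T : Subgroup L) ⊓ commutator L ≤ B := by
  intro g hg
  by_contra hgB
  have hp : p.Prime := Fact.out
  have hgT : g ∈ (T : Subgroup L) := hg.1
  have hgc : g ∈ commutator L := hg.2
  refine Cfsg.Agent.S1241.result (p := p) (T : Subgroup L) B hBT ?_ ?_ ?_ g hgT hgB ?_ ?_ hgc
  · rw [Subgroup.normal_subgroupOf_iff_le_normalizer hBT]
    exact Subgroup.le_normalizer.trans hN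
  · intro x hx y hy
    exact hDB (hab x hx y hy)
  · exact (Nat.Prime.coprime_iff_not_dvd hp).mpr T.not_dvd_index
  · obtain ⟨k, hk⟩ := T.2 ⟨g, hgT⟩
    have hk' : g ^ p ^ k = 1 := by
      have := congrArg Subtype.val hk
      simpa using this
    obtain ⟨j, -, hj⟩ := (Nat.dvd_prime_pow hp).mp (orderOf_dvd_of_pow_eq_one hk')
    exact ⟨j, hj⟩
  · intro m a ha
    set x : L := g ^ m with hx
    have hxT : x ∈ (T : Subgroup L) := Subgroup.zpow_mem _ hgT m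
    let π : L →* L ⧸ D := QuotientGroup.mk' D
    have hπ : Function.Surjective π := QuotientGroup.mk'_surjective D
    let Tb : Sylow p (L ⧸ D) := T.mapSurjective hπ
    have hDT : D ≤ (T : Subgroup L) := hDB.trans hBT
    have hone : ∀ u : L, π u = 1 ↔ u ∈ D := fun u => QuotientGroup.eq_one_iff u
    have hmemT : ∀ h : L, π h ∈ (Tb : Subgroup (L ⧸ D)) ↔ h ∈ (T : Subgroup L) := by
      intro h
      constructor
      · rintro ⟨t, ht, e⟩
        have h1 : π (t⁻¹ * h) = 1 := by rw [map_mul, map_inv, e, inv_mul_cancel]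
        have h2 := hDT ((hone _).mp h1)
        have := (T : Subgroup L).mul_mem ht h2
        simpa using this
      · intro hh
        exact ⟨h, hh, rfl⟩
    have hcent : ∀ t ∈ (T : Subgroup L), π t ∈ Subgroup.centralizer ((Tb : Subgroup (L ⧸ D)) : Set (L ⧸ D)) := by
      intro t ht
      rw [Subgroup.mem_centralizer_iff]
      rintro _ ⟨s, hs, rfl⟩
      have h1 : π (s * t * s⁻¹ * t⁻¹) = 1 := (hone _).mpr (hab s hs t ht)
      simp only [map_mul, map_inv] at h1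
      have h2 := mul_inv_eq_one.mp h1
      exact mul_inv_eq_iff_eq_mul.mp h2
    have hy : (π a⁻¹)⁻¹ * π x * π a⁻¹ ∈ Subgroup.centralizer ((Tb : Subgroup (L ⧸ D)) : Set (L ⧸ D)) := by
      have := hcent _ ha
      simpa using this
    obtain ⟨nb, hnb, hconj⟩ :=
      Tb.conj_eq_normalizer_conj_of_mem_centralizer (π x) (π a⁻¹) (hcent x hxT) hy
    obtain ⟨n', rfl⟩ := hπ nb
    have hn' : n' ∈ Subgroup.normalizer ((T : Subgroup L) : Set L) := by
      rw [Subgroup.mem_normalizer_iff]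
      intro h
      have hnb' : π n' ∈ Subgroup.normalizer ((Tb : Subgroup (L ⧸ D)) : Set (L ⧸ D)) := hnb
      rw [Subgroup.mem_normalizer_iff] at hnb'
      have := hnb' (π h)
      rw [hmemT] at this
      rw [this, ← hmemT]
      simp
    have hn : n'⁻¹ ∈ Subgroup.normalizer (B : Set L) := hN (Subgroup.inv_mem _ hn')
    have h1 : (a * x * a⁻¹) * (n'⁻¹ * x * n')⁻¹ ∈ D := by
      rw [← hone]
      have e1 : π (a * x * a⁻¹) = π (n'⁻¹ * x * n') := by
        simpa using hconj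
      rw [map_mul, map_inv, e1, mul_inv_cancel]
    obtain ⟨b, hb, e, he, hxbe⟩ := hT x hxT
    have h2 : (n'⁻¹ * x * n') * x⁻¹ ∈ B := by
      have e2 : (n'⁻¹ * x * n') * x⁻¹ = (n'⁻¹ * b * n'⁻¹⁻¹) * (n'⁻¹ * e * n'⁻¹⁻¹ * e⁻¹) * b⁻¹ := by
        rw [hxbe]; group
      rw [e2]
      refine B.mul_mem (B.mul_mem ?_ (hDB (hE e he _))) (B.inv_mem hb)
      exact (Subgroup.mem_normalizer_iff.mp hn b).mp hb
    have e3 : a * x * a⁻¹ * x⁻¹ = ((a * x * a⁻¹) * (n'⁻¹ * x * n')⁻¹) * ((n'⁻¹ * x * n') * x⁻¹) := by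
      group
    rw [e3]
    exact B.mul_mem (hDB h1) h2

end Cfsg.Agent.Lib.Helper48.BN
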