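import Cfsg.Agent.Lib.Helper48.BN.Defs

set_option autoImplicit false

namespace Cfsg.Agent.Lib.Helper48.BN

open scoped Pointwise
open Cfsg Cfsg.Agent.Lib.Helper33

/-- characters separate: apply `CommGroup.exists_apply_ne_one_of_hasEnoughRootsOfUnity` to `V ⧸ V₀`. -/
theorem exists_char {V : Type*} [CommGroup V] [Finite V] (V₀ : Subgroup V) (x : V) (hx : x ∉ V₀) :
    ∃ f : V →* ℂˣ, (∀ v ∈ V₀, f v = 1) ∧ f x ≠ 1 := by
  have hx' : (QuotientGroup.mk' V₀ x) ≠ 1 := by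
    intro h
    exact hx ((QuotientGroup.eq_one_iff x).mp h)
  obtain ⟨φ, hφ⟩ := CommGroup.exists_apply_ne_one_of_hasEnoughRootsOfUnity (V ⧸ V₀) ℂ hx'
  refine ⟨φ.comp (QuotientGroup.mk' V₀), ?_, hφ⟩
  intro v hv
  have : QuotientGroup.mk' V₀ v = 1 := (QuotientGroup.eq_one_iff v).mpr hv
  simp only [MonoidHom.comp_apply, this, map_one]

end Cfsg.Agent.Lib.Helper48.BN
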