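import Cfsg.Agent.Lib.Helper48.BN.Defs
import Cfsg.Agent.Lib.Helper5.SL2SylowP

set_option autoImplicit false

namespace Cfsg.Agent.Lib.Helper48.BN

open scoped Pointwise
open Cfsg Cfsg.Agent.Lib.Helper33

open Matrix Cfsg.Agent.Lib.Helper46.SL2Nat

variable {F : Type*} [Field F] [Finite F] (p : ℕ) [Fact p.Prime] [CharP F p]

theorem sl2_ti (P P' : Sylow p (SpecialLinearGroup (Fin 2) F)) (h : P ≠ P') :
    (P : Subgroup (SpecialLinearGroup (Fin 2) F)) ⊓ (P' : Subgroup (SpecialLinearGroup (Fin 2) F)) = ⊥ := by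
  obtain ⟨g, hg⟩ := sylow_eq_conj_U p P
  obtain ⟨k, hk⟩ := sylow_eq_conj_U p P'
  have hD : g 0 0 * k 1 0 - g 1 0 * k 0 0 ≠ 0 := by
    intro hD
    apply h
    ext x
    change x ∈ P ↔ x ∈ P'
    rw [hg, hk, conj_mem_U_iff, conj_mem_U_iff]
    exact ⟨Cfsg.Agent.Lib.Helper5.fix_of_det_zero g k x hD,
      Cfsg.Agent.Lib.Helper5.fix_of_det_zero k g x (by linear_combination -hD)⟩
  rw [eq_bot_iff]
  rintro x ⟨hx1, hx2⟩
  have h1 := (conj_mem_U_iff g x).1 ((hg x).1 hx1)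
  have h2 := (conj_mem_U_iff k x).1 ((hk x).1 hx2)
  have a0 := congrFun h1 0
  have a1 := congrFun h1 1
  have b0 := congrFun h2 0
  have b1 := congrFun h2 1
  rw [mulVec_0] at a0 b0
  rw [mulVec_1] at a1 b1
  simp only [Matrix.cons_val_zero, Matrix.cons_val_one] at a0 a1 b0 b1
  rw [Subgroup.mem_bot]
  apply ext2
  · rw [one_00]
    have : (x 0 0 - 1) * (g 0 0 * k 1 0 - g 1 0 * k 0 0) = 0 := by
      linear_combination (k 1 0) * a0 - (g 1 0) * b0
    exact sub_eq_zero.1 ((mul_eq_zero.1 this).resolve_right hD)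
  · rw [one_01]
    have : (x 0 1) * (g 0 0 * k 1 0 - g 1 0 * k 0 0) = 0 := by
      linear_combination -(k 0 0) * a0 + (g 0 0) * b0
    exact (mul_eq_zero.1 this).resolve_right hD
  · rw [one_10]
    have : (x 1 0) * (g 0 0 * k 1 0 - g 1 0 * k 0 0) = 0 := by
      linear_combination (k 1 0) * a1 - (g 1 0) * b1
    exact (mul_eq_zero.1 this).resolve_right hD
  · rw [one_11]
    have : (x 1 1 - 1) * (g 0 0 * k 1 0 - g 1 0 * k 0 0) = 0 := by
      linear_combination -(k 0 0) * a1 + (g 0 0) * b1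
    exact sub_eq_zero.1 ((mul_eq_zero.1 this).resolve_right hD)

theorem sl2_ab (P : Sylow p (SpecialLinearGroup (Fin 2) F)) :
    ∀ x ∈ (P : Subgroup (SpecialLinearGroup (Fin 2) F)), ∀ y ∈ (P : Subgroup (SpecialLinearGroup (Fin 2) F)),
      x * y = y * x := by
  obtain ⟨g, hg⟩ := sylow_eq_conj_U p P
  intro x hx y hy
  have h1 := eq_u_of_mem ((hg x).1 hx)
  have h2 := eq_u_of_mem ((hg y).1 hy)
  have hc : (g⁻¹ * x * g) * (g⁻¹ * y * g) = (g⁻¹ * y * g) * (g⁻¹ * x * g) := by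
    rw [h1, h2, ← u_add, ← u_add, add_comm]
  have e1 : (g⁻¹ * x * g) * (g⁻¹ * y * g) = g⁻¹ * (x * y) * g := by group
  have e2 : (g⁻¹ * y * g) * (g⁻¹ * x * g) = g⁻¹ * (y * x) * g := by group
  rw [e1, e2] at hc
  exact mul_left_cancel (mul_right_cancel hc)

theorem sl2_two : ∃ P P' : Sylow p (SpecialLinearGroup (Fin 2) F), P ≠ P' := by
  by_contra hcon
  push Not at hcon
  have hsub : Subsingleton (Sylow p (SpecialLinearGroup (Fin 2) F)) := ⟨hcon⟩
  obtain ⟨P, hP⟩ := (isPGroup_U (F := F) p).exists_le_sylow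
  have hn : (P : Subgroup (SpecialLinearGroup (Fin 2) F)).Normal := Sylow.normal_of_subsingleton P
  have hbot := normal_pgroup_eq_bot p (P : Subgroup (SpecialLinearGroup (Fin 2) F)) P.2
  have h1 : u (1 : F) ∈ (P : Subgroup (SpecialLinearGroup (Fin 2) F)) := hP (u_mem 1)
  rw [hbot, Subgroup.mem_bot, u_eq_one_iff] at h1
  exact one_ne_zero h1

theorem sl2_center_coprime :
    (Nat.card (Subgroup.center (SpecialLinearGroup (Fin 2) F))).Coprime p := by
  have hp : p.Prime := Fact.out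
  rw [Nat.coprime_comm, Nat.Prime.coprime_iff_not_dvd hp]
  intro hdvd
  obtain ⟨z, hz⟩ := exists_prime_orderOf_dvd_card' (G := Subgroup.center (SpecialLinearGroup (Fin 2) F)) p hdvd
  have hzo : orderOf (z : SpecialLinearGroup (Fin 2) F) = p := by
    rw [Subgroup.orderOf_coe]; exact hz
  have hn : (Subgroup.zpowers (z : SpecialLinearGroup (Fin 2) F)).Normal := by
    apply normal_of_le_center
    rw [Subgroup.zpowers_le]
    exact z.2
  have hpg : IsPGroup p (Subgroup.zpowers (z : SpecialLinearGroup (Fin 2) F)) := by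
    apply IsPGroup.of_card (n := 1)
    rw [Nat.card_zpowers, hzo, pow_one]
  have hbot := normal_pgroup_eq_bot p _ hpg
  have h1 : (z : SpecialLinearGroup (Fin 2) F) ∈ Subgroup.zpowers (z : SpecialLinearGroup (Fin 2) F) :=
    Subgroup.mem_zpowers _
  rw [hbot, Subgroup.mem_bot] at h1
  rw [h1, orderOf_one] at hzo
  exact hp.one_lt.ne hzo

end Cfsg.Agent.Lib.Helper48.BN
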