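import Cfsg.Agent.Lib.Helper48.BN.Defs

set_option autoImplicit false
set_option linter.unusedSectionVars false

namespace Cfsg.Agent.Lib.Helper48.BN

open scoped Pointwise
open Cfsg Cfsg.Agent.Lib.Helper33

variable {G : Type*} [Group G] [Finite G] {p : ℕ} [Fact p.Prime]

/-- if `S` is normal then `G ⧸ K` has only one Sylow `p`-subgroup (all are `(g • S).map mk = S.map mk`,
`Sylow.mapSurjective_surjective`); then `isPMinimal_of_sylow`. -/
theorem isPMinimal_of_rankOne (S : Sylow p G) (K : Subgroup G) [K.Normal] (h : RankOne p (G ⧸ K))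
    (hE₂ : ∃! M : Subgroup G, IsCoatom M ∧ (S : Subgroup G) ≤ M) : IsPMinimal p G := by
  apply isPMinimal_of_sylow S _ hE₂
  intro hn
  obtain ⟨P, P', hne⟩ := h.two
  have hu := Sylow.unique_of_normal S hn
  obtain ⟨P₀, rfl⟩ := Sylow.mapSurjective_surjective (QuotientGroup.mk'_surjective K) p P
  obtain ⟨P₀', rfl⟩ := Sylow.mapSurjective_surjective (QuotientGroup.mk'_surjective K) p P'
  exact hne (by rw [Subsingleton.elim P₀ P₀'])

/-- if `K S = G` then `G ⧸ K` is a `p`-group (`isPGroup_quotient_of_sup_eq_top`) and has only one Sylow `p`-subgroup. -/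
theorem K_sup_ne_top (S : Sylow p G) (K : Subgroup G) [K.Normal] (h : RankOne p (G ⧸ K)) :
    K ⊔ (S : Subgroup G) ≠ ⊤ := by
  intro htop
  have hp : IsPGroup p (G ⧸ K) := isPGroup_quotient_of_sup_eq_top S K htop
  obtain ⟨P, P', hne⟩ := h.two
  have h1 : ∀ R : Sylow p (G ⧸ K), (R : Subgroup (G ⧸ K)) = ⊤ := fun R =>
    (R.is_maximal' (hp.to_subgroup ⊤) le_top).symm
  exact hne (Sylow.ext ((h1 P).trans (h1 P').symm))

/-- `dich_pmin` and `K_sup_ne_top`. -/
theorem S_inf_K_le (hP : IsPMinimal p G) (S : Sylow p G) (K : Subgroup G) [K.Normal] (h : RankOne p (G ⧸ K)) :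
    (S : Subgroup G) ⊓ K ≤ pCore p G :=
  (dich_pmin hP S K).resolve_right (K_sup_ne_top S K h)

theorem setup_ab (hP : IsPMinimal p G) (S : Sylow p G) (K : Subgroup G) [K.Normal] (h : RankOne p (G ⧸ K)) :
    ∀ x ∈ (S : Subgroup G), ∀ y ∈ (S : Subgroup G), x * y * x⁻¹ * y⁻¹ ∈ pCore p G := by
  intro x hx y hy
  apply S_inf_K_le hP S K h
  refine ⟨Subgroup.mul_mem _ (Subgroup.mul_mem _ (Subgroup.mul_mem _ hx hy) (Subgroup.inv_mem _ hx))
    (Subgroup.inv_mem _ hy), ?_⟩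
  have hc := h.ab (S.mapSurjective (QuotientGroup.mk'_surjective K)) (QuotientGroup.mk' K x)
    (Subgroup.mem_map_of_mem _ hx) (QuotientGroup.mk' K y) (Subgroup.mem_map_of_mem _ hy)
  have hk : x * y * x⁻¹ * y⁻¹ ∈ (QuotientGroup.mk' K).ker := by
    rw [MonoidHom.mem_ker, map_mul, map_mul, map_mul, map_inv, map_inv, hc,
      mul_inv_cancel_right, mul_inv_cancel]
  rw [QuotientGroup.ker_mk'] at hk
  exact hk

end Cfsg.Agent.Lib.Helper48.BN
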