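import Cfsg.Agent.Lib.Helper48.BN.R4a

set_option autoImplicit false
set_option linter.unusedSectionVars false

namespace Cfsg.Agent.Lib.Helper48.BN

open scoped Pointwise
open Cfsg Cfsg.Agent.Lib.Helper33

variable {G : Type*} [Group G] [Finite G] {p : ℕ} [Fact p.Prime]

/-- Frattini: if `π n` normalizes `S.map π` (`π = mk' K`) then `n S n⁻¹ ≤ S K`, so `n S n⁻¹ = k S k⁻¹` for some `k ∈ K`
(Sylow in `S K`; an element `s k` of `S K` conjugates `S` like ... adjust), so `n ∈ K N_G(S)`. -/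
theorem normalizer_map_le (S : Sylow p G) (K : Subgroup G) [K.Normal] (n : G)
    (hn : QuotientGroup.mk' K n ∈ Subgroup.normalizer
      (((S : Subgroup G).map (QuotientGroup.mk' K) : Subgroup (G ⧸ K)) : Set (G ⧸ K))) :
    ∃ k ∈ K, ∃ m ∈ Subgroup.normalizer ((S : Subgroup G) : Set G), n = k * m := by
  have hS : (S : Subgroup G) ≤ K ⊔ (S : Subgroup G) := le_sup_right
  have hnS : ((n • S : Sylow p G) : Subgroup G) ≤ K ⊔ (S : Subgroup G) := by
    intro x hx
    rw [Sylow.coe_subgroup_smul, Subgroup.mem_pointwise_smul_iff_inv_smul_mem] at hx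
    have hx' : n⁻¹ * x * n ∈ (S : Subgroup G) := by
      simpa [MulAut.smul_def] using hx
    have h1 := (Subgroup.mem_normalizer_iff.mp hn _).mp
      (Subgroup.mem_map_of_mem (QuotientGroup.mk' K) hx')
    rw [← map_inv, ← map_mul, ← map_mul] at h1
    have h2 : n * (n⁻¹ * x * n) * n⁻¹ = x := by group
    rw [h2] at h1
    have h3 : x ∈ ((S : Subgroup G).map (QuotientGroup.mk' K)).comap (QuotientGroup.mk' K) := h1
    rw [Subgroup.comap_map_eq, QuotientGroup.ker_mk', sup_comm] at h3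
    exact h3
  obtain ⟨l, hl⟩ := MulAction.exists_smul_eq (K ⊔ (S : Subgroup G) : Subgroup G) (S.subtype hS)
    ((n • S).subtype hnS)
  rw [Sylow.smul_subtype] at hl
  have hl' : (l : G) • S = n • S := Sylow.subtype_injective hl
  obtain ⟨k, hk, s, hs, hks⟩ : ∃ k ∈ K, ∃ s ∈ (S : Subgroup G), k * s = (l : G) := by
    have := l.2
    rw [← SetLike.mem_coe, Subgroup.normal_mul] at this
    obtain ⟨k, hk, s, hs, h⟩ := Set.mem_mul.mp this
    exact ⟨k, hk, s, hs, h⟩
  have hsS : s • S = S := Sylow.smul_eq_iff_mem_normalizer.mpr (Subgroup.le_normalizer hs)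
  have hkS : k • S = n • S := by
    rw [← hl', ← hks, mul_smul, hsS]
  refine ⟨k, hk, k⁻¹ * n, ?_, by group⟩
  have h5 : (k⁻¹ * n) • S = S := by rw [mul_smul, ← hkS, inv_smul_smul]
  exact Sylow.smul_eq_iff_mem_normalizer.mp h5

/-- `H.map π ≤ S.map π` is `≠ ⊥` (`H ≰ K` by `S_inf_K_le`) and invariant under `N(S.map π)` by `normalizer_map_le`; by `h.irr`
`H.map π = S.map π`, so `S ≤ H K`, so `S ≤ H (S ∩ K) ≤ H O_p(G)`. -/
theorem setup_irr (hP : IsPMinimal p G) (S : Sylow p G) (K : Subgroup G) [K.Normal] (h : RankOne p (G ⧸ K)) :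
    ∀ H : Subgroup G, H ≤ (S : Subgroup G) →
    Subgroup.normalizer ((S : Subgroup G) : Set G) ≤ Subgroup.normalizer (H : Set G) →
    ¬ H ≤ pCore p G → H ⊔ pCore p G = (S : Subgroup G) := by
  intro H hHS hN hH
  have hmap : H.map (QuotientGroup.mk' K) = (S : Subgroup G).map (QuotientGroup.mk' K) := by
    apply h.irr (S.mapSurjective (QuotientGroup.mk'_surjective K)) _ (Subgroup.map_mono hHS)
    · intro hbot
      apply hH
      rw [Subgroup.map_eq_bot_iff, QuotientGroup.ker_mk'] at hbot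
      exact (le_inf hHS hbot).trans (S_inf_K_le hP S K h)
    · intro y hy x hx
      obtain ⟨n, rfl⟩ := QuotientGroup.mk'_surjective K y
      obtain ⟨a, ha, rfl⟩ := hx
      obtain ⟨k, hk, m, hm, rfl⟩ := normalizer_map_le S K n hy
      have hk1 : QuotientGroup.mk' K k = 1 := by
        rw [← MonoidHom.mem_ker, QuotientGroup.ker_mk']; exact hk
      rw [map_mul, hk1, one_mul, ← map_inv, ← map_mul, ← map_mul]
      exact Subgroup.mem_map_of_mem _ ((Subgroup.mem_normalizer_iff.mp (hN hm) a).mp ha)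
  apply le_antisymm (sup_le hHS (pCore_le S))
  intro s hs
  have h1 : s ∈ (H.map (QuotientGroup.mk' K)).comap (QuotientGroup.mk' K) := by
    rw [hmap]
    exact Subgroup.mem_map_of_mem _ hs
  rw [Subgroup.comap_map_eq, QuotientGroup.ker_mk', ← SetLike.mem_coe, Subgroup.mul_normal] at h1
  obtain ⟨a, ha, k, hk, rfl⟩ := Set.mem_mul.mp h1
  have hkS : k ∈ (S : Subgroup G) := by
    have := Subgroup.mul_mem _ (Subgroup.inv_mem _ (hHS ha)) hs
    rwa [inv_mul_cancel_left] at this
  exact Subgroup.mul_mem_sup ha (S_inf_K_le hP S K h ⟨hkS, hk⟩)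

end Cfsg.Agent.Lib.Helper48.BN
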